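import Cfsg.Agent.ClassConj.Norm
import Cfsg.Agent.Forms.Witt
import Cfsg.Agent.SympSub.Iso

/-!
Semisimple isometries that are conjugate in the general linear group are conjugate in the
isometry group: symplectic forms, and odd order for quadratic forms.
-/

set_option autoImplicit false

namespace Cfsg.Agent.ClassConj

open Module

variable {F : Type*} [Field F] {V V' : Type*} [AddCommGroup V] [Module F V] [FiniteDimensional F V]
  [AddCommGroup V'] [Module F V'] [FiniteDimensional F V']

section Reg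

variable [Finite F]

/-- Two forms invariant under `T` are related through the centraliser of `T` if `T ^ 2` fixes
nothing. -/
theorem exists_pullback_isometry {β β' : LinearMap.BilinForm F V} {ε : F} (hε : ε * ε = 1)
    (hβ : β.Nondegenerate) (hβ' : β'.Nondegenerate) (hs : ∀ x y, β x y = ε * β y x)
    (hs' : ∀ x y, β' x y = ε * β' y x) (T : V ≃ₗ[F] V) (hT : ∀ x y, β (T x) (T y) = β x y)
    (hT' : ∀ x y, β' (T x) (T y) = β' x y) (hfix : ∀ x, T (T x) = x → x = 0) :
    ∃ c : V ≃ₗ[F] V, (∀ x, c (T x) = T (c x)) ∧ ∀ x y, β (c x) (c y) = β' x y := by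
  haveI : Finite V := Module.finite_of_finite F
  haveI : Finite (Module.End F V) := Finite.of_injective _ DFunLike.coe_injective
  let adj : Module.End F V → Module.End F V := fun f =>
    (β.toDual hβ).symm.toLinearMap ∘ₗ f.dualMap ∘ₗ (β.toDual hβ).toLinearMap
  have hadj : ∀ f x y, β (adj f x) y = β x (f y) := fun f x y => by
    simp [adj, LinearMap.BilinForm.toDual_def]
  have huniq : ∀ f g : Module.End F V, (∀ x y, β (g x) y = β x (f y)) → adj f = g := fun f g h =>
    LinearMap.ext fun x => sub_eq_zero.1 <| hβ.1 _ fun y => by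
      rw [map_sub, LinearMap.sub_apply, hadj, h, sub_self]
  have hswap : ∀ f x y, β (f x) y = β x (adj f y) := fun f x y => by
    rw [hs, ← hadj, ← hs]
  let h : Module.End F V := (β.toDual hβ).symm.toLinearMap ∘ₗ β'
  have hh : ∀ x y, β (h x) y = β' x y := fun x y => by simp [h]
  have hTi : ∀ x y, β (T x) y = β x (T.symm y) := fun x y => by
    conv_lhs => rw [← T.apply_symm_apply y, hT]
  have hTi' : ∀ x y, β' (T x) y = β' x (T.symm y) := fun x y => by
    conv_lhs => rw [← T.apply_symm_apply y, hT']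
  have hhT : ∀ x, h (T x) = T (h x) := fun x => sub_eq_zero.1 <| hβ.1 _ fun y => by
    rw [map_sub, LinearMap.sub_apply, hh, hTi', hTi, hh, sub_self]
  have hself : adj h = h := huniq h h fun x y => by
    rw [hh, hs x (h y), hh, hs' x y]
  have hTs : adj (T : Module.End F V) = (T.symm : Module.End F V) := huniq _ _ fun x y => by
    show β (T.symm x) y = β x (T y)
    conv_rhs => rw [← T.apply_symm_apply x, hT]
  have hinj : Function.Injective h := by
    rw [injective_iff_map_eq_zero]
    intro x hx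
    exact hβ'.1 _ fun y => by rw [← hh, hx]; simp
  obtain ⟨c, hcu, hcc, hcomm⟩ := exists_star_mul_eq adj
    (fun f g => huniq _ _ fun x y => by simp [hadj])
    (fun f g => huniq _ _ fun x y => by
      show β (adj g (adj f x)) y = β x (f (g y))
      rw [hadj, hadj])
    (fun f => huniq _ _ fun x y => hswap f x y)
    (h := h) (θ := (T : Module.End F V)) hself
    ((Module.End.isUnit_iff _).2 ⟨hinj, LinearMap.surjective_of_injective hinj⟩)
    (LinearMap.ext fun x => (hhT x).symm)
    (by
      rw [hTs]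
      exact LinearMap.ext fun x => (T.apply_symm_apply x).trans (T.symm_apply_apply x).symm)
    (by
      rw [hTs]
      have hi : Function.Injective ((T : Module.End F V) - (T.symm : Module.End F V)) := by
        rw [injective_iff_map_eq_zero]
        intro x hx
        apply hfix
        have hx' : T x = T.symm x := sub_eq_zero.1 hx
        rw [hx', T.apply_symm_apply]
      exact (Module.End.isUnit_iff _).2 ⟨hi, LinearMap.surjective_of_injective hi⟩)
  have hcb := (Module.End.isUnit_iff c).1 hcu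
  refine ⟨LinearEquiv.ofBijective c hcb, fun x => ?_, fun x y => ?_⟩
  · exact (LinearMap.congr_fun (hcomm (T : Module.End F V) (LinearMap.ext fun x => (hhT x).symm)
      (Commute.refl _) (by
        rw [hTs]
        exact LinearMap.ext fun x => (T.apply_symm_apply x).trans (T.symm_apply_apply x).symm)).eq x).symm
  · show β (c x) (c y) = β' x y
    rw [← hh, ← hcc, ← hadj]
    rfl

/-- Regular case: linearly conjugate isometries are isometrically conjugate. -/
theorem exists_intertwiner_of_fix_eq_zero {β : LinearMap.BilinForm F V}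
    {β' : LinearMap.BilinForm F V'} {ε : F} (hε : ε * ε = 1) (hβ : β.Nondegenerate)
    (hβ' : β'.Nondegenerate) (hs : ∀ x y, β x y = ε * β y x) (hs' : ∀ x y, β' x y = ε * β' y x)
    (T : V ≃ₗ[F] V) (T' : V' ≃ₗ[F] V') (hT : ∀ x y, β (T x) (T y) = β x y)
    (hT' : ∀ x y, β' (T' x) (T' y) = β' x y) (g : V ≃ₗ[F] V') (hg : ∀ x, g (T x) = T' (g x))
    (hfix : ∀ x, T (T x) = x → x = 0) :
    ∃ f : V ≃ₗ[F] V', (∀ x, f (T x) = T' (f x)) ∧ ∀ x y, β' (f x) (f y) = β x y := by
  obtain ⟨c, hc, hcβ⟩ := exists_pullback_isometry hε hβ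
    (β' := β'.compl₁₂ g.toLinearMap g.toLinearMap)
    ⟨fun x hx => g.injective (by rw [map_zero]; exact hβ'.1 _ fun y => by simpa using hx (g.symm y)),
      fun y hy => g.injective (by rw [map_zero]; exact hβ'.2 _ fun x => by simpa using hy (g.symm x))⟩
    hs (fun x y => hs' (g x) (g y)) T hT (fun x y => by simp [hg, hT']) hfix
  refine ⟨c.symm.trans g, fun x => ?_, fun x y => ?_⟩
  · have : c.symm (T x) = T (c.symm x) := c.injective (by rw [hc, c.apply_symm_apply, c.apply_symm_apply])
    simp [this, hg]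
  · have := hcβ (c.symm x) (c.symm y)
    simpa using this.symm

end Reg

/-! ### Splitting off an eigenspace -/

/-- The map `T - s`. -/
def shiftMap (T : V ≃ₗ[F] V) (s : F) : Module.End F V := T.toLinearMap - s • LinearMap.id

theorem shiftMap_apply (T : V ≃ₗ[F] V) (s : F) (x : V) : shiftMap T s x = T x - s • x := rfl

theorem mem_ker_shiftMap {T : V ≃ₗ[F] V} {s : F} {x : V} :
    x ∈ LinearMap.ker (shiftMap T s) ↔ T x = s • x := by
  rw [LinearMap.mem_ker, shiftMap_apply, sub_eq_zero]

/-- For `T` of order prime to the characteristic the eigenspace has the image as complement. -/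
theorem isCompl_shift (T : V ≃ₗ[F] V) {m : ℕ} (hm : (m : F) ≠ 0) (hTm : ∀ x, T^[m] x = x) (s : F) :
    IsCompl (LinearMap.ker (shiftMap T s)) (LinearMap.range (shiftMap T s)) := by
  rw [Submodule.isCompl_iff_disjoint _ _ (le_of_eq
    ((add_comm _ _).trans (LinearMap.finrank_range_add_finrank_ker (shiftMap T s))).symm),
    Submodule.disjoint_def]
  rintro y hy ⟨x, rfl⟩
  set y := shiftMap T s x with hy'
  rw [mem_ker_shiftMap] at hy
  have hTx : T x = s • x + y := by rw [hy', shiftMap_apply]; abel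
  have hpy : ∀ k, T^[k] y = s ^ k • y := fun k => by
    induction k with
    | zero => simp
    | succ k ih => rw [Function.iterate_succ_apply', ih, map_smul, hy, smul_smul, pow_succ]
  have hpx : ∀ k, s • T^[k] x = s ^ (k + 1) • x + ((k : F) * s ^ k) • y := fun k => by
    induction k with
    | zero => simp
    | succ k ih =>
      rw [Function.iterate_succ_apply', ← map_smul, ih, map_add, map_smul, map_smul, hTx, hy,
        smul_add, smul_smul, smul_smul, ← pow_succ]
      push_cast
      rw [add_assoc, ← add_smul]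
      congr 1
      congr 1
      ring
  by_contra hne
  have hsm : s ^ m = 1 := by
    have h := hpy m
    rw [hTm] at h
    have : (s ^ m - 1) • y = 0 := by rw [sub_smul, one_smul, ← h, sub_self]
    exact sub_eq_zero.1 ((smul_eq_zero.1 this).resolve_right hne)
  have h := hpx m
  rw [hTm, pow_succ, hsm, one_mul, mul_one] at h
  exact hne ((smul_eq_zero.1 (left_eq_add.1 h)).resolve_left hm)

/-- The complement of an eigenspace is orthogonal to it. -/
theorem shift_orth {β : LinearMap.BilinForm F V} {T : V ≃ₗ[F] V} (hT : ∀ x y, β (T x) (T y) = β x y)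
    {s : F} (hs : s * s = 1) {r z : V} (hr : r ∈ LinearMap.range (shiftMap T s))
    (hz : z ∈ LinearMap.ker (shiftMap T s)) : β r z = 0 := by
  obtain ⟨x, rfl⟩ := hr
  rw [mem_ker_shiftMap] at hz
  rw [shiftMap_apply, map_sub, LinearMap.sub_apply, map_smul, LinearMap.smul_apply]
  have : β (T x) z = s * β x z := by
    conv_lhs => rw [show z = s • T z by rw [hz, smul_smul, hs, one_smul], map_smul, hT]
    rfl
  rw [this, smul_eq_mul, sub_self]

omit [FiniteDimensional F V] in
theorem restrict_nondeg {β : LinearMap.BilinForm F V} (hβ : β.Nondegenerate) (hR : β.IsRefl)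
    {X Y : Submodule F V} (hXY : IsCompl X Y) (ho : ∀ x ∈ X, ∀ y ∈ Y, β x y = 0) :
    (β.restrict X).Nondegenerate := by
  suffices hL : ∀ x : X, (∀ y, β.restrict X x y = 0) → x = 0 from
    ⟨hL, fun y hy => hL y fun z => hR _ _ (hy z)⟩
  intro x hx
  refine Subtype.ext (hβ.1 _ fun v => ?_)
  obtain ⟨a, ha, b, hb, rfl⟩ := Submodule.mem_sup.1 (hXY.sup_eq_top.symm ▸ Submodule.mem_top (x := v))
  rw [map_add, ho _ x.2 _ hb, add_zero]
  exact hx ⟨a, ha⟩

/-- Glueing isometries of orthogonal complements. -/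
theorem glue {β : LinearMap.BilinForm F V} {β' : LinearMap.BilinForm F V'} (hR : β.IsRefl)
    (hR' : β'.IsRefl) {T : V ≃ₗ[F] V} {T' : V' ≃ₗ[F] V'} {X Y : Submodule F V}
    {X' Y' : Submodule F V'} (hXY : IsCompl X Y) (hXY' : IsCompl X' Y')
    (ho : ∀ x ∈ X, ∀ y ∈ Y, β x y = 0) (ho' : ∀ x ∈ X', ∀ y ∈ Y', β' x y = 0)
    (f1 : X ≃ₗ[F] X') (f2 : Y ≃ₗ[F] Y')
    (h1 : ∀ a b : X, β' (f1 a : V') (f1 b : V') = β a b) (h2 : ∀ a b : Y, β' (f2 a : V') (f2 b : V') = β a b)
    (t1 : ∀ (a : X) (h : T (a : V) ∈ X), (f1 ⟨T a, h⟩ : V') = T' (f1 a))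
    (t2 : ∀ (a : Y) (h : T (a : V) ∈ Y), (f2 ⟨T a, h⟩ : V') = T' (f2 a))
    (hX : ∀ a ∈ X, T a ∈ X) (hY : ∀ a ∈ Y, T a ∈ Y) :
    ∃ f : V ≃ₗ[F] V', (∀ v, f (T v) = T' (f v)) ∧ ∀ u v, β' (f u) (f v) = β u v := by
  let f : V ≃ₗ[F] V' := ((Submodule.prodEquivOfIsCompl X Y hXY).symm.trans (f1.prodCongr f2)).trans
    (Submodule.prodEquivOfIsCompl X' Y' hXY')
  have hf : ∀ (a : X) (b : Y), f ((a : V) + b) = (f1 a : V') + f2 b := fun a b => by
    have e : (Submodule.prodEquivOfIsCompl X Y hXY).symm ((a : V) + b) = (a, b) := by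
      rw [LinearEquiv.symm_apply_eq]; rfl
    simp only [f, LinearEquiv.trans_apply, e]
    rfl
  have hd : ∀ v : V, ∃ (a : X) (b : Y), (a : V) + b = v := fun v => by
    obtain ⟨a, ha, b, hb, h⟩ := Submodule.mem_sup.1 (hXY.sup_eq_top.symm ▸ Submodule.mem_top (x := v))
    exact ⟨⟨a, ha⟩, ⟨b, hb⟩, h⟩
  refine ⟨f, fun v => ?_, fun u v => ?_⟩
  · obtain ⟨a, b, rfl⟩ := hd v
    rw [map_add T, hf ⟨T a, hX _ a.2⟩ ⟨T b, hY _ b.2⟩, t1, t2, hf, map_add]
  · obtain ⟨a, b, rfl⟩ := hd u
    obtain ⟨c, d, rfl⟩ := hd v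
    rw [hf, hf]
    simp only [map_add, LinearMap.add_apply, h1, h2]
    rw [ho' _ (f1 a).2 _ (f2 d).2, hR' _ _ (ho' _ (f1 c).2 _ (f2 b).2), ho _ a.2 _ d.2,
      hR _ _ (ho _ c.2 _ b.2)]

/-- An invariant subspace transported by an intertwiner. -/
noncomputable def restrEquiv (g : V ≃ₗ[F] V') (X : Submodule F V) (X' : Submodule F V')
    (h : ∀ x, g x ∈ X' ↔ x ∈ X) : X ≃ₗ[F] X' :=
  LinearEquiv.ofBijective ((g.toLinearMap.comp X.subtype).codRestrict X' fun x => (h _).2 x.2)
    ⟨fun a b e => Subtype.ext (g.injective (congrArg Subtype.val e)), fun y =>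
      ⟨⟨g.symm y, (h _).1 (by rw [g.apply_symm_apply]; exact y.2)⟩, Subtype.ext (g.apply_symm_apply _)⟩⟩

@[simp] theorem restrEquiv_apply (g : V ≃ₗ[F] V') (X : Submodule F V) (X' : Submodule F V')
    (h : ∀ x, g x ∈ X' ↔ x ∈ X) (x : X) : ((restrEquiv g X X' h x : X') : V') = g x := rfl

theorem intertwine_shift {T : V ≃ₗ[F] V} {T' : V' ≃ₗ[F] V'} {g : V ≃ₗ[F] V'}
    (hg : ∀ x, g (T x) = T' (g x)) (s : F) :
    (∀ x, g x ∈ LinearMap.ker (shiftMap T' s) ↔ x ∈ LinearMap.ker (shiftMap T s)) ∧
      ∀ x, g x ∈ LinearMap.range (shiftMap T' s) ↔ x ∈ LinearMap.range (shiftMap T s) := by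
  have h : ∀ x, shiftMap T' s (g x) = g (shiftMap T s x) := fun x => by
    rw [shiftMap_apply, shiftMap_apply, map_sub, map_smul, hg]
  refine ⟨fun x => ?_, fun x => ⟨?_, ?_⟩⟩
  · rw [LinearMap.mem_ker, LinearMap.mem_ker, h, map_eq_zero_iff g g.injective]
  · rintro ⟨y, hy⟩
    exact ⟨g.symm y, g.injective (by rw [← h, g.apply_symm_apply, hy])⟩
  · rintro ⟨y, rfl⟩
    exact ⟨g y, h y⟩

theorem range_shift_invariant (T : V ≃ₗ[F] V) (s : F) (x : V) :
    T x ∈ LinearMap.range (shiftMap T s) ↔ x ∈ LinearMap.range (shiftMap T s) :=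
  (intertwine_shift (T' := T) (g := T) (fun _ => rfl) s).2 x

/-- Two non-degenerate alternating spaces of the same dimension are isometric. -/
theorem exists_alt_isometry {β : LinearMap.BilinForm F V} {β' : LinearMap.BilinForm F V'}
    (hA : β.IsAlt) (hβ : β.Nondegenerate) (hA' : β'.IsAlt) (hβ' : β'.Nondegenerate)
    (hd : finrank F V = finrank F V') : ∃ f : V ≃ₗ[F] V', ∀ x y, β' (f x) (f y) = β x y := by
  obtain ⟨l, b, -, -, -⟩ := Forms.exists_symplectic_basis hA hβ
  have hl : finrank F V = 2 * l := by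
    rw [finrank_eq_card_basis b, Fintype.card_sum, Fintype.card_fin]; omega
  obtain ⟨e, he⟩ := SympSub.exists_iso_sympBil hA hβ hl
  obtain ⟨e', he'⟩ := SympSub.exists_iso_sympBil hA' hβ' (hd ▸ hl)
  exact ⟨e.trans e'.symm, fun x y => by rw [← he', ← he]; simp⟩

theorem alt_swap {β : LinearMap.BilinForm F V} (hA : β.IsAlt) (x y : V) : β x y = -1 * β y x := by
  rw [neg_one_mul, LinearMap.IsAlt.neg hA]

/-- Peeling off an eigenspace from linearly conjugate isometries of alternating spaces. -/
theorem alt_split {β : LinearMap.BilinForm F V} {β' : LinearMap.BilinForm F V'}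
    (hA : β.IsAlt) (hβ : β.Nondegenerate) (hA' : β'.IsAlt) (hβ' : β'.Nondegenerate)
    {T : V ≃ₗ[F] V} {T' : V' ≃ₗ[F] V'} (hT : ∀ x y, β (T x) (T y) = β x y)
    (hT' : ∀ x y, β' (T' x) (T' y) = β' x y) {g : V ≃ₗ[F] V'} (hg : ∀ x, g (T x) = T' (g x))
    {m : ℕ} (hm : (m : F) ≠ 0) (hTm : ∀ x, T^[m] x = x) {s : F} (hs : s * s = 1)
    (hrest : ∀ f0 : LinearMap.range (shiftMap T s) ≃ₗ[F] LinearMap.range (shiftMap T' s),
      (∀ (r : LinearMap.range (shiftMap T s)) (h : T r ∈ LinearMap.range (shiftMap T s)),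
        (f0 ⟨T r, h⟩ : V') = T' (f0 r)) →
      ∃ f : LinearMap.range (shiftMap T s) ≃ₗ[F] LinearMap.range (shiftMap T' s),
        (∀ (r : LinearMap.range (shiftMap T s)) (h : T r ∈ LinearMap.range (shiftMap T s)),
          (f ⟨T r, h⟩ : V') = T' (f r)) ∧ ∀ a b, β' (f a : V') (f b : V') = β (a : V) (b : V)) :
    ∃ f : V ≃ₗ[F] V', (∀ x, f (T x) = T' (f x)) ∧ ∀ x y, β' (f x) (f y) = β x y := by
  have hTm' : ∀ y, T'^[m] y = y := fun y => by
    have h : ∀ (k : ℕ) x, g (T^[k] x) = T'^[k] (g x) := fun k x => by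
      induction k with
      | zero => rfl
      | succ k ih => rw [Function.iterate_succ_apply', Function.iterate_succ_apply', hg, ih]
    rw [← g.apply_symm_apply y, ← h, hTm]
  have hc := isCompl_shift T hm hTm s
  have hc' := isCompl_shift T' hm hTm' s
  have ho : ∀ x ∈ LinearMap.ker (shiftMap T s), ∀ y ∈ LinearMap.range (shiftMap T s), β x y = 0 :=
    fun x hx y hy => hA.isRefl _ _ (shift_orth hT hs hy hx)
  have ho' : ∀ x ∈ LinearMap.ker (shiftMap T' s), ∀ y ∈ LinearMap.range (shiftMap T' s), β' x y = 0 :=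
    fun x hx y hy => hA'.isRefl _ _ (shift_orth hT' hs hy hx)
  have hi := intertwine_shift hg s
  obtain ⟨f1, hf1⟩ := exists_alt_isometry (β := β.restrict _) (β' := β'.restrict _)
    (fun x => hA _) (restrict_nondeg hβ hA.isRefl hc ho) (fun x => hA' _)
    (restrict_nondeg hβ' hA'.isRefl hc' ho') (restrEquiv g _ _ hi.1).finrank_eq
  obtain ⟨f2, ht2, hf2⟩ := hrest (restrEquiv g _ _ hi.2) fun r h => by simp [hg]
  refine glue hA.isRefl hA'.isRefl hc hc' ho ho' f1 f2 hf1 hf2 (fun a h => ?_) ht2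
    (fun a ha => by
      rw [mem_ker_shiftMap] at ha ⊢
      rw [ha, map_smul, ha])
    (fun a ha => (range_shift_invariant T s a).2 ha)
  have e : (⟨T a, h⟩ : LinearMap.ker (shiftMap T s)) = s • a := Subtype.ext (mem_ker_shiftMap.1 a.2)
  rw [e, map_smul, mem_ker_shiftMap.1 (f1 a).2]
  rfl

/-- Semisimple symplectic isometries which are linearly conjugate are conjugate by an isometry. -/
theorem exists_symplectic_intertwiner [Finite F] {β : LinearMap.BilinForm F V}
    {β' : LinearMap.BilinForm F V'} (hA : β.IsAlt) (hβ : β.Nondegenerate) (hA' : β'.IsAlt)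
    (hβ' : β'.Nondegenerate) {T : V ≃ₗ[F] V} {T' : V' ≃ₗ[F] V'}
    (hT : ∀ x y, β (T x) (T y) = β x y) (hT' : ∀ x y, β' (T' x) (T' y) = β' x y)
    {g : V ≃ₗ[F] V'} (hg : ∀ x, g (T x) = T' (g x))
    {m : ℕ} (hm : (m : F) ≠ 0) (hTm : ∀ x, T^[m] x = x) :
    ∃ f : V ≃ₗ[F] V', (∀ x, f (T x) = T' (f x)) ∧ ∀ x y, β' (f x) (f y) = β x y := by
  refine alt_split hA hβ hA' hβ' hT hT' hg hm hTm (one_mul (1 : F)) fun f0 hf0 => ?_
  let R := LinearMap.range (shiftMap T 1)
  let R' := LinearMap.range (shiftMap T' 1)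
  let U := restrEquiv T R R (range_shift_invariant T 1)
  let U' := restrEquiv T' R' R' (range_shift_invariant T' 1)
  have hg0 : ∀ r, f0 (U r) = U' (f0 r) := fun r => Subtype.ext (hf0 r _)
  have hUm : ∀ r, U^[m] r = r := fun r => by
    have h : ∀ k, ((U^[k] r : R) : V) = T^[k] (r : V) := fun k => by
      induction k with
      | zero => rfl
      | succ k ih => rw [Function.iterate_succ_apply', Function.iterate_succ_apply', restrEquiv_apply, ih]
    exact Subtype.ext ((h m).trans (hTm _))
  have hUm' : ∀ y, T'^[m] y = y := fun y => by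
    have h : ∀ (k : ℕ) x, g (T^[k] x) = T'^[k] (g x) := fun k x => by
      induction k with
      | zero => rfl
      | succ k ih => rw [Function.iterate_succ_apply', Function.iterate_succ_apply', hg, ih]
    rw [← g.apply_symm_apply y, ← h, hTm]
  have hc := isCompl_shift T hm hTm 1
  have hc' := isCompl_shift T' hm hUm' 1
  have hRn : (β.restrict R).Nondegenerate := restrict_nondeg hβ hA.isRefl hc.symm
    fun x hx y hy => shift_orth hT (one_mul 1) hx hy
  have hRn' : (β'.restrict R').Nondegenerate := restrict_nondeg hβ' hA'.isRefl hc'.symm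
    fun x hx y hy => shift_orth hT' (one_mul 1) hx hy
  obtain ⟨f, hf1, hf2⟩ := alt_split (β := β.restrict R) (β' := β'.restrict R') (fun x => hA _) hRn
    (fun x => hA' _) hRn' (T := U) (T' := U') (fun x y => hT _ _) (fun x y => hT' _ _) hg0 hm hUm
    (s := -1) (by simp) fun f0' hf0' => by
      let R2 := LinearMap.range (shiftMap U (-1))
      let R2' := LinearMap.range (shiftMap U' (-1))
      let W := restrEquiv U R2 R2 (range_shift_invariant U (-1))
      let W' := restrEquiv U' R2' R2' (range_shift_invariant U' (-1))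
      have hUm'' : ∀ y, U'^[m] y = y := fun y => by
        have h : ∀ k, ((U'^[k] y : R') : V') = T'^[k] (y : V') := fun k => by
          induction k with
          | zero => rfl
          | succ k ih => rw [Function.iterate_succ_apply', Function.iterate_succ_apply', restrEquiv_apply, ih]
        exact Subtype.ext ((h m).trans (hUm' _))
      have hd := isCompl_shift U hm hUm (-1)
      have hd' := isCompl_shift U' hm hUm'' (-1)
      have h2n : ((β.restrict R).restrict R2).Nondegenerate :=
        restrict_nondeg hRn (fun a b h => hA.isRefl _ _ h) hd.symm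
          fun x hx y hy => shift_orth (β := β.restrict R) (T := U) (fun a b => hT _ _) (by simp) hx hy
      have h2n' : ((β'.restrict R').restrict R2').Nondegenerate :=
        restrict_nondeg hRn' (fun a b h => hA'.isRefl _ _ h) hd'.symm
          fun x hx y hy => shift_orth (β := β'.restrict R') (T := U') (fun a b => hT' _ _) (by simp) hx hy
      obtain ⟨f, hf1, hf2⟩ := exists_intertwiner_of_fix_eq_zero (ε := (-1 : F)) (by simp) h2n h2n'
        (fun x y => alt_swap hA _ _) (fun x y => alt_swap hA' _ _) W W'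
        (fun x y => hT _ _) (fun x y => hT' _ _) f0' (fun x => Subtype.ext (hf0' x _))
        (fun x hx => by
          have hx' : U (U x) = (x : R) := congrArg Subtype.val hx
          have hxR : ((U (x : R) + (x : R) : R) : V) ∈ LinearMap.ker (shiftMap T 1) → U (x : R) + x = 0 := by
            intro h
            exact Subtype.ext (Submodule.disjoint_def.1 hc.disjoint _ h (Subtype.prop _))
          have h0 : U (x : R) + (x : R) = 0 := hxR (by
            rw [mem_ker_shiftMap, one_smul]
            show ((U (U x + x) : R) : V) = ((U x + x : R) : V)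
            rw [map_add, hx', add_comm])
          refine Subtype.ext (Submodule.disjoint_def.1 hd.disjoint _ ?_ x.2)
          rw [mem_ker_shiftMap, neg_one_smul, eq_neg_iff_add_eq_zero, h0])
      exact ⟨f, fun r h => congrArg Subtype.val (hf1 r), hf2⟩
  exact ⟨f, fun r h => congrArg Subtype.val (hf1 r), hf2⟩

/-- Linearly conjugate isometries of odd order prime to the characteristic are conjugate by
an isometry of the quadratic form. -/
theorem exists_orthogonal_intertwiner [Finite F] {Q : QuadraticForm F V}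
    (hQ : (QuadraticMap.polarBilin Q).Nondegenerate) {T T' : V ≃ₗ[F] V}
    (hT : ∀ x, Q (T x) = Q x) (hT' : ∀ x, Q (T' x) = Q x) {g : V ≃ₗ[F] V}
    (hg : ∀ x, g (T x) = T' (g x)) {m : ℕ} (hodd : Odd m) (hm : (m : F) ≠ 0)
    (hTm : ∀ x, T^[m] x = x) :
    ∃ f : V ≃ₗ[F] V, (∀ x, Q (f x) = Q x) ∧ ∀ x, f (T x) = T' (f x) := by
  let β : LinearMap.BilinForm F V := QuadraticMap.polarBilin Q
  have hsymm : ∀ x y, β x y = β y x := fun x y => QuadraticMap.polar_comm _ _ _
  have hR : β.IsRefl := fun x y h => by rw [hsymm]; exact h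
  have hpT : ∀ x y, β (T x) (T y) = β x y := fun x y => by
    simp [β, QuadraticMap.polar, ← map_add, hT]
  have hpT' : ∀ x y, β (T' x) (T' y) = β x y := fun x y => by
    simp [β, QuadraticMap.polar, ← map_add, hT']
  have hTm' : ∀ y, T'^[m] y = y := fun y => by
    have h : ∀ (k : ℕ) x, g (T^[k] x) = T'^[k] (g x) := fun k x => by
      induction k with
      | zero => rfl
      | succ k ih => rw [Function.iterate_succ_apply', Function.iterate_succ_apply', hg, ih]
    rw [← g.apply_symm_apply y, ← h, hTm]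
  have hc := isCompl_shift T hm hTm 1
  have hc' := isCompl_shift T' hm hTm' 1
  let R := LinearMap.range (shiftMap T 1)
  let R' := LinearMap.range (shiftMap T' 1)
  have hRn : (β.restrict R).Nondegenerate := restrict_nondeg hQ hR hc.symm
    fun x hx y hy => shift_orth hpT (one_mul 1) hx hy
  have hRn' : (β.restrict R').Nondegenerate := restrict_nondeg hQ hR hc'.symm
    fun x hx y hy => shift_orth hpT' (one_mul 1) hx hy
  let U := restrEquiv T R R (range_shift_invariant T 1)
  let U' := restrEquiv T' R' R' (range_shift_invariant T' 1)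
  let g0 := restrEquiv g R R' (intertwine_shift hg 1).2
  obtain ⟨f, hf1, hf2⟩ := exists_intertwiner_of_fix_eq_zero (ε := (1 : F)) (one_mul 1) hRn hRn'
    (fun x y => (hsymm _ _).trans (one_mul _).symm) (fun x y => (hsymm _ _).trans (one_mul _).symm)
    U U' (fun x y => hpT _ _) (fun x y => hpT' _ _) g0 (fun x => Subtype.ext (hg _))
    (fun x hx => by
      have hx' : T (T (x : V)) = x := congrArg Subtype.val hx
      have heven : ∀ k, T^[2 * k] (x : V) = x := fun k => by
        induction k with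
        | zero => rfl
        | succ k ih => rw [show 2 * (k + 1) = 2 + 2 * k by ring, Function.iterate_add_apply, ih]; exact hx'
      obtain ⟨k, rfl⟩ := hodd
      have hfix : T (x : V) = x := by
        have := hTm x
        rwa [add_comm, Function.iterate_add_apply, heven] at this
      exact Subtype.ext (Submodule.disjoint_def.1 hc.disjoint _
        (mem_ker_shiftMap.2 (by rw [one_smul]; exact hfix)) x.2))
  have hQf : ∀ r : R, Q (f r : V) = Q (r : V) := by
    rintro ⟨_, x, rfl⟩
    obtain ⟨a, ha, b, hb, rfl⟩ := Submodule.mem_sup.1 (hc.sup_eq_top.symm ▸ Submodule.mem_top (x := x))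
    have hr : (⟨shiftMap T 1 (a + b), LinearMap.mem_range_self _ _⟩ : R) = U ⟨b, hb⟩ - ⟨b, hb⟩ :=
      Subtype.ext (by
        show shiftMap T 1 (a + b) = T b - b
        rw [map_add, LinearMap.mem_ker.1 ha, zero_add, shiftMap_apply, one_smul])
    have hsub : ∀ u v : V, Q (u - v) = Q u + Q v - β u v := fun u v => by
      have := QuadraticMap.map_add Q u (-v)
      rw [← sub_eq_add_neg, QuadraticMap.map_neg, QuadraticMap.polar_neg_right] at this
      rw [this]
      simp [β]; ring
    have e1 : (f (U ⟨b, hb⟩) : V) = T' (f ⟨b, hb⟩) := congrArg Subtype.val (hf1 ⟨b, hb⟩)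
    have e2 : ∀ v : V, β v v = 2 * Q v := fun v => by simp [β]
    have e3 : β (f ⟨b, hb⟩ : V) (f ⟨b, hb⟩ : V) = β b b := hf2 ⟨b, hb⟩ ⟨b, hb⟩
    have e4 : β (f (U ⟨b, hb⟩) : V) (f ⟨b, hb⟩ : V) = β (T b) b := hf2 (U ⟨b, hb⟩) ⟨b, hb⟩
    rw [e1] at e4
    rw [e2, e2] at e3
    rw [hr, map_sub, Submodule.coe_sub, Submodule.coe_sub, hsub, hsub, e1, hT', e4]
    show Q (f ⟨b, hb⟩ : V) + Q (f ⟨b, hb⟩ : V) - _ = Q (T b) + Q b - β (T b) b
    rw [hT]
    linear_combination e3
  obtain ⟨G, hG, hGR⟩ := Forms.witt_extension_quad_nondeg hQ R R' f hQf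
  have hpG : ∀ x y, β (G x) (G y) = β x y := fun x y => by
    simp [β, QuadraticMap.polar, ← map_add, hG]
  refine ⟨G, hG, fun x => ?_⟩
  obtain ⟨a, ha, b, hb, rfl⟩ := Submodule.mem_sup.1 (hc.sup_eq_top.symm ▸ Submodule.mem_top (x := x))
  have hfb : G (T b) = T' (G b) := by
    have h1 := hGR (U ⟨b, hb⟩)
    have h2 := hGR ⟨b, hb⟩
    rw [hf1] at h1
    rw [restrEquiv_apply] at h1
    exact h1.trans (congrArg T' h2.symm)
  have hfa : T' (G a) = G a := by
    obtain ⟨c, hc1, d, hd1, hcd⟩ :=
      Submodule.mem_sup.1 (hc'.sup_eq_top.symm ▸ Submodule.mem_top (x := G a))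
    have hd0 : (⟨d, hd1⟩ : R') = 0 := hRn'.1 _ fun y => by
      show β d y = 0
      obtain ⟨r, rfl⟩ := f.surjective y
      have e : β (G a) (f r : V) = 0 := by
        rw [← hGR, hpG]; exact hR _ _ (shift_orth hpT (one_mul 1) r.2 ha)
      rw [← hcd, map_add, LinearMap.add_apply, hR _ _ (shift_orth hpT' (one_mul 1) (f r).2 hc1),
        zero_add] at e
      exact e
    rw [← hcd, show d = 0 from congrArg Subtype.val hd0, add_zero]
    exact (mem_ker_shiftMap.1 hc1).trans (one_smul _ _)
  rw [map_add T, map_add, map_add, map_add, hfb, mem_ker_shiftMap.1 ha, one_smul, hfa]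

end Cfsg.Agent.ClassConj
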