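import Mathlib

/-!
Endomorphisms killed by a product of coprime irreducible polynomials are classified by kernel dimensions.
-/

set_option autoImplicit false

namespace Cfsg.Agent.ClassConj

open Polynomial Module

variable {F : Type*} [Field F]

theorem aeval_intertwine {V V' : Type*} [AddCommGroup V] [Module F V] [AddCommGroup V'] [Module F V']
    {y : Module.End F V} {y' : Module.End F V'} (e : V →ₗ[F] V') (he : ∀ v, e (y v) = y' (e v)) (g : F[X]) :
    ∀ v, e (aeval y g v) = aeval y' g (e v) := by
  induction g using Polynomial.induction_on' with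
  | add a b ha hb => intro v; simp [ha, hb]
  | monomial k c =>
    intro v
    have hk : ∀ k v, e ((y ^ k) v) = (y' ^ k) (e v) := by
      intro k
      induction k with
      | zero => simp
      | succ k ih => intro v; rw [pow_succ', Module.End.mul_apply, he, ih, pow_succ', Module.End.mul_apply]
    simp [aeval_monomial, Algebra.algebraMap_eq_smul_one, hk]

/-- One irreducible polynomial: only the dimension matters. -/
theorem exists_intertwiner_irreducible {V V' : Type*} [AddCommGroup V] [Module F V] [FiniteDimensional F V]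
    [AddCommGroup V'] [Module F V'] [FiniteDimensional F V'] {f : F[X]} (hf : Irreducible f)
    {y : Module.End F V} {y' : Module.End F V'} (hy : aeval y f = 0) (hy' : aeval y' f = 0)
    (hd : finrank F V = finrank F V') : ∃ e : V ≃ₗ[F] V', ∀ v, e (y v) = y' (e v) := by
  haveI : Fact (Irreducible f) := ⟨hf⟩
  let φ : AdjoinRoot f →+* Module.End F V := Ideal.Quotient.lift _ (aeval y).toRingHom fun a ha => by
    obtain ⟨b, rfl⟩ := Ideal.mem_span_singleton.1 ha
    show aeval y (f * b) = 0
    rw [map_mul, hy, zero_mul]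
  let φ' : AdjoinRoot f →+* Module.End F V' := Ideal.Quotient.lift _ (aeval y').toRingHom fun a ha => by
    obtain ⟨b, rfl⟩ := Ideal.mem_span_singleton.1 ha
    show aeval y' (f * b) = 0
    rw [map_mul, hy', zero_mul]
  have hφ : ∀ g, φ (AdjoinRoot.mk f g) = aeval y g := fun g => rfl
  have hφ' : ∀ g, φ' (AdjoinRoot.mk f g) = aeval y' g := fun g => rfl
  letI : Module (AdjoinRoot f) V := Module.compHom V φ
  letI : Module (AdjoinRoot f) V' := Module.compHom V' φ'
  haveI : IsScalarTower F (AdjoinRoot f) V := IsScalarTower.of_algebraMap_smul fun c v => by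
    show φ (AdjoinRoot.mk f (C c)) v = c • v
    rw [hφ, aeval_C, Module.algebraMap_end_apply]
  haveI : IsScalarTower F (AdjoinRoot f) V' := IsScalarTower.of_algebraMap_smul fun c v => by
    show φ' (AdjoinRoot.mk f (C c)) v = c • v
    rw [hφ', aeval_C, Module.algebraMap_end_apply]
  haveI : Module.Finite (AdjoinRoot f) V := Module.Finite.of_restrictScalars_finite F _ V
  haveI : Module.Finite (AdjoinRoot f) V' := Module.Finite.of_restrictScalars_finite F _ V'
  haveI : Module.Finite F (AdjoinRoot f) := (AdjoinRoot.powerBasis hf.ne_zero).finite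
  have h1 := Module.finrank_mul_finrank F (AdjoinRoot f) V
  have h2 := Module.finrank_mul_finrank F (AdjoinRoot f) V'
  have h3 : 0 < finrank F (AdjoinRoot f) := finrank_pos
  have h4 : finrank (AdjoinRoot f) V = finrank (AdjoinRoot f) V' := by
    rw [hd, ← h2] at h1; exact Nat.eq_of_mul_eq_mul_left h3 h1
  obtain ⟨e⟩ := FiniteDimensional.nonempty_linearEquiv_of_finrank_eq h4
  refine ⟨e.restrictScalars F, fun v => ?_⟩
  have hv := e.map_smul (AdjoinRoot.mk f X) v
  change e (φ (AdjoinRoot.mk f X) v) = φ' (AdjoinRoot.mk f X) (e v) at hv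
  rw [hφ, hφ', aeval_X, aeval_X] at hv
  exact hv

theorem finrank_adjoinRoot {f : F[X]} (hf : f ≠ 0) : finrank F (AdjoinRoot f) = f.natDegree := by
  rw [(AdjoinRoot.powerBasis hf).finrank, AdjoinRoot.powerBasis_dim]

/-- Restricting to the kernel of a polynomial. -/
noncomputable def kerRestrict {V : Type*} [AddCommGroup V] [Module F V] (y : Module.End F V) (g : F[X]) :
    Module.End F ↥(LinearMap.ker (aeval y g)) :=
  y.restrict fun v hv => by
    rw [LinearMap.mem_ker] at hv ⊢
    rw [← aeval_intertwine y (fun _ => rfl) g, hv, map_zero]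

theorem coe_aeval_kerRestrict {V : Type*} [AddCommGroup V] [Module F V] (y : Module.End F V) (g h : F[X])
    (v : LinearMap.ker (aeval y g)) : ((aeval (kerRestrict y g) h v : LinearMap.ker (aeval y g)) : V) = aeval y h v :=
  aeval_intertwine (LinearMap.ker (aeval y g)).subtype (fun _ => rfl) h v

theorem aeval_kerRestrict_self {V : Type*} [AddCommGroup V] [Module F V] (y : Module.End F V) (g : F[X]) :
    aeval (kerRestrict y g) g = 0 :=
  LinearMap.ext fun v => Subtype.ext (by rw [coe_aeval_kerRestrict]; exact v.2)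

theorem finrank_ker_kerRestrict {V : Type*} [AddCommGroup V] [Module F V] [FiniteDimensional F V]
    (y : Module.End F V) {g h : F[X]} (hgh : h ∣ g) :
    finrank F (LinearMap.ker (aeval (kerRestrict y g) h)) = finrank F (LinearMap.ker (aeval y h)) := by
  have hle : LinearMap.ker (aeval y h) ≤ LinearMap.ker (aeval y g) := by
    obtain ⟨c, rfl⟩ := hgh
    intro v hv
    rw [LinearMap.mem_ker] at hv ⊢
    rw [mul_comm, map_mul, Module.End.mul_apply, hv, map_zero]
  have e : (LinearMap.ker (aeval (kerRestrict y g) h)).map (LinearMap.ker (aeval y g)).subtype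
      = LinearMap.ker (aeval y h) := by
    ext v
    constructor
    · rintro ⟨w, hw, rfl⟩
      show aeval y h (w : V) = 0
      rw [← coe_aeval_kerRestrict, LinearMap.mem_ker.1 hw]; rfl
    · intro hv
      refine ⟨⟨v, hle hv⟩, LinearMap.mem_ker.2 (Subtype.ext ?_), rfl⟩
      rw [coe_aeval_kerRestrict]; exact LinearMap.mem_ker.1 hv
  rw [← e]
  exact (Submodule.equivMapOfInjective _ (Submodule.injective_subtype _) _).finrank_eq

theorem isCompl_ker_aeval {V : Type*} [AddCommGroup V] [Module F V] (y : Module.End F V) {g h : F[X]}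
    (hgh : IsCoprime g h) (hy : aeval y (g * h) = 0) :
    IsCompl (LinearMap.ker (aeval y g)) (LinearMap.ker (aeval y h)) :=
  ⟨disjoint_ker_aeval_of_isCoprime y hgh, by
    rw [codisjoint_iff, sup_ker_aeval_eq_ker_aeval_mul_of_coprime y hgh, hy, LinearMap.ker_zero]⟩

variable {ι : Type*}

theorem isCoprime_prod_finset [DecidableEq ι] {f : ι → F[X]} {s : Finset ι} {i : ι} (hi : i ∉ s)
    (hcop : ∀ a ∈ insert i s, ∀ b ∈ insert i s, a ≠ b → IsCoprime (f a) (f b)) :
    IsCoprime (f i) (∏ j ∈ s, f j) :=
  IsCoprime.prod_right fun j hj => hcop i (Finset.mem_insert_self _ _) j (Finset.mem_insert_of_mem hj)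
    (fun e => hi (e ▸ hj))

/-- Equal kernel dimensions give similar endomorphisms. -/
theorem exists_intertwiner_of_kerDims [DecidableEq ι] (s : Finset ι) (f : ι → F[X]) (hirr : ∀ i ∈ s, Irreducible (f i))
    (hcop : ∀ a ∈ s, ∀ b ∈ s, a ≠ b → IsCoprime (f a) (f b)) :
    ∀ {V : Type*} {V' : Type*} [AddCommGroup V] [Module F V] [FiniteDimensional F V] [AddCommGroup V'] [Module F V']
      [FiniteDimensional F V'] (y : Module.End F V) (y' : Module.End F V'),
      aeval y (∏ j ∈ s, f j) = 0 → aeval y' (∏ j ∈ s, f j) = 0 →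
      (∀ i ∈ s, finrank F (LinearMap.ker (aeval y (f i))) = finrank F (LinearMap.ker (aeval y' (f i)))) →
      ∃ e : V ≃ₗ[F] V', ∀ v, e (y v) = y' (e v) := by
  induction s using Finset.induction_on with
  | empty =>
    intro V V' _ _ _ _ _ _ y y' hy hy' _
    rw [Finset.prod_empty, map_one] at hy hy'
    haveI : Subsingleton V := ⟨fun a b => (LinearMap.congr_fun hy a).trans (LinearMap.congr_fun hy b).symm⟩
    haveI : Subsingleton V' := ⟨fun a b => (LinearMap.congr_fun hy' a).trans (LinearMap.congr_fun hy' b).symm⟩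
    exact ⟨LinearEquiv.ofSubsingleton V V', fun v => Subsingleton.elim _ _⟩
  | insert i s hi ih =>
    intro V V' _ _ _ _ _ _ y y' hy hy' hd
    set P := ∏ j ∈ s, f j
    rw [Finset.prod_insert hi] at hy hy'
    have hc := isCoprime_prod_finset hi hcop
    have h1 := isCompl_ker_aeval y hc hy
    have h2 := isCompl_ker_aeval y' hc hy'
    obtain ⟨e1, he1⟩ := exists_intertwiner_irreducible (hirr i (Finset.mem_insert_self _ _))
      (aeval_kerRestrict_self y (f i)) (aeval_kerRestrict_self y' (f i)) (hd i (Finset.mem_insert_self _ _))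
    obtain ⟨e2, he2⟩ := ih (fun j hj => hirr j (Finset.mem_insert_of_mem hj))
      (fun a ha b hb => hcop a (Finset.mem_insert_of_mem ha) b (Finset.mem_insert_of_mem hb))
      (kerRestrict y P) (kerRestrict y' P) (aeval_kerRestrict_self y P) (aeval_kerRestrict_self y' P)
      (fun j hj => by
        rw [finrank_ker_kerRestrict y (Finset.dvd_prod_of_mem f hj), finrank_ker_kerRestrict y' (Finset.dvd_prod_of_mem f hj)]
        exact hd j (Finset.mem_insert_of_mem hj))
    let E := (Submodule.prodEquivOfIsCompl _ _ h1).symm.trans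
      ((e1.prodCongr e2).trans (Submodule.prodEquivOfIsCompl _ _ h2))
    refine ⟨E, fun v => ?_⟩
    have hE : ∀ (a : LinearMap.ker (aeval y (f i))) (b : LinearMap.ker (aeval y P)),
        E ((a : V) + b) = (e1 a : V') + (e2 b : V') := fun a b => by
      have e : (Submodule.prodEquivOfIsCompl _ _ h1).symm ((a : V) + b) = (a, b) := by
        rw [LinearEquiv.symm_apply_eq]; rfl
      simp only [E, LinearEquiv.trans_apply, e]
      rfl
    obtain ⟨a, ha, b, hb, rfl⟩ := Submodule.mem_sup.1 (h1.sup_eq_top.symm ▸ Submodule.mem_top (x := v))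
    have hE' := hE (kerRestrict y (f i) ⟨a, ha⟩) (kerRestrict y P ⟨b, hb⟩)
    rw [he1, he2] at hE'
    rw [map_add y, hE ⟨a, ha⟩ ⟨b, hb⟩, map_add y']
    exact hE'

theorem sum_finrank_ker [DecidableEq ι] (s : Finset ι) (f : ι → F[X])
    (hcop : ∀ a ∈ s, ∀ b ∈ s, a ≠ b → IsCoprime (f a) (f b)) :
    ∀ {V : Type*} [AddCommGroup V] [Module F V] [FiniteDimensional F V] (y : Module.End F V),
      aeval y (∏ j ∈ s, f j) = 0 → finrank F V = ∑ i ∈ s, finrank F (LinearMap.ker (aeval y (f i))) := by
  induction s using Finset.induction_on with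
  | empty =>
    intro V _ _ _ y hy
    rw [Finset.prod_empty, map_one] at hy
    haveI : Subsingleton V := ⟨fun a b => (LinearMap.congr_fun hy a).trans (LinearMap.congr_fun hy b).symm⟩
    rw [Finset.sum_empty, finrank_zero_of_subsingleton]
  | insert i s hi ih =>
    intro V _ _ _ y hy
    rw [Finset.prod_insert hi] at hy
    rw [← Submodule.finrank_add_eq_of_isCompl (isCompl_ker_aeval y (isCoprime_prod_finset hi hcop) hy),
      Finset.sum_insert hi,
      ih (fun a ha b hb => hcop a (Finset.mem_insert_of_mem ha) b (Finset.mem_insert_of_mem hb))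
        (kerRestrict y _) (aeval_kerRestrict_self y _)]
    exact congrArg _ (Finset.sum_congr rfl fun j hj => finrank_ker_kerRestrict y (Finset.dvd_prod_of_mem f hj))

/-- Endomorphisms with prescribed kernel dimensions. -/
theorem exists_end_kerDims [DecidableEq ι] (s : Finset ι) (f : ι → F[X]) (hne : ∀ i ∈ s, f i ≠ 0)
    (hcop : ∀ a ∈ s, ∀ b ∈ s, a ≠ b → IsCoprime (f a) (f b)) (a : ι → ℕ) {n : ℕ}
    (hn : ∑ i ∈ s, a i * (f i).natDegree = n) :
    ∃ y : Module.End F (Fin n → F), aeval y (∏ j ∈ s, f j) = 0 ∧
      ∀ i ∈ s, finrank F (LinearMap.ker (aeval y (f i))) = a i * (f i).natDegree := by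
  haveI : ∀ i : s, Module.Finite F (AdjoinRoot (f i)) := fun i => (AdjoinRoot.powerBasis (hne i i.2)).finite
  let V := (i : s) → Fin (a i) → AdjoinRoot (f i)
  let y : Module.End F V :=
    LinearMap.pi fun i : s => LinearMap.pi fun k : Fin (a i) =>
      (LinearMap.mulLeft F (AdjoinRoot.mk (f i) X)).comp
        ((LinearMap.proj (R := F) (φ := fun _ : Fin (a i) => AdjoinRoot (f i)) k).comp
          (LinearMap.proj (R := F) (φ := fun i : s => Fin (a i) → AdjoinRoot (f i)) i))
  have hy : ∀ (g : F[X]) (v : V) (i : s) (k : Fin (a i)), aeval y g v i k = AdjoinRoot.mk (f i) g * v i k := by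
    intro g
    induction g using Polynomial.induction_on' with
    | add p q hp hq =>
      intro v i k
      rw [map_add, LinearMap.add_apply]
      show aeval y p v i k + aeval y q v i k = _
      rw [hp, hq, map_add, add_mul]
    | monomial m c =>
      intro v i k
      have hm : ∀ m (v : V), (y ^ m) v i k = AdjoinRoot.mk (f i) X ^ m * v i k := by
        intro m
        induction m with
        | zero => simp
        | succ m ih =>
          intro v
          rw [pow_succ', Module.End.mul_apply]
          show AdjoinRoot.mk (f i) X * (y ^ m) v i k = _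
          rw [ih, pow_succ']; ring
      rw [aeval_monomial, Module.End.mul_apply, Module.algebraMap_end_apply, Pi.smul_apply, Pi.smul_apply, hm,
        ← C_mul_X_pow_eq_monomial, map_mul, map_pow, AdjoinRoot.mk_C, Algebra.smul_def, mul_assoc]
      rfl
  have hker : ∀ i : s, finrank F (LinearMap.ker (aeval y (f i))) = a i * (f i).natDegree := by
    intro i
    let π : LinearMap.ker (aeval y (f i)) →ₗ[F] (Fin (a i) → AdjoinRoot (f i)) :=
      (LinearMap.proj i).comp (Submodule.subtype _)
    have hπ : Function.Bijective π := by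
      constructor
      · intro u v e
        refine Subtype.ext (funext fun j => funext fun k => ?_)
        by_cases hj : j = i
        · subst hj; exact congrFun e k
        · obtain ⟨p, q, hpq⟩ := hcop i i.2 j j.2 (fun h => hj (Subtype.ext h).symm)
          have hu : AdjoinRoot.mk (f j) p * AdjoinRoot.mk (f j) (f i) = 1 := by
            have := congrArg (AdjoinRoot.mk (f j)) hpq
            rwa [map_add, map_mul, map_mul, AdjoinRoot.mk_self, mul_zero, add_zero, map_one] at this
          have h0 : ∀ w : LinearMap.ker (aeval y (f i)), (w : V) j k = 0 := fun w => by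
            have hw : aeval y (f i) (w : V) j k = 0 := by rw [LinearMap.mem_ker.1 w.2]; rfl
            rw [hy] at hw
            calc (w : V) j k = AdjoinRoot.mk (f j) p * AdjoinRoot.mk (f j) (f i) * (w : V) j k := by rw [hu, one_mul]
              _ = 0 := by rw [mul_assoc, hw, mul_zero]
          rw [h0, h0]
      · intro c
        classical
        let w : (j : s) → Fin (a j) → AdjoinRoot (f j) := Pi.single i c
        refine ⟨⟨w, LinearMap.mem_ker.2 (funext fun j => funext fun k => ?_)⟩, ?_⟩
        · rw [hy]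
          show AdjoinRoot.mk (f j) (f i) * w j k = 0
          by_cases hj : j = i
          · subst hj; rw [AdjoinRoot.mk_self, zero_mul]
          · rw [show w j = 0 by simp [w, Pi.single, Function.update, hj]]; exact mul_zero _
        · show w i = c
          simp [w, Pi.single, Function.update]
    rw [(LinearEquiv.ofBijective π hπ).finrank_eq, Module.finrank_pi_fintype, Finset.sum_const, Finset.card_univ,
      Fintype.card_fin, finrank_adjoinRoot (hne i i.2), smul_eq_mul]
  have hprod : aeval y (∏ j ∈ s, f j) = 0 := LinearMap.ext fun v => funext fun i => funext fun k => by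
    obtain ⟨c, hc⟩ := Finset.dvd_prod_of_mem f i.2
    rw [hy, hc, map_mul, AdjoinRoot.mk_self, zero_mul, zero_mul]; rfl
  have hfin : finrank F V = finrank F (Fin n → F) := by
    rw [finrank_fin_fun, Module.finrank_pi_fintype, ← hn, ← Finset.sum_coe_sort s (fun i => a i * (f i).natDegree)]
    exact Finset.sum_congr rfl fun i _ => by
      rw [Module.finrank_pi_fintype, Finset.sum_const, Finset.card_univ, Fintype.card_fin, finrank_adjoinRoot (hne i i.2), smul_eq_mul]
  obtain ⟨E⟩ := FiniteDimensional.nonempty_linearEquiv_of_finrank_eq hfin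
  let y' : Module.End F (Fin n → F) := E.toLinearMap.comp (y.comp E.symm.toLinearMap)
  have hE : ∀ g v, E (aeval y g v) = aeval y' g (E v) :=
    aeval_intertwine E.toLinearMap (fun v => by simp [y'])
  refine ⟨y', LinearMap.ext fun v => ?_, fun i hi => ?_⟩
  · rw [← E.apply_symm_apply v, ← hE, hprod]; simp
  · rw [← hker ⟨i, hi⟩]
    refine (E.ofSubmodules _ _ ?_).finrank_eq.symm
    ext v
    constructor
    · rintro ⟨w, hw, rfl⟩
      show aeval y' (f i) (E w) = 0
      rw [← hE, LinearMap.mem_ker.1 hw, map_zero]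
    · intro hv
      refine ⟨E.symm v, E.injective ?_, E.apply_symm_apply v⟩
      rw [hE, E.apply_symm_apply, map_zero]
      exact hv

/-- An intertwiner gives conjugacy in `GL`. -/
theorem isConj_GL_of_intertwiner {n : ℕ} (g g' : GL (Fin n) F) (e : (Fin n → F) ≃ₗ[F] (Fin n → F))
    (he : ∀ v, e ((g : Matrix (Fin n) (Fin n) F).mulVec v) = (g' : Matrix (Fin n) (Fin n) F).mulVec (e v)) :
    IsConj g g' := by
  have hdet : (LinearMap.toMatrix' e.toLinearMap).det ≠ 0 := by
    rw [LinearMap.det_toMatrix']; exact (LinearEquiv.isUnit_det' e).ne_zero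
  refine isConj_iff.2 ⟨Matrix.GeneralLinearGroup.mkOfDetNeZero _ hdet,
    mul_inv_eq_iff_eq_mul.2 (Units.ext (Matrix.ext_iff_mulVec.2 fun x => ?_))⟩
  show (LinearMap.toMatrix' e.toLinearMap * (g : Matrix (Fin n) (Fin n) F)).mulVec x
    = ((g' : Matrix (Fin n) (Fin n) F) * LinearMap.toMatrix' e.toLinearMap).mulVec x
  rw [← Matrix.mulVec_mulVec, ← Matrix.mulVec_mulVec, LinearMap.toMatrix'_mulVec, LinearMap.toMatrix'_mulVec]
  exact he x

/-- Conjugate matrices have the same kernel dimensions. -/
theorem kerDims_of_isConj {n : ℕ} {g g' : GL (Fin n) F} (h : IsConj g g') (f : F[X]) :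
    finrank F (LinearMap.ker (aeval (Matrix.toLinAlgEquiv' (g : Matrix (Fin n) (Fin n) F)) f)) =
      finrank F (LinearMap.ker (aeval (Matrix.toLinAlgEquiv' (g' : Matrix (Fin n) (Fin n) F)) f)) := by
  obtain ⟨c, hc⟩ := isConj_iff.1 h
  have hc' : (c : Matrix (Fin n) (Fin n) F) * g = g' * c := congrArg Units.val (mul_inv_eq_iff_eq_mul.1 hc)
  let E := (LinearMap.GeneralLinearGroup.generalLinearEquiv F (Fin n → F)) (Matrix.GeneralLinearGroup.toLin c)
  have hE := aeval_intertwine (y := Matrix.toLinAlgEquiv' (g : Matrix (Fin n) (Fin n) F))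
    (y' := Matrix.toLinAlgEquiv' (g' : Matrix (Fin n) (Fin n) F)) E.toLinearMap (fun v => by
      show (c : Matrix (Fin n) (Fin n) F).mulVec ((g : Matrix (Fin n) (Fin n) F).mulVec v)
        = (g' : Matrix (Fin n) (Fin n) F).mulVec ((c : Matrix (Fin n) (Fin n) F).mulVec v)
      rw [Matrix.mulVec_mulVec, Matrix.mulVec_mulVec, hc']) f
  refine (E.ofSubmodules _ _ ?_).finrank_eq
  ext v
  constructor
  · rintro ⟨w, hw, rfl⟩
    show aeval (Matrix.toLinAlgEquiv' (g' : Matrix (Fin n) (Fin n) F)) f (E.toLinearMap w) = 0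
    rw [← hE, LinearMap.mem_ker.1 hw, map_zero]
  · intro hv
    refine ⟨E.symm v, E.injective ?_, E.apply_symm_apply v⟩
    show E.toLinearMap (aeval (Matrix.toLinAlgEquiv' (g : Matrix (Fin n) (Fin n) F)) f (E.symm v)) = E 0
    rw [hE, LinearEquiv.coe_coe, E.apply_symm_apply, map_zero]
    exact hv

end Cfsg.Agent.ClassConj
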