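import Cfsg.Agent.ClassConj.SympRegular

/-!
Centraliser order and classes of regular unipotent elements of symplectic groups, odd characteristic.
-/

set_option autoImplicit false

namespace Cfsg.Agent.ClassConj

open Matrix

variable {F : Type*} [Field F] {m : ℕ}

namespace IsSympRegular

variable {u : Matrix (Fin m ⊕ Fin m) (Fin m ⊕ Fin m) F}

/-- Odd combination of powers. -/
def oddCoeff (d : Fin m → F) : Fin (2 * m) → F := fun i =>
  if Odd (i : ℕ) then d ⟨(i : ℕ) / 2, by have := i.2; omega⟩ else 0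

theorem oddCoeff_injective : Function.Injective (oddCoeff (F := F) (m := m)) := fun d d' e => by
  funext j
  have h := congrFun e ⟨2 * (j : ℕ) + 1, by have := j.2; omega⟩
  simp only [oddCoeff, odd_two_mul_add_one, if_true] at h
  have e' : ∀ hp, (⟨(2 * (j : ℕ) + 1) / 2, hp⟩ : Fin m) = j := fun _ => Fin.ext (by show (2 * (j : ℕ) + 1) / 2 = j; omega)
  rwa [e'] at h

/-- Skew nilpotent elements. -/
def skewNil (h : IsSympRegular u) : Set (skewAlg u) := {y | IsNilpotent y ∧ h.star' y = -y}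

/-- The element with prescribed odd coefficients. -/
def oddElem (_h : IsSympRegular u) (d : Fin m → F) : skewAlg u := ⟨skewComb u (oddCoeff d), skewComb_mem u _⟩

theorem oddElem_mem (h : IsSympRegular u) (d : Fin m → F) : h.oddElem d ∈ h.skewNil := by
  refine ⟨?_, Subtype.ext ?_⟩
  · let n0 : skewAlg u := ⟨skewPart u, Algebra.subset_adjoin (Set.mem_singleton _)⟩
    have hn : IsNilpotent n0 := ⟨2 * m, Subtype.ext (by rw [SubmonoidClass.coe_pow]; exact h.skewPart_pow)⟩
    have he : h.oddElem d = ∑ i, oddCoeff d i • n0 ^ (i : ℕ) := Subtype.ext (by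
      rw [AddSubmonoidClass.coe_finsetSum]; rfl)
    rw [he]
    refine isNilpotent_sum fun i _ => ?_
    by_cases hi : Odd (i : ℕ)
    · exact (hn.pow_of_pos (by rintro e; rw [e] at hi; simp at hi)).smul _
    · simp [oddCoeff, hi]
  · rw [star'_coe, Subalgebra.coe_neg]
    show sadj (skewComb u (oddCoeff d)) = -skewComb u (oddCoeff d)
    rw [sadj_skewComb, skewComb, skewComb, ← Finset.sum_neg_distrib]
    refine Finset.sum_congr rfl fun i _ => ?_
    by_cases hi : Odd (i : ℕ)
    · simp [hi.neg_one_pow]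
    · simp [oddCoeff, hi]

theorem card_skewNil [Finite F] (h : IsSympRegular u) : Nat.card h.skewNil = Nat.card F ^ m := by
  refine Eq.trans ?_ (show Nat.card (Fin m → F) = Nat.card F ^ m by rw [Nat.card_fun, Nat.card_fin])
  refine (Nat.card_congr (Equiv.ofBijective (fun d => (⟨h.oddElem d, h.oddElem_mem d⟩ : h.skewNil))
    ⟨fun d d' e => ?_, fun y => ?_⟩)).symm
  · exact oddCoeff_injective (h.skewComb_injective (congrArg Subtype.val (congrArg Subtype.val e)))
  · obtain ⟨y, hn, hs⟩ := y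
    obtain ⟨c, hc⟩ := h.exists_skewComb (X := (y : Matrix _ _ F)) (by
      have h1 : Commute (y : Matrix _ _ F) u := h.commute_of_mem y.2
      refine h1.sub_right ?_
      have h2 := h.commute_of_mem (h.star' y).2
      rw [hs] at h2
      show (y : Matrix _ _ F) * sadj u = sadj u * (y : Matrix _ _ F)
      have e := congrArg sadj h2.eq
      rw [sadj_mul, sadj_mul, ← star'_coe h, map_neg, hs, neg_neg] at e
      exact e.symm)
    have heven : ∀ i : Fin (2 * m), ¬ Odd (i : ℕ) → c i = 0 := by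
      intro i hi
      have e : sadj (skewComb u c) = -skewComb u c := by
        rw [hc, ← star'_coe h, hs, Subalgebra.coe_neg]
      rw [sadj_skewComb] at e
      have e' : (fun i : Fin (2 * m) => (-1 : F) ^ (i : ℕ) * c i) = -c := by
        apply h.skewComb_injective
        rw [e, skewComb, skewComb, ← Finset.sum_neg_distrib]
        exact Finset.sum_congr rfl fun j _ => (neg_smul _ _).symm
      have := congrFun e' i
      rw [(Nat.not_odd_iff_even.1 hi).neg_one_pow, one_mul, Pi.neg_apply, eq_neg_iff_add_eq_zero, ← two_mul] at this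
      exact (mul_eq_zero.1 this).resolve_left h.two
    refine ⟨fun j => c ⟨2 * (j : ℕ) + 1, by have := j.2; omega⟩, Subtype.ext (Subtype.ext ?_)⟩
    show skewComb u (oddCoeff _) = (y : Matrix _ _ F)
    rw [← hc]
    refine congrArg (skewComb u) (funext fun i => ?_)
    by_cases hi : Odd (i : ℕ)
    · simp only [oddCoeff, if_pos hi]
      refine congrArg c (Fin.ext ?_)
      obtain ⟨k, hk⟩ := hi
      show 2 * ((i : ℕ) / 2) + 1 = i
      omega
    · simp only [oddCoeff, if_neg hi, heven i hi]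

/-- Norm one elements. -/
def normOneSet (h : IsSympRegular u) : Set (skewAlg u) := {x | h.star' x * x = 1}

theorem nilpotent_one_add (_h : IsSympRegular u) {y : skewAlg u} (hy : IsNilpotent y) :
    IsUnit (1 + y) ∧ IsUnit (1 - y) := ⟨hy.isUnit_one_add, hy.isUnit_one_sub⟩

theorem card_normOne [Finite F] (h : IsSympRegular u) :
    Nat.card h.normOneSet = 2 * Nat.card F ^ m := by
  haveI : Nonempty (Fin m ⊕ Fin m) := ⟨Sum.inl ⟨0, h.pos⟩⟩
  let sg : Bool → skewAlg u := fun b => if b then 1 else -1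
  have hsg : ∀ b, sg b * sg b = 1 ∧ h.star' (sg b) = sg b := fun b => by cases b <;> simp [sg]
  rw [← h.card_skewNil, show (2 : ℕ) = Nat.card Bool by simp, ← Nat.card_prod]
  let f : Bool × h.skewNil → h.normOneSet := fun p =>
    ⟨sg p.1 * (1 + p.2.1) * Ring.inverse (1 - p.2.1), by
      obtain ⟨b, y, hn, hs⟩ := p
      obtain ⟨hp, hm⟩ := h.nilpotent_one_add hn
      show h.star' (sg b * (1 + y) * Ring.inverse (1 - y)) * _ = 1
      have hi : h.star' (Ring.inverse (1 - y)) = Ring.inverse (1 + y) := by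
        obtain ⟨w, hw⟩ := hm
        have e : h.star' (1 - y) = 1 + y := by rw [map_sub, map_one, hs, sub_neg_eq_add]
        rw [← hw, Ring.inverse_unit, ← e, ← hw,
          show h.star' (w : skewAlg u) = ((Units.map (h.star' : skewAlg u →* skewAlg u) w : (skewAlg u)ˣ) : skewAlg u) from rfl,
          Ring.inverse_unit, ← map_inv]
        rfl
      simp only [map_mul, map_add, map_one, hs, ← sub_eq_add_neg, (hsg b).2, hi]
      calc sg b * (1 - y) * Ring.inverse (1 + y) * (sg b * (1 + y) * Ring.inverse (1 - y))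
          = (sg b * sg b) * ((1 + y) * Ring.inverse (1 + y)) * ((1 - y) * Ring.inverse (1 - y)) := by ring
        _ = 1 := by rw [(hsg b).1, Ring.mul_inverse_cancel _ hp, Ring.mul_inverse_cancel _ hm, one_mul, one_mul]⟩
  have hne : ∀ b b' : Bool, IsNilpotent (sg b * sg b' - 1) → b = b' := by
    intro b b' hn
    by_contra hbb
    have h2 : IsNilpotent (algebraMap F (skewAlg u) (-2)) := by
      cases b <;> cases b' <;> first | exact absurd rfl hbb | skip
      all_goals
        simpa [sg, map_neg, map_ofNat, show (-(1 : skewAlg u) - 1) = -2 by ring] using hn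
    exact h.two (by simpa using h.scalar_unique h2)
  have hres : ∀ b (y : skewAlg u), IsNilpotent y →
      IsNilpotent (sg b * (sg b * (1 + y) * Ring.inverse (1 - y)) - 1) := by
    intro b y hn
    obtain ⟨hp, hm⟩ := h.nilpotent_one_add hn
    have e : sg b * (sg b * (1 + y) * Ring.inverse (1 - y)) - 1 = Ring.inverse (1 - y) * (2 * y) := by
      calc sg b * (sg b * (1 + y) * Ring.inverse (1 - y)) - 1
          = (sg b * sg b) * (1 + y) * Ring.inverse (1 - y) - (1 - y) * Ring.inverse (1 - y) := by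
            rw [Ring.mul_inverse_cancel _ hm]; ring
        _ = _ := by rw [(hsg b).1]; ring
    rw [e]
    exact (Commute.all _ _).isNilpotent_mul_left ((Commute.all _ _).isNilpotent_mul_left hn)
  refine (Nat.card_congr (Equiv.ofBijective f ⟨?_, ?_⟩)).symm
  · rintro ⟨b, y, hn, hs⟩ ⟨b', y', hn', hs'⟩ e
    have e' : sg b * (1 + y) * Ring.inverse (1 - y) = sg b' * (1 + y') * Ring.inverse (1 - y') :=
      congrArg Subtype.val e
    obtain rfl : b = b' := hne b b' (by
      have h1 := hres b y hn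
      have h2 := hres b' y' hn'
      rw [e'] at h1
      have e3 : sg b * sg b' - 1 =
          (sg b * (sg b' * (1 + y') * Ring.inverse (1 - y')) - 1)
            - (sg b * sg b') * (sg b' * (sg b' * (1 + y') * Ring.inverse (1 - y')) - 1) := by
        linear_combination (sg b * sg b' * (1 + y') * Ring.inverse (1 - y')) * (hsg b').1
      rw [e3]
      exact (Commute.all _ _).isNilpotent_sub h1 ((Commute.all _ _).isNilpotent_mul_left h2))
    have hm := (h.nilpotent_one_add hn).2
    have hm' := (h.nilpotent_one_add hn').2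
    have e4 : (1 + y) * (1 - y') = (1 + y') * (1 - y) := by
      have e5 := congrArg (fun z => sg b * z * ((1 - y) * (1 - y'))) e'
      calc (1 + y) * (1 - y') = (sg b * sg b) * (1 + y) * (Ring.inverse (1 - y) * (1 - y)) * (1 - y') := by
            rw [(hsg b).1, Ring.inverse_mul_cancel _ hm]; ring
        _ = sg b * (sg b * (1 + y) * Ring.inverse (1 - y)) * ((1 - y) * (1 - y')) := by ring
        _ = sg b * (sg b * (1 + y') * Ring.inverse (1 - y')) * ((1 - y) * (1 - y')) := e5
        _ = (sg b * sg b) * (1 + y') * (Ring.inverse (1 - y') * (1 - y')) * (1 - y) := by ring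
        _ = _ := by rw [(hsg b).1, Ring.inverse_mul_cancel _ hm']; ring
    have e6 : algebraMap F (skewAlg u) 2 * y = algebraMap F (skewAlg u) 2 * y' := by
      rw [map_ofNat]; linear_combination e4
    obtain rfl : y = y' := h.isUnit_two.mul_left_cancel e6
    rfl
  · rintro ⟨x, hx⟩
    have hx' : h.star' x * x = 1 := hx
    obtain ⟨r, n, hn, hrn⟩ := h.exists_scalar_add x
    have hr2 : r * r = 1 := by
      refine sub_eq_zero.1 (h.scalar_unique ?_)
      have e : algebraMap F (skewAlg u) (r * r - 1) = -(n * (algebraMap F _ r + h.star' n)) + -(algebraMap F _ r * h.star' n) := by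
        rw [hrn, map_add, star'_algebraMap] at hx'
        rw [map_sub, map_mul, map_one, ← hx']; ring
      rw [e]
      exact (Commute.all _ _).isNilpotent_add ((Commute.all n _).isNilpotent_mul_right hn).neg
        ((Commute.all _ (h.star' n)).isNilpotent_mul_left (hn.map h.star')).neg
    obtain ⟨b, hb⟩ : ∃ b, sg b = algebraMap F (skewAlg u) r := by
      rcases mul_self_eq_one_iff.1 hr2 with rfl | rfl
      · exact ⟨true, by simp [sg]⟩
      · exact ⟨false, by simp [sg]⟩
    set z := sg b * x with hz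
    have hzn : z = 1 + sg b * n := by rw [hz, hrn, mul_add, hb, ← map_mul, hr2, map_one]
    have hzu : IsUnit (z + 1) := by
      have : z + 1 = algebraMap F _ 2 * (1 + algebraMap F _ 2⁻¹ * (sg b * n)) := by
        rw [hzn, mul_add, mul_one, ← mul_assoc, ← map_mul, mul_inv_cancel₀ h.two, map_one, one_mul,
          map_ofNat]
        ring
      rw [this]
      exact h.isUnit_two.mul ((Commute.all _ _).isNilpotent_mul_left ((Commute.all _ _).isNilpotent_mul_left hn)).isUnit_one_add
    set y := (z - 1) * Ring.inverse (z + 1) with hy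
    have hyn : IsNilpotent y := by
      rw [hy, hzn, add_sub_cancel_left]
      exact (Commute.all _ _).isNilpotent_mul_right ((Commute.all _ _).isNilpotent_mul_left hn)
    have hzs : h.star' z * z = 1 := by
      rw [hz, map_mul, (hsg b).2, mul_mul_mul_comm, (hsg b).1, one_mul, hx']
    have hys : h.star' y = -y := by
      have e : h.star' y * h.star' (z + 1) = h.star' (z - 1) := by
        rw [← map_mul, hy, mul_assoc, Ring.inverse_mul_cancel _ hzu, mul_one]
      have e2 : y * (z + 1) = z - 1 := by rw [hy, mul_assoc, Ring.inverse_mul_cancel _ hzu, mul_one]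
      have e3 : (h.star' y + y) * (z + 1) = 0 := by
        rw [map_add, map_sub, map_one] at e
        linear_combination z * e + e2 + (1 - h.star' y) * hzs
      exact eq_neg_of_add_eq_zero_left (hzu.mul_left_eq_zero.1 e3)
    refine ⟨(b, ⟨y, hyn, hys⟩), Subtype.ext ?_⟩
    show sg b * (1 + y) * Ring.inverse (1 - y) = x
    have e2 : y * (z + 1) = z - 1 := by rw [hy, mul_assoc, Ring.inverse_mul_cancel _ hzu, mul_one]
    have e4 : 1 + y = z * (1 - y) := by linear_combination e2
    rw [e4, mul_assoc, mul_assoc, Ring.mul_inverse_cancel _ (h.nilpotent_one_add hyn).2, mul_one, hz,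
      ← mul_assoc, (hsg b).1, one_mul]

end IsSympRegular

theorem card_centralizer_sympRegular [Finite F] (u : Matrix.symplecticGroup (Fin m) F)
    (h : IsSympRegular (u : Matrix (Fin m ⊕ Fin m) (Fin m ⊕ Fin m) F)) :
    Nat.card ↥(Subgroup.centralizer ({u} : Set ↥(Matrix.symplecticGroup (Fin m) F))) = 2 * Nat.card F ^ m := by
  rw [← h.card_normOne]
  let f : ↥(Subgroup.centralizer ({u} : Set ↥(Matrix.symplecticGroup (Fin m) F))) → h.normOneSet :=
    fun g => ⟨⟨(g.1 : Matrix (Fin m ⊕ Fin m) (Fin m ⊕ Fin m) F), h.mem_skewAlg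
      (congrArg Subtype.val (Subgroup.mem_centralizer_singleton_iff.1 g.2))⟩,
      Subtype.ext (mem_symplecticGroup_iff_sadj.1 g.1.2)⟩
  refine Nat.card_congr (Equiv.ofBijective f ⟨fun a b e => ?_, fun x => ?_⟩)
  · exact Subtype.ext (Subtype.ext (congrArg (fun z : h.normOneSet => (z.1).1) e))
  · exact ⟨⟨⟨x.1.1, mem_symplecticGroup_iff_sadj.2 (congrArg Subtype.val x.2)⟩,
      Subgroup.mem_centralizer_singleton_iff.2 (Subtype.ext (h.commute_of_mem x.1.2).eq)⟩, rfl⟩

section Existence

theorem strictUpper_pow {k : ℕ} (P : Matrix (Fin k) (Fin k) F) (hP : ∀ i j, P i j ≠ 0 → (i : ℕ) < j) :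
    ∀ (a : ℕ) (i j : Fin k), (P ^ a) i j ≠ 0 → (i : ℕ) + a ≤ j
  | 0, i, j, h => by
    rw [pow_zero, Matrix.one_apply] at h
    split_ifs at h with e
    · simp [e]
    · exact absurd rfl h
  | a + 1, i, j, h => by
    rw [pow_succ, Matrix.mul_apply] at h
    obtain ⟨l, -, hl⟩ := Finset.exists_ne_zero_of_sum_ne_zero h
    have h1 := strictUpper_pow P hP a i l (left_ne_zero_of_mul hl)
    have h2 := hP l j (right_ne_zero_of_mul hl)
    omega

theorem fromBlocks_upper_pow {ι κ : Type*} [Fintype ι] [Fintype κ] [DecidableEq ι] [DecidableEq κ]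
    (P : Matrix ι ι F) (Q : Matrix ι κ F) (R : Matrix κ κ F) :
    ∀ a : ℕ, ∃ X, (fromBlocks P Q 0 R) ^ a = fromBlocks (P ^ a) X 0 (R ^ a)
  | 0 => ⟨0, by simp⟩
  | a + 1 => by
    obtain ⟨X, hX⟩ := fromBlocks_upper_pow P Q R a
    exact ⟨P ^ a * Q + X * R, by rw [pow_succ, hX, fromBlocks_multiply]; simp [pow_succ]⟩

theorem exists_sympRegular_data (hm : 1 ≤ m) :
    ∃ u : Matrix.symplecticGroup (Fin m) F, sadj (u : Matrix (Fin m ⊕ Fin m) (Fin m ⊕ Fin m) F) * u = 1 ∧
      ((u : Matrix (Fin m ⊕ Fin m) (Fin m ⊕ Fin m) F) - 1) ^ (2 * m) = 0 ∧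
      ((u : Matrix (Fin m ⊕ Fin m) (Fin m ⊕ Fin m) F) - 1).rank = 2 * m - 1 := by
  let N : Matrix (Fin m) (Fin m) F := Matrix.of fun i j => if (i : ℕ) + 1 = j then 1 else 0
  have hN : N ^ m = 0 := by
    ext i j
    by_contra h
    have := strictUpper_pow N (fun i j h => by
      simp only [N, Matrix.of_apply, ne_eq, ite_eq_right_iff, Classical.not_imp] at h; omega) m i j h
    have := j.2; omega
  let A : Matrix (Fin m) (Fin m) F := 1 + N
  obtain ⟨Au, hAu⟩ : IsUnit Aᵀ := (Matrix.isUnit_transpose A).2 (show IsNilpotent N from ⟨m, hN⟩).isUnit_one_add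
  let B : Matrix (Fin m) (Fin m) F := (Au⁻¹ : (Matrix (Fin m) (Fin m) F)ˣ)
  have hAB : Aᵀ * B = 1 := by rw [← hAu]; exact Au.mul_inv
  have hBA : Bᵀ * A = 1 := by
    rw [← transpose_transpose A, ← transpose_mul, hAB, transpose_one]
  let last : Fin m := ⟨m - 1, by omega⟩
  let S : Matrix (Fin m) (Fin m) F := Matrix.single last last 1
  let U : Matrix (Fin m ⊕ Fin m) (Fin m ⊕ Fin m) F := fromBlocks A (A * S) 0 B
  have hS : sadj U * U = 1 := by
    show -(Matrix.J (Fin m) F * Uᵀ * Matrix.J (Fin m) F) * U = 1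
    have hSt : Sᵀ = S := Matrix.transpose_single ..
    simp only [U, Matrix.J, fromBlocks_transpose, fromBlocks_multiply, fromBlocks_neg, transpose_mul,
      transpose_zero]
    rw [← fromBlocks_one]
    congr 1 <;> simp [hSt, hBA, mul_assoc, hAB]
    · rw [← mul_assoc Bᵀ, hBA, one_mul]
      simp
  let u : Matrix.symplecticGroup (Fin m) F := ⟨U, mem_symplecticGroup_iff_sadj.2 hS⟩
  have hU1 : U - 1 = fromBlocks N (A * S) 0 (B - 1) := by
    rw [← fromBlocks_one]
    ext (i | i) (j | j) <;> simp [U, A, Matrix.one_apply]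
  have hR : (B - 1) ^ m = 0 := by
    have hc : B - 1 = -(B * Nᵀ) := by
      have : B * Aᵀ = 1 := mul_eq_one_comm.1 hAB
      simp only [A, transpose_add, transpose_one, mul_add, mul_one] at this
      rw [eq_neg_iff_add_eq_zero, sub_add_eq_add_sub, this, sub_self]
    have hcomm : Commute B Nᵀ := by
      have h1 : Commute Aᵀ Nᵀ := by simp [A, Commute, SemiconjBy, add_mul, mul_add]
      rw [← hAu] at h1
      exact h1.units_inv_left
    rw [hc, neg_pow, hcomm.mul_pow, ← transpose_pow, hN, transpose_zero, mul_zero, mul_zero]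
  have hnil : (U - 1) ^ (2 * m) = 0 := by
    obtain ⟨X, hX⟩ := fromBlocks_upper_pow N (A * S) (B - 1) m
    rw [hU1, two_mul, pow_add, hX, hN, hR, fromBlocks_multiply]
    simp
  refine ⟨u, hS, hnil, ?_⟩
  have hdet : (U - 1).det = 0 := by
    have := congrArg Matrix.det hnil
    haveI hne : Nonempty (Fin m ⊕ Fin m) := ⟨Sum.inl ⟨0, hm⟩⟩
    rw [det_pow, det_zero] at this
    exact IsReduced.eq_zero _ ⟨_, this⟩
  have hker : LinearMap.ker (U - 1).mulVecLin ≤ Submodule.span F {Pi.single (Sum.inl ⟨0, hm⟩) 1} := by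
    intro x hx
    rw [LinearMap.mem_ker, Matrix.mulVecLin_apply, hU1] at hx
    obtain ⟨a, b, rfl⟩ : ∃ a b, x = Sum.elim a b := ⟨x ∘ Sum.inl, x ∘ Sum.inr, (Sum.elim_comp_inl_inr x).symm⟩
    rw [fromBlocks_mulVec] at hx
    simp only [Sum.elim_comp_inl, Sum.elim_comp_inr, zero_mulVec, zero_add] at hx
    have hx1 : N *ᵥ a + A *ᵥ (S *ᵥ b) = 0 := by
      funext i; have := congrFun hx (Sum.inl i); simpa [mulVec_mulVec] using this
    have hx2 : Nᵀ *ᵥ b = 0 := by
      have h3 : (B - 1) *ᵥ b = 0 := funext fun i => congrFun hx (Sum.inr i)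
      have h4 : Aᵀ * (B - 1) = -Nᵀ := by rw [mul_sub, hAB, mul_one]; simp [A]
      have := congrArg (fun v => Aᵀ *ᵥ v) h3
      simp only [mulVec_mulVec, h4, mulVec_zero, neg_mulVec, neg_eq_zero] at this
      exact this
    have hNv : ∀ (v : Fin m → F) (i : Fin m), (hi : (i : ℕ) + 1 < m) → (N *ᵥ v) i = v ⟨(i : ℕ) + 1, hi⟩ := by
      intro v i hi
      simp only [mulVec, dotProduct]
      rw [Finset.sum_eq_single ⟨(i : ℕ) + 1, hi⟩ (fun j _ hj => by
        have : (i : ℕ) + 1 ≠ j := fun e => hj (Fin.ext e.symm)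
        simp [N, this]) (fun h => absurd (Finset.mem_univ _) h)]
      simp [N]
    have hb : ∀ i : Fin m, (i : ℕ) + 1 < m → b i = 0 := by
      intro i hi
      have := congrFun hx2 ⟨(i : ℕ) + 1, hi⟩
      rw [mulVec, dotProduct, Finset.sum_eq_single i (fun j _ hj => by
        have : (j : ℕ) ≠ i := fun e => hj (Fin.ext e)
        simp [N, this]) (fun h => absurd (Finset.mem_univ _) h)] at this
      simpa [N] using this
    have hlast : (N *ᵥ a) last = 0 := by
      simp only [mulVec, dotProduct]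
      refine Finset.sum_eq_zero fun j _ => ?_
      have : (last : ℕ) + 1 ≠ j := by show m - 1 + 1 ≠ (j : ℕ); have := j.2; omega
      simp [N, this]
    have hSb : S *ᵥ b = Pi.single last (b last) := by
      rw [Matrix.single_mulVec]; funext i; simp [Function.update_apply, Pi.single_apply]
    have hbl : b last = 0 := by
      have h5 := congrFun hx1 last
      rw [Pi.add_apply, hlast, zero_add, hSb] at h5
      simp only [mulVec_single, A, Matrix.add_apply, Matrix.one_apply_eq, Pi.smul_apply, Matrix.col_apply,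
        Pi.zero_apply] at h5
      have : N last last = 0 := by simp [N]
      simpa [this] using h5
    have hb0 : b = 0 := funext fun i => by
      by_cases hi : (i : ℕ) + 1 < m
      · exact hb i hi
      · have : i = last := Fin.ext (by show (i : ℕ) = m - 1; have := i.2; omega)
        rw [this]; exact hbl
    subst hb0
    rw [mulVec_zero, mulVec_zero, add_zero] at hx1
    refine Submodule.mem_span_singleton.2 ⟨a ⟨0, hm⟩, funext fun i => ?_⟩
    rcases i with i | i
    · by_cases hi : i = ⟨0, hm⟩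
      · subst hi; simp
      · have hi' : (i : ℕ) ≠ 0 := fun e => hi (Fin.ext e)
        have := hNv a ⟨(i : ℕ) - 1, by have := i.2; omega⟩ (by show (i : ℕ) - 1 + 1 < m; have := i.2; omega)
        rw [hx1] at this
        have e : ∀ hp, (⟨(i : ℕ) - 1 + 1, hp⟩ : Fin m) = i := fun _ => Fin.ext (by show (i : ℕ) - 1 + 1 = i; omega)
        rw [e] at this
        simp [hi, ← this]
    · simp
  have h1 := LinearMap.finrank_range_add_finrank_ker (U - 1).mulVecLin
  have h3 := (Submodule.finrank_mono hker).trans (finrank_span_singleton (K := F)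
    (v := (Pi.single (Sum.inl ⟨0, hm⟩) 1 : Fin m ⊕ Fin m → F)) (by
      intro h; simpa using congrFun h (Sum.inl ⟨0, hm⟩))).le
  obtain ⟨v, hv0, hv⟩ := Matrix.exists_mulVec_eq_zero_iff.2 hdet
  have h4 : 0 < Module.finrank F (LinearMap.ker (U - 1).mulVecLin) := by
    rw [Module.finrank_pos_iff_exists_ne_zero]
    exact ⟨⟨v, hv⟩, fun e => hv0 (congrArg Subtype.val e)⟩
  rw [Module.finrank_fintype_fun_eq_card, Fintype.card_sum, Fintype.card_fin] at h1
  show (U - 1).rank = _
  rw [Matrix.rank]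
  omega

theorem exists_sympRegular (h2 : (2 : F) ≠ 0) (hm : 1 ≤ m) :
    ∃ u : Matrix.symplecticGroup (Fin m) F, IsSympRegular (u : Matrix (Fin m ⊕ Fin m) (Fin m ⊕ Fin m) F) := by
  obtain ⟨u, h1, h3, h4⟩ := exists_sympRegular_data (F := F) hm
  exact ⟨u, ⟨h2, hm, h1, h3, h4⟩⟩

end Existence

theorem sympRegular_similar {u u' : Matrix (Fin m ⊕ Fin m) (Fin m ⊕ Fin m) F} (h : IsSympRegular u)
    (h' : IsSympRegular u') : ∃ g : GL (Fin m ⊕ Fin m) F,
      (g : Matrix (Fin m ⊕ Fin m) (Fin m ⊕ Fin m) F) * u = u' * g := by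
  obtain ⟨g, hg⟩ := ClassicalElem.isConj_of_regular (n := 2 * m) (by simp; omega) (by have := h.pos; omega)
    h.nil h.rank h'.nil h'.rank
  refine ⟨g, ?_⟩
  rw [mul_sub, sub_mul, mul_one, one_mul] at hg
  exact sub_left_injective hg

/-- The two classes. -/
theorem card_sympRegular_classes [Fintype F] (h2 : (2 : F) ≠ 0) (hm : 1 ≤ m) :
    Nat.card {C : ConjClasses ↥(Matrix.symplecticGroup (Fin m) F) // ∃ u : Matrix.symplecticGroup (Fin m) F,
      ConjClasses.mk u = C ∧ IsSympRegular (u : Matrix (Fin m ⊕ Fin m) (Fin m ⊕ Fin m) F)} = 2 := by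
  obtain ⟨u₀, h₀⟩ := exists_sympRegular (F := F) h2 hm
  classical
  obtain ⟨ν, hν⟩ := FiniteField.exists_nonsquare (F := F) (by
    intro h; exact h2 (by have := CharP.cast_eq_zero (R := F) (ringChar F); rw [h] at this; exact_mod_cast this))
  have hν0 : ν ≠ 0 := fun h => hν (h ▸ IsSquare.zero)
  set U := (u₀ : Matrix (Fin m ⊕ Fin m) (Fin m ⊕ Fin m) F)
  let D : Matrix (Fin m ⊕ Fin m) (Fin m ⊕ Fin m) F := fromBlocks 1 0 0 (ν • 1)
  let D' : Matrix (Fin m ⊕ Fin m) (Fin m ⊕ Fin m) F := fromBlocks 1 0 0 (ν⁻¹ • 1)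
  have hDD : D * D' = 1 := by simp [D, D', fromBlocks_multiply, smul_smul, inv_mul_cancel₀ hν0, mul_inv_cancel₀ hν0]
  have hD'D : D' * D = 1 := mul_eq_one_comm.1 hDD
  have hsD : sadj D = fromBlocks (ν • 1) 0 0 1 := by
    simp [sadj, D, Matrix.J, fromBlocks_transpose, fromBlocks_multiply, fromBlocks_neg]
  have hsD' : sadj D' = fromBlocks (ν⁻¹ • 1) 0 0 1 := by
    simp [sadj, D', Matrix.J, fromBlocks_transpose, fromBlocks_multiply, fromBlocks_neg]
  have hsDD : sadj D * D = ν • 1 := by
    rw [hsD]; simp [D, fromBlocks_multiply, ← fromBlocks_one, fromBlocks_smul]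
  have hsDD' : sadj D' * D' = ν⁻¹ • 1 := by
    rw [hsD']; simp [D', fromBlocks_multiply, ← fromBlocks_one, fromBlocks_smul]
  have hu₁ : sadj (D * U * D') * (D * U * D') = 1 := by
    rw [sadj_mul, sadj_mul]
    calc sadj D' * (sadj U * sadj D) * (D * U * D')
        = sadj D' * sadj U * (sadj D * D) * U * D' := by simp only [mul_assoc]
      _ = ν • (sadj D' * (sadj U * U) * D') := by
          rw [hsDD, mul_smul_comm, mul_one, smul_mul_assoc, smul_mul_assoc]; simp only [mul_assoc]
      _ = 1 := by rw [h₀.symp, mul_one, hsDD', smul_smul, mul_inv_cancel₀ hν0, one_smul]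
  let u₁ : Matrix.symplecticGroup (Fin m) F := ⟨D * U * D', mem_symplecticGroup_iff_sadj.2 hu₁⟩
  let Du : GL (Fin m ⊕ Fin m) F := ⟨D, D', hDD, hD'D⟩
  have h₁ : IsSympRegular (D * U * D') := by
    have e : D * U * D' - 1 = D * (U - 1) * D' := by rw [mul_sub, sub_mul, mul_one, hDD]
    refine ⟨h2, hm, hu₁, ?_, ?_⟩
    · rw [e]
      have hk : ∀ k, (D * (U - 1) * D') ^ k = D * (U - 1) ^ k * D' := fun k => by
        induction k with
        | zero => simp [hDD]
        | succ k ih =>
          rw [pow_succ, ih, pow_succ]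
          calc D * (U - 1) ^ k * D' * (D * (U - 1) * D') = D * (U - 1) ^ k * (D' * D) * (U - 1) * D' := by
                simp only [mul_assoc]
            _ = _ := by rw [hD'D, mul_one]; simp only [mul_assoc]
      rw [hk, h₀.nil, mul_zero, zero_mul]
    · rw [e, Matrix.rank_mul_eq_left_of_isUnit_det D' _ ((Matrix.isUnit_iff_isUnit_det _).1 (Du⁻¹).isUnit),
        Matrix.rank_mul_eq_right_of_isUnit_det _ _ ((Matrix.isUnit_iff_isUnit_det _).1 Du.isUnit)]
      exact h₀.rank
  have hsq : ∀ r : F, r ≠ 0 → ∃ a : F, a ≠ 0 ∧ (r = a * a ∨ r = ν * (a * a)) := by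
    intro r hr
    by_cases hs : IsSquare r
    · obtain ⟨a, rfl⟩ := hs
      exact ⟨a, left_ne_zero_of_mul hr, Or.inl rfl⟩
    · have hrn : IsSquare (r / ν) := by
        have h1 : quadraticChar F r = -1 := quadraticChar_neg_one_iff_not_isSquare.2 hs
        have h3 : quadraticChar F ν = -1 := quadraticChar_neg_one_iff_not_isSquare.2 hν
        have h4 : quadraticChar F (r / ν) * quadraticChar F ν = quadraticChar F r := by
          rw [← map_mul, div_mul_cancel₀ _ hν0]
        rw [h1, h3] at h4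
        exact (quadraticChar_one_iff_isSquare (div_ne_zero hr hν0)).1 (by linarith)
      obtain ⟨a, ha⟩ := hrn
      refine ⟨a, fun e => ?_, Or.inr ?_⟩
      · rw [e, mul_zero] at ha; exact div_ne_zero hr hν0 ha
      · rw [← ha, mul_div_cancel₀ _ hν0]
  have hclass : ∀ u : Matrix.symplecticGroup (Fin m) F,
      IsSympRegular (u : Matrix (Fin m ⊕ Fin m) (Fin m ⊕ Fin m) F) → IsConj u₀ u ∨ IsConj u₁ u := by
    intro u hu
    obtain ⟨g, hg⟩ := sympRegular_similar h₀ hu
    set G := (g : Matrix (Fin m ⊕ Fin m) (Fin m ⊕ Fin m) F)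
    have hsg : sadj G * (u : Matrix (Fin m ⊕ Fin m) (Fin m ⊕ Fin m) F) = U * sadj G := by
      have h1 := congrArg sadj hg
      rw [sadj_mul, sadj_mul] at h1
      calc sadj G * (u : Matrix _ _ F) = (U * sadj U) * (sadj G * (u : Matrix _ _ F)) := by
            rw [mul_eq_one_comm.1 h₀.symp, one_mul]
        _ = U * ((sadj U * sadj G) * (u : Matrix _ _ F)) := by simp only [mul_assoc]
        _ = _ := by rw [h1, mul_assoc (sadj G), hu.symp, mul_one]
    have hH : Commute (sadj G * G) U := by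
      show sadj G * G * U = U * (sadj G * G)
      rw [mul_assoc, hg, ← mul_assoc, hsg, mul_assoc]
    let H : skewAlg U := ⟨sadj G * G, h₀.mem_skewAlg hH⟩
    have hHu : IsUnit H := by
      let g' : GL (Fin m ⊕ Fin m) F := ⟨sadj G, sadj (g⁻¹ : GL (Fin m ⊕ Fin m) F), by
        rw [← sadj_mul, show ((g⁻¹ : GL (Fin m ⊕ Fin m) F) : Matrix (Fin m ⊕ Fin m) (Fin m ⊕ Fin m) F) * G = 1 from g.inv_mul, sadj_one], by
        rw [← sadj_mul, show G * ((g⁻¹ : GL (Fin m ⊕ Fin m) F) : Matrix (Fin m ⊕ Fin m) (Fin m ⊕ Fin m) F) = 1 from g.mul_inv, sadj_one]⟩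
      haveI : Finite (skewAlg U) := inferInstance
      obtain ⟨b, hb⟩ := Finite.surjective_of_injective (f := fun b : skewAlg U => H * b)
        (fun b b' e => Subtype.ext ((g' * g).isUnit.mul_left_cancel (congrArg Subtype.val e))) 1
      exact ⟨⟨H, b, hb, (mul_comm b H).trans hb⟩, rfl⟩
    obtain ⟨r, z, hr, hz, hHz⟩ := h₀.exists_smul_norm (a := H) (Subtype.ext (by
      rw [IsSympRegular.star'_coe]; show sadj (sadj G * G) = _; rw [sadj_mul, sadj_sadj])) hHu
    have hHz' : sadj G * G = r • (z.1 * sadj z.1) := by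
      have := congrArg Subtype.val hHz
      rw [show ((H : skewAlg U) : Matrix _ _ F) = sadj G * G from rfl] at this
      rw [this, Subalgebra.coe_mul, Subalgebra.coe_algebraMap, Algebra.algebraMap_eq_smul_one,
        smul_mul_assoc, one_mul]
      rfl
    obtain ⟨zu, hzu⟩ : IsUnit ((z : Matrix (Fin m ⊕ Fin m) (Fin m ⊕ Fin m) F)) := hz.map (skewAlg U).val
    have hzc : Commute ((zu⁻¹ : GL (Fin m ⊕ Fin m) F) : Matrix (Fin m ⊕ Fin m) (Fin m ⊕ Fin m) F) U := by
      have : Commute (zu : Matrix (Fin m ⊕ Fin m) (Fin m ⊕ Fin m) F) U := by rw [hzu]; exact h₀.commute_of_mem z.2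
      exact this.units_inv_left
    set Z := ((zu⁻¹ : GL (Fin m ⊕ Fin m) F) : Matrix (Fin m ⊕ Fin m) (Fin m ⊕ Fin m) F)
    have hPP : sadj (G * Z) * (G * Z) = r • 1 := by
      have hzz : z.1 * sadj z.1 = sadj z.1 * z.1 := by
        have := congrArg Subtype.val (mul_comm z (h₀.star' z))
        exact this
      calc sadj (G * Z) * (G * Z) = sadj Z * (sadj G * G) * Z := by rw [sadj_mul]; simp only [mul_assoc]
        _ = r • (sadj (z.1 * Z) * (z.1 * Z)) := by
            rw [hHz', hzz, sadj_mul, mul_smul_comm, smul_mul_assoc]; simp only [mul_assoc]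
        _ = r • 1 := by
            rw [show z.1 = (zu : Matrix _ _ F) from hzu.symm,
              show (zu : Matrix _ _ F) * Z = 1 from zu.mul_inv, sadj_one, mul_one]
    have hconj : G * Z * U = (u : Matrix _ _ F) * (G * Z) := by
      rw [mul_assoc, hzc.eq, ← mul_assoc, hg, mul_assoc]
    obtain ⟨a, ha, hra | hra⟩ := hsq r hr
    · left
      have hP : sadj (a⁻¹ • (G * Z)) * (a⁻¹ • (G * Z)) = 1 := by
        rw [sadj_smul, smul_mul_assoc, mul_smul_comm, hPP, hra, smul_smul, smul_smul]
        rw [show a⁻¹ * a⁻¹ * (a * a) = 1 by field_simp, one_smul]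
      refine isConj_iff.2 ⟨⟨_, mem_symplecticGroup_iff_sadj.2 hP⟩, mul_inv_eq_iff_eq_mul.2 (Subtype.ext ?_)⟩
      show a⁻¹ • (G * Z) * U = (u : Matrix _ _ F) * (a⁻¹ • (G * Z))
      rw [smul_mul_assoc, hconj, mul_smul_comm]
    · right
      have hP : sadj (a⁻¹ • (G * Z * D')) * (a⁻¹ • (G * Z * D')) = 1 := by
        rw [sadj_smul, smul_mul_assoc, mul_smul_comm, sadj_mul, mul_assoc, ← mul_assoc (sadj (G * Z)), hPP,
          smul_mul_assoc, one_mul, mul_smul_comm, hsDD', smul_smul, smul_smul, smul_smul, hra]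
        rw [show a⁻¹ * a⁻¹ * (ν * (a * a)) * ν⁻¹ = 1 by field_simp, one_smul]
      refine isConj_iff.2 ⟨⟨_, mem_symplecticGroup_iff_sadj.2 hP⟩, mul_inv_eq_iff_eq_mul.2 (Subtype.ext ?_)⟩
      show a⁻¹ • (G * Z * D') * (D * U * D') = (u : Matrix _ _ F) * (a⁻¹ • (G * Z * D'))
      rw [smul_mul_assoc, mul_smul_comm]
      congr 1
      calc G * Z * D' * (D * U * D') = G * Z * (D' * D) * U * D' := by simp only [mul_assoc]
        _ = G * Z * U * D' := by rw [hD'D, mul_one]
        _ = _ := by rw [hconj, mul_assoc]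
  have hne : ¬ IsConj u₀ u₁ := by
    intro hc
    obtain ⟨P, hP⟩ := isConj_iff.1 hc
    set Pm := (P : Matrix (Fin m ⊕ Fin m) (Fin m ⊕ Fin m) F)
    have hP' : Pm * U = D * U * D' * Pm := congrArg Subtype.val (mul_inv_eq_iff_eq_mul.1 hP)
    set X := D' * Pm
    have hX : Commute X U := by
      show D' * Pm * U = U * (D' * Pm)
      rw [mul_assoc, hP', ← mul_assoc D', ← mul_assoc D', ← mul_assoc D', hD'D, one_mul, mul_assoc]
    have hXX : sadj X * X = ν⁻¹ • 1 := by
      calc sadj X * X = sadj Pm * (sadj D' * D') * Pm := by simp only [X, sadj_mul, mul_assoc]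
        _ = _ := by rw [hsDD', mul_smul_comm, mul_one, smul_mul_assoc, mem_symplecticGroup_iff_sadj.1 P.2]
    obtain ⟨r, hr⟩ := h₀.square_of_norm (a := ⟨X, h₀.mem_skewAlg hX⟩) (ν := ν⁻¹) (Subtype.ext (by
      rw [mul_comm, Subalgebra.coe_mul, IsSympRegular.star'_coe, Subalgebra.coe_algebraMap,
        Algebra.algebraMap_eq_smul_one]
      exact hXX))
    exact hν ⟨r⁻¹, by rw [← mul_inv, hr, inv_inv]⟩
  rw [← Nat.card_fin 2]
  refine (Nat.card_congr (Equiv.ofBijective (fun i : Fin 2 => (if i = 0 then ⟨ConjClasses.mk u₀, u₀, rfl, h₀⟩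
    else ⟨ConjClasses.mk u₁, u₁, rfl, h₁⟩ : {C : ConjClasses ↥(Matrix.symplecticGroup (Fin m) F) // _}))
    ⟨?_, ?_⟩)).symm
  · intro i j e
    fin_cases i <;> fin_cases j
    · rfl
    · exact absurd (ConjClasses.mk_eq_mk_iff_isConj.1 (congrArg Subtype.val e)) hne
    · exact absurd (ConjClasses.mk_eq_mk_iff_isConj.1 (congrArg Subtype.val e).symm) hne
    · rfl
  · rintro ⟨C, u, rfl, hu⟩
    rcases hclass u hu with hc | hc
    · exact ⟨0, Subtype.ext (ConjClasses.mk_eq_mk_iff_isConj.2 hc)⟩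
    · exact ⟨1, Subtype.ext (ConjClasses.mk_eq_mk_iff_isConj.2 hc)⟩

end Cfsg.Agent.ClassConj
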