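import Cfsg.Agent.ClassConj.RegularProductChoice
import Cfsg.Agent.ClassConj.SympRegularCount

/-!
A non-scalar map of determinant one, not one plus rank one, has a regular triangular factorisation.
-/

set_option autoImplicit false

namespace Cfsg.Agent.ClassConj

open Matrix Module

variable {K : Type*} [Field K]

/-- A matrix split off its first row and column. -/
def cblk {n : ℕ} (a : K) (r c : Fin n → K) (M : Matrix (Fin n) (Fin n) K) :
    Matrix (Fin (n + 1)) (Fin (n + 1)) K :=
  Matrix.of (Fin.cases (Fin.cases a r) fun i => Fin.cases (c i) (M i))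

theorem cblk_mul {n : ℕ} (a b : K) (r c r' c' : Fin n → K) (M N : Matrix (Fin n) (Fin n) K) :
    cblk a r c M * cblk b r' c' N =
      cblk (a * b + r ⬝ᵥ c') (a • r' + r ᵥ* N) (b • c + M *ᵥ c') (vecMulVec c r' + M * N) := by
  ext i j
  rw [Matrix.mul_apply, Fin.sum_univ_succ]
  refine Fin.cases ?_ ?_ i <;> refine Fin.cases ?_ ?_ j <;>
    intros <;> simp [cblk, dotProduct, vecMul, mulVec, Matrix.mul_apply, vecMulVec_apply, mul_comm b]

theorem cblk_one {n : ℕ} : cblk (1 : K) 0 0 (1 : Matrix (Fin n) (Fin n) K) = 1 := by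
  ext i j
  refine Fin.cases ?_ ?_ i <;> refine Fin.cases ?_ ?_ j <;>
    intros <;> simp [cblk, Matrix.one_apply, Fin.succ_ne_zero, (Fin.succ_ne_zero _).symm]

theorem eq_cblk {n : ℕ} (M : Matrix (Fin (n + 1)) (Fin (n + 1)) K) :
    M = cblk (M 0 0) (fun j => M 0 j.succ) (fun i => M i.succ 0) (M.submatrix Fin.succ Fin.succ) := by
  ext i j
  refine Fin.cases ?_ ?_ i <;> refine Fin.cases ?_ ?_ j <;> intros <;> simp [cblk]

theorem det_cblk_upper {n : ℕ} (r : Fin n → K) (M : Matrix (Fin n) (Fin n) K) :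
    (cblk 1 r 0 M).det = M.det := by
  rw [Matrix.det_succ_column_zero, Fin.sum_univ_succ, Finset.sum_eq_zero fun i _ => by simp [cblk]]
  simp only [cblk, Matrix.of_apply, Fin.cases_zero, Fin.val_zero, pow_zero, one_mul, add_zero]
  congr 1

theorem det_cblk_lower {n : ℕ} (c : Fin n → K) :
    (cblk 1 0 c (1 : Matrix (Fin n) (Fin n) K)).det = 1 := by
  rw [Matrix.det_succ_row_zero, Fin.sum_univ_succ, Finset.sum_eq_zero fun i _ => by simp [cblk]]
  simp only [cblk, Matrix.of_apply, Fin.cases_zero, Fin.val_zero, pow_zero, one_mul, add_zero]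
  refine Eq.trans (congrArg Matrix.det ?_) Matrix.det_one
  ext i j; simp

/-- Lower unitriangular with non-zero subdiagonal. -/
def GoodLower {n : ℕ} (L : Matrix (Fin n) (Fin n) K) : Prop :=
  (∀ i, L i i = 1) ∧ (∀ i j : Fin n, (i : ℕ) < j → L i j = 0) ∧ ∀ i j : Fin n, (i : ℕ) = j + 1 → L i j ≠ 0

theorem goodLower_cblk {n : ℕ} {c : Fin n → K} {L : Matrix (Fin n) (Fin n) K} (hL : GoodLower L)
    (hc : ∀ i : Fin n, (i : ℕ) = 0 → c i ≠ 0) : GoodLower (cblk 1 0 c L) := by
  refine ⟨fun i => ?_, fun i j => ?_, fun i j => ?_⟩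
  · refine Fin.cases ?_ ?_ i
    · simp [cblk]
    · intro i; simpa [cblk] using hL.1 i
  · refine Fin.cases ?_ ?_ i <;> refine Fin.cases ?_ ?_ j
    · simp
    · intro j _; simp [cblk]
    · intro i h; simp at h
    · intro j i h
      simp only [Fin.val_succ] at h
      simpa [cblk] using hL.2.1 i j (by omega)
  · refine Fin.cases ?_ ?_ i <;> refine Fin.cases ?_ ?_ j
    · simp
    · intro j h; simp at h
    · intro i h
      simp only [Fin.val_succ, Fin.val_zero] at h
      simpa [cblk] using hc i (by omega)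
    · intro j i h
      simp only [Fin.val_succ] at h
      simpa [cblk] using hL.2.2 i j (by omega)

theorem cblk_transpose {n : ℕ} (a : K) (r c : Fin n → K) (M : Matrix (Fin n) (Fin n) K) :
    (cblk a r c M)ᵀ = cblk a c r Mᵀ := by
  ext i j
  refine Fin.cases ?_ ?_ i <;> refine Fin.cases ?_ ?_ j <;> intros <;> simp [cblk]

/-- Two by two maps without eigenvalue one inside. -/
theorem no_bad_plane {V : Type*} [AddCommGroup V] [Module K V] [FiniteDimensional K V] {A : Module.End K V}
    (hdet : LinearMap.det A = 1) (hn : finrank K V = 3) (hC : Function.Injective (A - 1 : Module.End K V))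
    (v : V) (k : K) (hne : ∀ l : K, A v ≠ l • v) : A v ≠ k • (A (A v) - A v - (A v - v)) := by
  intro he
  have hk : k ≠ 0 := fun h => hne 0 (by rw [he, h, zero_smul, zero_smul])
  have hAA : A (A v) = (2 + k⁻¹) • A v - v := by
    have h1 : k⁻¹ • A v = A (A v) - A v - (A v - v) := by
      conv_lhs => rw [he]
      rw [smul_smul, inv_mul_cancel₀ hk, one_smul]
    linear_combination (norm := module) -h1
  have hspan : Submodule.span K {v, A v} ≠ ⊤ := fun e => by
    have := finrank_span_pair_le (K := K) v (A v)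
    rw [e, finrank_top] at this; omega
  obtain ⟨z, hz⟩ : ∃ z, z ∉ Submodule.span K {v, A v} := by
    by_contra h
    push Not at h
    exact hspan (eq_top_iff.2 fun x _ => h x)
  have hv0 : v ≠ 0 := fun h => hne 0 (by simp [h])
  have hli : LinearIndependent K ![v, A v, z] := by
    rw [Fintype.linearIndependent_iff]
    intro g hg
    rw [Fin.sum_univ_three] at hg
    simp only [Matrix.cons_val_zero, Matrix.cons_val_one, Matrix.cons_val] at hg
    have h2 : g 2 = 0 := by
      by_contra h2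
      refine hz (Submodule.mem_span_pair.2 ⟨-(g 0) / g 2, -(g 1) / g 2, ?_⟩)
      have : g 2 • z = -(g 0 • v) - g 1 • A v := by linear_combination (norm := module) hg
      apply smul_right_injective V h2
      simp only [smul_add, smul_smul]
      rw [mul_div_cancel₀ _ h2, mul_div_cancel₀ _ h2, this]
      module
    rw [h2, zero_smul, add_zero] at hg
    have h1 : g 1 = 0 := by
      by_contra h1
      refine hne (-(g 0) / g 1) ?_
      apply smul_right_injective V h1
      simp only [smul_smul]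
      rw [mul_div_cancel₀ _ h1]
      linear_combination (norm := module) hg
    rw [h1, zero_smul, add_zero] at hg
    intro i
    fin_cases i
    · exact (smul_eq_zero.1 hg).resolve_right hv0
    · exact h1
    · exact h2
  let b := basisOfLinearIndependentOfCardEqFinrank hli (by rw [Fintype.card_fin, hn])
  have hb : ⇑b = ![v, A v, z] := coe_basisOfLinearIndependentOfCardEqFinrank _ _
  have e0 : A (b 0) = b 1 := by simp [hb]
  have e1 : A (b 1) = (2 + k⁻¹) • b 1 - b 0 := by simp [hb, hAA]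
  have hd := LinearMap.det_toMatrix b A
  rw [hdet, Matrix.det_fin_three] at hd
  simp [LinearMap.toMatrix_apply, e0, e1, Finsupp.single_apply] at hd
  have hC' : LinearMap.det (A - 1 : Module.End K V) = 0 := by
    rw [← LinearMap.det_toMatrix b, map_sub, LinearMap.toMatrix_one, Matrix.det_fin_three]
    simp [LinearMap.toMatrix_apply, Matrix.one_apply, e0, e1, Finsupp.single_apply, hd]
  exact (LinearMap.isUnit_det _ ((Module.End.isUnit_iff _).2 ⟨hC, LinearMap.surjective_of_injective hC⟩)).ne_zero hC'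

/-- The first step of the factorisation. -/
theorem exists_split {n : ℕ} (A : Matrix (Fin (n + 1)) (Fin (n + 1)) K) (v : Fin (n + 1) → K)
    (φ : Dual K (Fin (n + 1) → K)) (hφ : Slice (toLinAlgEquiv' A) v φ) (c : Fin (n + 1) → K) :
    ∃ (P Q : Matrix (Fin (n + 1)) (Fin (n + 1)) K) (r' c' : Fin n → K) (S : Matrix (Fin n) (Fin n) K)
      (g : (Fin n → K) →ₗ[K] (Fin (n + 1) → K)),
      P * Q = 1 ∧ Q *ᵥ Pi.single 0 1 = v ∧ (P *ᵥ c) 0 = φ c ∧
      P * A * Q = cblk 1 r' c' (S + vecMulVec c' r') ∧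
      (∀ h, φ h = 0 → ∃ z, g z = h) ∧ (∀ z, φ (g z) = 0) ∧ Function.Injective g ∧
      (∀ z, A *ᵥ g z = g (S *ᵥ z) + (r' ⬝ᵥ z) • (A *ᵥ v)) ∧ A *ᵥ v = v + g c' := by
  have hdim : finrank K (LinearMap.ker φ) = n := by
    have h1 := LinearMap.finrank_range_add_finrank_ker φ
    have h2 : LinearMap.range φ = ⊤ := LinearMap.range_eq_top.2 fun a => ⟨a • v, by simp [hφ.1]⟩
    rw [h2, finrank_top, finrank_self, finrank_fin_fun] at h1
    omega
  let hb := Module.finBasisOfFinrankEq K (LinearMap.ker φ) hdim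
  let g : (Fin n → K) →ₗ[K] (Fin (n + 1) → K) := (LinearMap.ker φ).subtype.comp hb.equivFun.symm.toLinearMap
  let f : (Fin (n + 1) → K) →ₗ[K] (Fin (n + 1) → K) := (LinearMap.proj (R := K) (φ := fun _ : Fin (n + 1) => K) 0).smulRight v
    + g.comp (LinearMap.funLeft K K Fin.succ)
  have hgφ : ∀ z, φ (g z) = 0 := fun z => (hb.equivFun.symm z).2
  have hginj : Function.Injective g := Subtype.val_injective.comp hb.equivFun.symm.injective
  have hf : ∀ z, f z = z 0 • v + g (fun i => z i.succ) := fun z => rfl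
  have hinj : Function.Injective f := by
    rw [injective_iff_map_eq_zero]
    intro z hz
    rw [hf] at hz
    have h0 := congrArg φ hz
    rw [map_add, map_smul, hgφ, hφ.1, map_zero, add_zero, smul_eq_mul, mul_one] at h0
    rw [h0, zero_smul, zero_add] at hz
    have h1 := congrFun (hginj (hz.trans (map_zero g).symm))
    funext i
    refine Fin.cases ?_ ?_ i
    · exact h0
    · exact h1
  let e := LinearEquiv.ofBijective f ⟨hinj, LinearMap.surjective_of_injective hinj⟩
  set P := LinearMap.toMatrix' e.symm.toLinearMap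
  set Q := LinearMap.toMatrix' f
  have hQ : ∀ z, Q *ᵥ z = f z := fun z => LinearMap.toMatrix'_mulVec f z
  have hP : ∀ x, P *ᵥ x = e.symm x := fun x => LinearMap.toMatrix'_mulVec _ x
  have hPQ : P * Q = 1 := by
    refine Matrix.ext_iff_mulVec.2 fun z => ?_
    rw [← mulVec_mulVec, hP, hQ, one_mulVec]
    exact e.symm_apply_apply z
  have hPf : ∀ z, P *ᵥ f z = z := fun z => (hP _).trans (e.symm_apply_apply z)
  have hQP : ∀ x, f (P *ᵥ x) = x := fun x => by rw [hP]; exact e.apply_symm_apply x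
  have hP0 : ∀ x, (P *ᵥ x) 0 = φ x := fun x => by
    conv_rhs => rw [← hQP x, hf, map_add, map_smul, hgφ, hφ.1, add_zero, smul_eq_mul, mul_one]
  have hQ0 : Q *ᵥ Pi.single 0 1 = v := by
    rw [hQ, hf]
    have : (fun i : Fin n => (Pi.single 0 1 : (Fin (n + 1) → K)) i.succ) = 0 := funext fun i => by simp [Fin.succ_ne_zero]
    rw [this, map_zero, add_zero, Pi.single_eq_same, one_smul]
  set M := P * A * Q
  have hM00 : M 0 0 = 1 := by
    have : M *ᵥ Pi.single 0 1 = P *ᵥ (A *ᵥ v) := by rw [← mulVec_mulVec, hQ0, mulVec_mulVec]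
    have := congrFun this 0
    rw [mulVec_single_one, hP0, show φ (A *ᵥ v) = 1 from hφ.2] at this
    exact this
  refine ⟨P, Q, fun j => M 0 j.succ, fun i => M i.succ 0,
    M.submatrix Fin.succ Fin.succ - vecMulVec (fun i => M i.succ 0) (fun j => M 0 j.succ), g,
    hPQ, hQ0, hP0 c, ?_, fun h hh => ⟨hb.equivFun ⟨h, hh⟩, by simp [g]⟩, hgφ, hginj, fun z => ?_, ?_⟩
  · rw [sub_add_cancel]
    show M = _
    conv_lhs => rw [eq_cblk M, hM00]
  · let z' : (Fin (n + 1) → K) := Fin.cons 0 z
    have hz' : f z' = g z := by rw [hf]; simp [z']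
    have h1 : P *ᵥ (A *ᵥ g z) = M *ᵥ z' := by rw [← hz', ← hQ, mulVec_mulVec, mulVec_mulVec]
    have h0 : (M *ᵥ z') 0 = (fun j => M 0 j.succ) ⬝ᵥ z := by
      simp [mulVec, dotProduct, Fin.sum_univ_succ, z']
    have hs : (fun i : Fin n => (M *ᵥ z') i.succ) = M.submatrix Fin.succ Fin.succ *ᵥ z := by
      funext i; simp [mulVec, dotProduct, Fin.sum_univ_succ, z']
    have hAv : A *ᵥ v = v + g (fun i => M i.succ 0) := by
      conv_lhs => rw [← hQP (A *ᵥ v), hf, hP0, show φ (A *ᵥ v) = 1 from hφ.2, one_smul]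
      congr 2
      funext i
      rw [← hQ0, mulVec_mulVec, mulVec_mulVec, mulVec_single_one]
      rfl
    conv_lhs => rw [← hQP (A *ᵥ g z), h1, hf, h0, hs]
    rw [hAv, sub_mulVec, vecMulVec_mulVec, map_sub]
    simp only [op_smul_eq_smul, map_smul, smul_add]
    abel
  · conv_lhs => rw [← hQP (A *ᵥ v), hf, hP0, show φ (A *ᵥ v) = 1 from hφ.2, one_smul]
    congr 2
    funext i
    rw [← hQ0, mulVec_mulVec, mulVec_mulVec, mulVec_single_one]
    rfl

theorem rank_le_one_spanned {n : ℕ} (M : Matrix (Fin n) (Fin n) K) (h : M.rank ≤ 1) :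
    ∃ x, ∀ z, M *ᵥ z ∈ K ∙ x := by
  rw [Matrix.rank] at h
  obtain ⟨x, hx⟩ := (finrank_le_one_iff).1 h
  refine ⟨x, fun z => ?_⟩
  obtain ⟨a, ha⟩ := hx ⟨M *ᵥ z, ⟨z, rfl⟩⟩
  exact Submodule.mem_span_singleton.2 ⟨a, congrArg Subtype.val ha⟩

/-- The factorisation. -/
theorem exists_good_factorisation (hK : ∀ s : Finset K, s.card ≤ 3 → ∃ x, x ∉ s) :
    ∀ (k : ℕ) (A : Matrix (Fin (k + 2)) (Fin (k + 2)) K), A.det = 1 → (∀ l : K, A ≠ l • 1) → 2 ≤ (A - 1).rank →
      ∀ c r : Fin (k + 2) → K, c ≠ 0 → r ≠ 0 →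
      ∃ P Q L U : Matrix (Fin (k + 2)) (Fin (k + 2)) K, P * Q = 1 ∧ P * A * Q = L * U ∧ GoodLower L ∧
        GoodLower Uᵀ ∧ (P *ᵥ c) 0 ≠ 0 ∧ r ⬝ᵥ (Q *ᵥ Pi.single 0 1) ≠ 0 := by
  intro k
  induction k using Nat.strong_induction_on with
  | _ k ih =>
  intro A hdet hA hrank c r hc hr
  set a := toLinAlgEquiv' A with ha
  have haA : ∀ x, a x = A *ᵥ x := fun x => rfl
  have ha1 : a - 1 = toLinAlgEquiv' (A - 1) := by rw [map_sub, map_one]
  have hrank' : 2 ≤ finrank K (LinearMap.range (a - 1)) := by rw [ha1]; exact hrank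
  have hinj : Function.Injective a :=
    Matrix.mulVec_injective_iff_isUnit.2 ((Matrix.isUnit_iff_isUnit_det A).2 (by rw [hdet]; exact isUnit_one))
  have hA' : ∀ l : K, a ≠ l • 1 := fun l h => hA l (toLinAlgEquiv'.injective (by rw [map_smul, map_one]; exact h))
  let rf : Dual K (Fin (k + 2) → K) :=
    { toFun := fun x => r ⬝ᵥ x
      map_add' := fun x y => dotProduct_add r x y
      map_smul' := fun t x => dotProduct_smul t r x }
  have hrf : rf ≠ 0 := fun h => hr (funext fun i => by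
    have := LinearMap.congr_fun h (Pi.single i 1)
    simpa [rf] using this)
  have hfin : finrank K (Fin (k + 2) → K) = k + 2 := finrank_fin_fun K
  -- first vector and functional
  obtain ⟨v, φ, hne, hrv, hφ, hφc, hrow, hS⟩ : ∃ (v : Fin (k + 2) → K) (φ : Dual K (Fin (k + 2) → K)),
      (∀ l : K, a v ≠ l • v) ∧ rf v ≠ 0 ∧ Slice a v φ ∧ φ c ≠ 0 ∧ (∃ h, φ h = 0 ∧ φ (a h) ≠ 0) ∧
      (k = 0 ∨ GoodRank a v φ ∧ (GoodNonscalar a v φ ∨ k = 1 ∧ (2 : K) = 0)) := by
    rcases Nat.eq_zero_or_pos k with hk | hk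
    · subst hk
      have hsurj : LinearMap.range (a - 1) = ⊤ := Submodule.eq_top_of_finrank_eq
        (le_antisymm (Submodule.finrank_le _) (hfin.le.trans hrank'))
      obtain ⟨c1, hc1⟩ := LinearMap.range_eq_top.1 hsurj c
      have hne : (K ∙ c1) ≠ ⊤ := fun h => by
        have := (finrank_span_le_card (R := K) ({c1} : Set (Fin (0 + 2) → K)))
        rw [h, finrank_top, hfin] at this; simp at this
      obtain ⟨fc, hfc, hfcW⟩ := exists_functional_vanishing hne
      obtain ⟨v, hv1, hv2, hv3⟩ := exists_avoid_eigen hK hA' hrf hfc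
      have hcv : c ∉ (K ∙ (a v - v)) := by
        intro h
        obtain ⟨t, ht⟩ := Submodule.mem_span_singleton.1 h
        have ht0 : t ≠ 0 := fun e => hc (by rw [← ht, e, zero_smul])
        have hi : Function.Injective (a - 1 : Module.End K _) :=
          LinearMap.injective_iff_surjective.2 (LinearMap.range_eq_top.1 hsurj)
        have : c1 = t • v := hi (by rw [hc1, map_smul, ← ht]; rfl)
        refine hv3 (hfcW v (Submodule.mem_span_singleton.2 ⟨t⁻¹, ?_⟩))
        rw [this, smul_smul, inv_mul_cancel₀ ht0, one_smul]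
      obtain ⟨φ, hφ, hφc⟩ := exists_slice_ne hv1 hcv
      obtain ⟨x, hx⟩ := LinearMap.range_eq_top.1 hsurj v
      refine ⟨v, φ, hv1, hv2, hφ, hφc, ⟨x - φ x • v, by simp [hφ.1], ?_⟩, Or.inl rfl⟩
      have h1 : φ (a x) - φ x = 1 := by
        rw [← map_sub, show a x - x = v from hx]; exact hφ.1
      rw [map_sub, map_smul, map_sub, map_smul, hφ.2, smul_eq_mul, mul_one, h1]
      exact one_ne_zero
    · obtain ⟨v, hv⟩ := exists_goodVector hK hA' hrank' (by rw [hfin]; omega) hc hrf
      obtain ⟨φ, hφ, hφc, hrow, hgr, hns⟩ := exists_goodFunctional hK hinj hrank' (by rw [hfin]; omega)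
        (fun h3 hC => no_bad_plane (by rw [ha]; exact (LinearMap.det_toLin' A).trans hdet) h3 hC) hv
      exact ⟨v, φ, hv.1, hv.2.1, hφ, hφc, hrow, Or.inr ⟨hgr, hns.imp id fun h => ⟨by have := h.1; rw [hfin] at this; omega, h.2⟩⟩⟩
  obtain ⟨P1, Q1, r', c', S, g, hPQ1, hQv, hPc, hM, hg1, hgφ, hginj, hgA, hAv⟩ := exists_split A v φ hφ c
  have hc' : c' ≠ 0 := fun h => hne 1 (by rw [one_smul, haA, hAv, h, map_zero, add_zero])
  have hr' : r' ≠ 0 := fun h => by
    obtain ⟨x, hx, hx'⟩ := hrow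
    obtain ⟨z, rfl⟩ := hg1 x hx
    refine hx' ?_
    rw [haA, hgA, map_add, hgφ, map_smul, h, zero_dotProduct, zero_smul, add_zero]
  have hdetS : S.det = 1 := by
    have e : cblk 1 r' c' (S + vecMulVec c' r') = cblk 1 0 c' 1 * cblk 1 r' 0 S := by
      rw [cblk_mul]; congr 1 <;> simp [add_comm]
    have h1 := congrArg Matrix.det hM
    rw [det_mul, det_mul, hdet, mul_one, ← det_mul, hPQ1, det_one, e, det_mul, det_cblk_lower, det_cblk_upper, one_mul] at h1
    exact h1.symm
  rcases Nat.eq_zero_or_pos k with hk0 | hkpos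
  · subst hk0
    have hS1 : S = 1 := by
      have e : S = !![S 0 0] := by ext i j; fin_cases i; fin_cases j; rfl
      have : S 0 0 = 1 := by rw [← hdetS, Matrix.det_fin_one]
      ext i j
      fin_cases i; fin_cases j
      simpa using this
    refine ⟨P1, Q1, cblk 1 0 c' 1, cblk 1 r' 0 1, hPQ1, ?_, ?_, ?_, by rw [hPc]; exact hφc,
      by rw [hQv]; exact hrv⟩
    · rw [hM, hS1, cblk_mul]; congr 1 <;> simp [add_comm]
    · refine goodLower_cblk ⟨fun i => by simp, fun i j h => by omega, fun i j h => by omega⟩ fun i _ h => hc' ?_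
      funext j; rw [show j = i from Fin.ext (by omega)]; exact h
    · rw [cblk_transpose]
      refine goodLower_cblk ⟨fun i => by simp, fun i j h => by omega, fun i j h => by omega⟩ fun i _ h => hr' ?_
      funext j; rw [show j = i from Fin.ext (by omega)]; exact h
  obtain ⟨k', rfl⟩ : ∃ k', k = k' + 1 := ⟨k - 1, by omega⟩
  obtain ⟨hgr, hns⟩ := hS.resolve_left (by omega)
  have hrankS : 2 ≤ (S - 1).rank := by
    by_contra hlt
    obtain ⟨x0, hx0⟩ := rank_le_one_spanned (S - 1) (by omega)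
    obtain ⟨h, hh, hh'⟩ := hgr (g x0)
    obtain ⟨z, rfl⟩ := hg1 h hh
    refine hh' ?_
    obtain ⟨t, ht⟩ := Submodule.mem_span_singleton.1 (hx0 z)
    rw [sub_mulVec, one_mulVec] at ht
    simp only [haA]
    rw [hgA, show g (S *ᵥ z) = t • g x0 + g z by rw [← map_smul, ← map_add, ht, sub_add_cancel],
      Submodule.mem_span_pair]
    exact ⟨r' ⬝ᵥ z, t, by abel⟩
  have hnsS : ∀ l : K, S ≠ l • 1 := by
    intro l hl
    rcases hns with hns | ⟨hk1, h2⟩
    · obtain ⟨h, hh, hh'⟩ := hns l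
      obtain ⟨z, rfl⟩ := hg1 h hh
      refine hh' (Submodule.mem_span_singleton.2 ⟨r' ⬝ᵥ z, ?_⟩)
      rw [haA, haA, hgA, hl, smul_mulVec, one_mulVec, map_smul]
      abel
    · obtain rfl : k' = 0 := by omega
      rw [hl, det_smul, det_one, mul_one, Fintype.card_fin, sq_eq_one_iff] at hdetS
      have hl1 : l = 1 := by
        rcases hdetS with h | h
        · exact h
        · rw [h]; linear_combination -h2
      rw [hl, hl1, one_smul, sub_self, Matrix.rank_zero] at hrankS
      omega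
  obtain ⟨P', Q', L', U', hPQ', hLU, hL, hU, hPc', hrQ'⟩ := ih k' (by omega) S hdetS hnsS hrankS c' r' hc' hr'
  refine ⟨cblk 1 0 0 P' * P1, Q1 * cblk 1 0 0 Q', cblk 1 0 (P' *ᵥ c') L', cblk 1 (r' ᵥ* Q') 0 U',
    ?_, ?_, goodLower_cblk hL fun i hi => by rw [show i = 0 from Fin.ext hi]; exact hPc', ?_, ?_, ?_⟩
  · rw [mul_assoc, ← mul_assoc P1, hPQ1, one_mul, cblk_mul]
    simp [hPQ', cblk_one]
  · rw [show cblk 1 0 0 P' * P1 * A * (Q1 * cblk 1 0 0 Q') = cblk 1 0 0 P' * (P1 * A * Q1) * cblk 1 0 0 Q' by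
      simp only [mul_assoc], hM, cblk_mul, cblk_mul, cblk_mul]
    congr 1 <;> simp [← hLU, mul_add, add_mul, mul_vecMulVec, vecMulVec_mul, add_comm, mul_assoc]
  · rw [cblk_transpose]
    refine goodLower_cblk hU fun i hi => ?_
    rw [show i = 0 from Fin.ext hi]
    have : (r' ᵥ* Q') 0 = r' ⬝ᵥ (Q' *ᵥ Pi.single 0 1) := by rw [dotProduct_mulVec, dotProduct_single_one]
    rw [this]; exact hrQ'
  · rw [← mulVec_mulVec]
    have h0 : ∀ x : Fin (k' + 1 + 2) → K, (cblk 1 0 0 P' *ᵥ x) 0 = x 0 := fun x => by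
      simp [mulVec, dotProduct, Fin.sum_univ_succ, cblk]
    rw [h0, hPc]; exact hφc
  · rw [← mulVec_mulVec]
    have h0 : cblk 1 0 0 Q' *ᵥ Pi.single 0 1 = (Pi.single 0 1 : Fin (k' + 1 + 2) → K) := by
      rw [mulVec_single_one]
      funext i
      refine Fin.cases ?_ ?_ i <;> intros <;> simp [cblk]
    rw [h0, hQv]; exact hrv

theorem goodLower_regular {n : ℕ} {L : Matrix (Fin (n + 1)) (Fin (n + 1)) K} (hL : GoodLower L) :
    (L - 1) ^ (n + 1) = 0 ∧ (L - 1).rank = n := by
  set N := (L - 1)ᵀ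
  have hN : ∀ i j, N i j ≠ 0 → (i : ℕ) < j := by
    intro i j h
    by_contra hle
    rcases lt_or_eq_of_le (not_lt.1 hle) with h1 | h1
    · refine h ?_
      simp only [N, transpose_apply, Matrix.sub_apply, hL.2.1 j i h1]
      rw [Matrix.one_apply_ne (fun e => by rw [e] at h1; omega), sub_zero]
    · obtain rfl : j = i := Fin.ext h1
      simp [N, hL.1] at h
  have hpow : N ^ (n + 1) = 0 := by
    ext i j
    by_contra h
    have := strictUpper_pow N hN (n + 1) i j h
    have := j.2; omega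
  have h1 : (L - 1) ^ (n + 1) = 0 := by
    rw [← transpose_transpose ((L - 1) ^ (n + 1)), transpose_pow, hpow, transpose_zero]
  refine ⟨h1, ?_⟩
  rw [← Matrix.rank_transpose]
  show N.rank = n
  apply le_antisymm
  · have hd : N.det = 0 := by
      have := congrArg Matrix.det hpow
      rw [det_pow, det_zero] at this
      exact IsReduced.eq_zero _ ⟨_, this⟩
    have h2 := Matrix.rank_le_card_width N
    by_contra hlt
    have h3 : N.rank = Fintype.card (Fin (n + 1)) := by rw [Fintype.card_fin] at h2 ⊢; omega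
    obtain ⟨v, hv, hv0⟩ := Matrix.exists_mulVec_eq_zero_iff.2 hd
    have h4 := LinearMap.finrank_range_add_finrank_ker N.mulVecLin
    rw [finrank_fin_fun] at h4
    have h5 : 0 < finrank K (LinearMap.ker N.mulVecLin) :=
      Module.finrank_pos_iff_exists_ne_zero.2 ⟨⟨v, hv0⟩, fun e => hv (congrArg Subtype.val e)⟩
    rw [Matrix.rank, Fintype.card_fin] at h3
    omega
  · have hB : IsUnit (N.submatrix Fin.castSucc Fin.succ) := by
      rw [Matrix.isUnit_iff_isUnit_det, Matrix.det_of_upperTriangular]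
      · refine (Finset.prod_ne_zero_iff.2 fun i _ => ?_).isUnit
        simp only [submatrix_apply, N, transpose_apply, Matrix.sub_apply]
        rw [Matrix.one_apply_ne (fun e => by have := congrArg Fin.val e; simp at this), sub_zero]
        exact hL.2.2 _ _ (by simp)
      · intro i j hij
        by_contra h
        have := hN _ _ h
        have hij' : (j : ℕ) < i := hij
        simp at this
        omega
    have := Matrix.rank_submatrix_le N Fin.castSucc (Fin.succ : Fin n → Fin (n + 1))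
    rw [Matrix.rank_of_isUnit _ hB, Fintype.card_fin] at this
    exact this

end Cfsg.Agent.ClassConj
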