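import Mathlib

/-!
Choosing the first basis vector and functional in the triangular factorisation of a non-scalar map.
-/

set_option autoImplicit false

namespace Cfsg.Agent.ClassConj

open Module

variable {K : Type*} [Field K] {V : Type*} [AddCommGroup V] [Module K V] [FiniteDimensional K V]

omit [FiniteDimensional K V] in
/-- Up to four proper hyperplanes do not cover, over a field with at least four elements. -/
theorem exists_avoid_functionals (hK : ∀ s : Finset K, s.card ≤ 3 → ∃ x, x ∉ s) :
    ∀ fs : List (Dual K V), fs.length ≤ 4 → (∀ f ∈ fs, f ≠ 0) → ∃ v : V, ∀ f ∈ fs, f v ≠ 0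
  | [], _, _ => ⟨0, by simp⟩
  | f :: fs, hl, hne => by
    classical
    simp only [List.length_cons] at hl
    obtain ⟨v, hv⟩ := exists_avoid_functionals hK fs (by omega) fun g hg => hne g (List.mem_cons_of_mem _ hg)
    by_cases hfv : f v = 0
    · obtain ⟨u, hu⟩ : ∃ u, f u ≠ 0 := by
        by_contra h
        push Not at h
        exact hne f List.mem_cons_self (LinearMap.ext h)
      obtain ⟨t, ht⟩ := hK (fs.map fun g => -(g u) / g v).toFinset
        ((List.toFinset_card_le _).trans (by rw [List.length_map]; omega))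
      refine ⟨u + t • v, fun g hg => ?_⟩
      rw [map_add, map_smul, smul_eq_mul]
      rcases List.mem_cons.1 hg with rfl | hg
      · rw [hfv, mul_zero, add_zero]; exact hu
      · intro h0
        refine ht (List.mem_toFinset.2 (List.mem_map.2 ⟨g, hg, ?_⟩))
        rw [div_eq_iff (hv g hg)]
        linear_combination -h0
    · exact ⟨v, fun g hg => (List.mem_cons.1 hg).elim (fun e => e ▸ hfv) (hv g)⟩

omit [FiniteDimensional K V] in
/-- A line through a point of an affine slice avoiding finitely many hyperplanes. -/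
theorem exists_avoid_on_slice (hK : ∀ s : Finset K, s.card ≤ 3 → ∃ x, x ∉ s) (P : Dual K V → Prop)
    (hP : ∀ a b : Dual K V, P a → P b → ∀ t : K, P (a + t • (b - a))) (h0 : ∃ a, P a) :
    ∀ us : List V, us.length ≤ 3 → (∀ u ∈ us, ∃ a, P a ∧ a u ≠ 0) → ∃ a, P a ∧ ∀ u ∈ us, a u ≠ 0
  | [], _, _ => by obtain ⟨a, ha⟩ := h0; exact ⟨a, ha, by simp⟩
  | w :: us, hl, hne => by
    classical
    simp only [List.length_cons] at hl
    obtain ⟨a, ha, hav⟩ := exists_avoid_on_slice hK P hP h0 us (by omega) fun u hu => hne u (List.mem_cons_of_mem _ hu)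
    by_cases haw : a w = 0
    · obtain ⟨b, hb, hbw⟩ := hne w List.mem_cons_self
      obtain ⟨t, ht⟩ := hK (insert 0 (us.map fun u => -(a u) / (b u - a u)).toFinset)
        ((Finset.card_insert_le _ _).trans (by
          have := List.toFinset_card_le (us.map fun u => -(a u) / (b u - a u))
          rw [List.length_map] at this; omega))
      rw [Finset.mem_insert, not_or] at ht
      refine ⟨a + t • (b - a), hP a b ha hb t, fun u hu => ?_⟩
      rw [LinearMap.add_apply, LinearMap.smul_apply, LinearMap.sub_apply, smul_eq_mul]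
      rcases List.mem_cons.1 hu with rfl | hu
      · rw [haw, zero_add, sub_zero]; exact mul_ne_zero ht.1 hbw
      · intro h
        by_cases hd : b u - a u = 0
        · rw [hd, mul_zero, add_zero] at h; exact hav u hu h
        · refine ht.2 (List.mem_toFinset.2 (List.mem_map.2 ⟨u, hu, ?_⟩))
          rw [div_eq_iff hd]
          linear_combination -h
    · exact ⟨a, ha, fun u hu => (List.mem_cons.1 hu).elim (fun e => e ▸ haw) (hav u)⟩

/-- A subspace that is not everything lies in the kernel of a non-zero functional. -/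
theorem exists_functional_vanishing {W : Submodule K V} (hW : W ≠ ⊤) :
    ∃ f : Dual K V, f ≠ 0 ∧ ∀ x ∈ W, f x = 0 := by
  obtain ⟨f, hf, hmap⟩ := W.exists_dual_map_eq_bot_of_lt_top (lt_of_le_of_ne le_top hW) inferInstance
  exact ⟨f, hf, fun x hx => (Submodule.mem_bot K).1 (hmap ▸ Submodule.mem_map_of_mem hx)⟩

/-- A functional killing a subspace but not a vector outside it. -/
theorem exists_functional_separating {W : Submodule K V} {u : V} (hu : u ∉ W) :
    ∃ f : Dual K V, f u ≠ 0 ∧ ∀ x ∈ W, f x = 0 := by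
  obtain ⟨f, hf, hmap⟩ := W.exists_dual_map_eq_bot_of_notMem hu inferInstance
  exact ⟨f, hf, fun x hx => (Submodule.mem_bot K).1 (hmap ▸ Submodule.mem_map_of_mem hx)⟩

/-- Normalised functionals at `v` and `A v`. -/
def Slice (A : Module.End K V) (v : V) (φ : Dual K V) : Prop := φ v = 1 ∧ φ (A v) = 1

theorem slice_line {A : Module.End K V} {v : V} (a b : Dual K V) (ha : Slice A v a) (hb : Slice A v b) (t : K) :
    Slice A v (a + t • (b - a)) := by
  simp [Slice, ha.1, ha.2, hb.1, hb.2]

theorem exists_slice {A : Module.End K V} {v : V} (hv : ∀ l : K, A v ≠ l • v) : ∃ φ, Slice A v φ := by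
  have hv0 : v ≠ 0 := fun h => hv 0 (by simp [h])
  obtain ⟨f, hf, hfA⟩ := exists_functional_separating (W := K ∙ A v) (u := v) (by
    intro h
    obtain ⟨a, ha⟩ := Submodule.mem_span_singleton.1 h
    have ha0 : a ≠ 0 := fun e => hv0 (by rw [← ha, e, zero_smul])
    exact hv a⁻¹ (by rw [eq_inv_smul_iff₀ ha0, ha]))
  obtain ⟨g, hg, hgv⟩ := exists_functional_separating (W := K ∙ v) (u := A v) (by
    intro h
    obtain ⟨a, ha⟩ := Submodule.mem_span_singleton.1 h
    exact hv a ha.symm)
  refine ⟨(f v)⁻¹ • f + (g (A v))⁻¹ • g, ?_, ?_⟩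
  · simp [hgv v (Submodule.mem_span_singleton_self v), hf]
  · simp [hfA _ (Submodule.mem_span_singleton_self (A v)), hg]

theorem exists_slice_ne {A : Module.End K V} {v : V} (hv : ∀ l : K, A v ≠ l • v) {u : V}
    (hu : u ∉ (K ∙ (A v - v))) : ∃ φ, Slice A v φ ∧ φ u ≠ 0 := by
  obtain ⟨φ, hφ⟩ := exists_slice hv
  by_cases h0 : φ u = 0
  · have hW : u ∉ Submodule.span K {v, A v} := by
      intro h
      obtain ⟨a, b, hab⟩ := Submodule.mem_span_pair.1 h
      rw [← hab, map_add, map_smul, map_smul, hφ.1, hφ.2, smul_eq_mul, smul_eq_mul, mul_one, mul_one] at h0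
      refine hu (Submodule.mem_span_singleton.2 ⟨b, ?_⟩)
      rw [← hab, smul_sub, show a = -b from eq_neg_of_add_eq_zero_left h0, neg_smul]
      abel
    obtain ⟨f, hf, hfW⟩ := exists_functional_separating hW
    refine ⟨φ + f, ⟨?_, ?_⟩, ?_⟩
    · rw [LinearMap.add_apply, hφ.1, hfW v (Submodule.subset_span (by simp)), add_zero]
    · rw [LinearMap.add_apply, hφ.2, hfW (A v) (Submodule.subset_span (by simp)), add_zero]
    · rw [LinearMap.add_apply, h0, zero_add]; exact hf
  · exact ⟨φ, hφ, h0⟩

omit [FiniteDimensional K V] in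
/-- A vector that is no eigenvector, avoiding two hyperplanes. -/
theorem exists_avoid_eigen (hK : ∀ s : Finset K, s.card ≤ 3 → ∃ x, x ∉ s) {A : Module.End K V}
    (hA : ∀ l : K, A ≠ l • 1) {r fc : Dual K V} (hr : r ≠ 0) (hfc : fc ≠ 0) :
    ∃ v : V, (∀ l : K, A v ≠ l • v) ∧ r v ≠ 0 ∧ fc v ≠ 0 := by
  classical
  obtain ⟨u, hu⟩ := exists_avoid_functionals hK [r, fc] (by simp) (by simp [hr, hfc])
  simp only [List.mem_cons, List.not_mem_nil, or_false, forall_eq_or_imp, forall_eq] at hu
  by_cases hev : ∃ l : K, A u = l • u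
  · obtain ⟨l, hl⟩ := hev
    obtain ⟨y, hy⟩ : ∃ y, A y ≠ l • y := by
      by_contra h
      push Not at h
      exact hA l (LinearMap.ext fun x => by simp [h x])
    obtain ⟨t1, ht1⟩ := hK {-(r y) / r u, -(fc y) / fc u} (Finset.card_le_two.trans (by norm_num))
    obtain ⟨t2, ht2⟩ := hK {-(r y) / r u, -(fc y) / fc u, t1} Finset.card_le_three
    simp only [Finset.mem_insert, Finset.mem_singleton, not_or] at ht1 ht2
    have hgood : ∀ t, t ≠ -(r y) / r u → t ≠ -(fc y) / fc u → r (y + t • u) ≠ 0 ∧ fc (y + t • u) ≠ 0 := by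
      intro t h1 h3
      refine ⟨fun h => h1 ?_, fun h => h3 ?_⟩
      · rw [eq_div_iff hu.1]; rw [map_add, map_smul, smul_eq_mul] at h; linear_combination h
      · rw [eq_div_iff hu.2]; rw [map_add, map_smul, smul_eq_mul] at h; linear_combination h
    by_cases hb : ∃ m : K, A (y + t1 • u) = m • (y + t1 • u)
    · obtain ⟨m1, hm1⟩ := hb
      obtain ⟨hr2', hc2'⟩ := hgood t2 ht2.1 ht2.2.1
      refine ⟨y + t2 • u, fun m2 hm2 => ?_, hr2', hc2'⟩
      have e1 : A y = m1 • y + (t1 * m1 - t1 * l) • u := by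
        rw [map_add, map_smul, hl] at hm1
        linear_combination (norm := module) hm1
      have e2 : A y = m2 • y + (t2 * m2 - t2 * l) • u := by
        rw [map_add, map_smul, hl] at hm2
        linear_combination (norm := module) hm2
      have e3 : (m1 - m2) • y = ((t2 * m2 - t2 * l) - (t1 * m1 - t1 * l)) • u := by
        linear_combination (norm := module) e2 - e1
      by_cases hm : m1 = m2
      · subst hm
        rw [sub_self, zero_smul] at e3
        have hu0 : u ≠ 0 := fun h => hu.1 (by rw [h, map_zero])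
        have h4 := (smul_eq_zero.1 e3.symm).resolve_right hu0
        have h5 : (t2 - t1) * (m1 - l) = 0 := by linear_combination h4
        have h6 : m1 = l := sub_eq_zero.1 ((mul_eq_zero.1 h5).resolve_left (sub_ne_zero.2 ht2.2.2))
        refine hy ?_
        rw [e1, h6]
        module
      · refine hy ?_
        have : y = ((m1 - m2)⁻¹ * ((t2 * m2 - t2 * l) - (t1 * m1 - t1 * l))) • u := by
          rw [← smul_smul, ← e3, smul_smul, inv_mul_cancel₀ (sub_ne_zero.2 hm), one_smul]
        rw [this, map_smul, hl, smul_smul, smul_smul, mul_comm]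
    · obtain ⟨hr1', hc1'⟩ := hgood t1 ht1.1 ht1.2
      exact ⟨y + t1 • u, fun m hm => hb ⟨m, hm⟩, hr1', hc1'⟩
  · exact ⟨u, fun l hl => hev ⟨l, hl⟩, hu.1, hu.2⟩

/-- What is needed of the first vector. -/
def GoodVector (A : Module.End K V) (c : V) (r : Dual K V) (v : V) : Prop :=
  (∀ l : K, A v ≠ l • v) ∧ r v ≠ 0 ∧ c ∉ (K ∙ (A v - v)) ∧
    (finrank K (LinearMap.range (A - 1)) = 2 →
      v ∉ LinearMap.range (A - 1) ∧ ¬ LinearMap.ker (A - 1) ≤ K ∙ (A v - v))

theorem exists_goodVector (hK : ∀ s : Finset K, s.card ≤ 3 → ∃ x, x ∉ s) {A : Module.End K V}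
    (hA : ∀ l : K, A ≠ l • 1) (hr2 : 2 ≤ finrank K (LinearMap.range (A - 1))) (hn : 3 ≤ finrank K V)
    {c : V} (hc : c ≠ 0) {r : Dual K V} (hr : r ≠ 0) : ∃ v, GoodVector A c r v := by
  classical
  set C := A - 1
  have hW : (K ∙ c).comap C ≠ ⊤ := by
    intro h
    have h1 : LinearMap.range C ≤ K ∙ c := by
      rintro _ ⟨x, rfl⟩
      exact Submodule.mem_comap.1 (h ▸ Submodule.mem_top : x ∈ (K ∙ c).comap C)
    have := Submodule.finrank_mono h1
    rw [finrank_span_singleton hc] at this
    omega
  obtain ⟨fc, hfc, hfcW⟩ := exists_functional_vanishing hW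
  have hcv : ∀ v, fc v ≠ 0 → c ∉ (K ∙ (A v - v)) := by
    intro v hv h
    obtain ⟨a, ha⟩ := Submodule.mem_span_singleton.1 h
    have ha0 : a ≠ 0 := fun e => hc (by rw [← ha, e, zero_smul])
    refine hv (hfcW v (Submodule.mem_span_singleton.2 ⟨a⁻¹, ?_⟩))
    rw [← ha, smul_smul, inv_mul_cancel₀ ha0, one_smul]
    rfl
  by_cases h2 : finrank K (LinearMap.range C) = 2
  · have hR : LinearMap.range C ≠ ⊤ := fun h => by rw [h, finrank_top] at h2; omega
    obtain ⟨fR, hfR, hfRW⟩ := exists_functional_vanishing hR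
    have hker := LinearMap.finrank_range_add_finrank_ker C
    obtain ⟨f4, hf4, hf4W⟩ : ∃ f4 : Dual K V, f4 ≠ 0 ∧ ∀ v, C v ≠ 0 → LinearMap.ker C ≤ K ∙ C v → f4 v = 0 := by
      by_cases hk : finrank K (LinearMap.ker C) = 1
      · have hne : LinearMap.ker (C * C) ≠ ⊤ := by
          intro h
          have h1 : LinearMap.range C ≤ LinearMap.ker C := by
            rintro _ ⟨x, rfl⟩
            exact LinearMap.mem_ker.2 (LinearMap.congr_fun (LinearMap.ker_eq_top.1 h) x)
          have := Submodule.finrank_mono h1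
          omega
        obtain ⟨f4, hf4, hf4W⟩ := exists_functional_vanishing hne
        refine ⟨f4, hf4, fun v hv hle => hf4W v (LinearMap.mem_ker.2 ?_)⟩
        have : LinearMap.ker C = K ∙ C v := Submodule.eq_of_le_of_finrank_eq hle (by rw [hk, finrank_span_singleton hv])
        have hm : C v ∈ LinearMap.ker C := this ▸ Submodule.mem_span_singleton_self _
        exact LinearMap.mem_ker.1 hm
      · refine ⟨r, hr, fun v hv hle => absurd ?_ hk⟩
        have := Submodule.finrank_mono hle
        rw [finrank_span_singleton hv] at this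
        omega
    obtain ⟨v, hv⟩ := exists_avoid_functionals hK [r, fc, fR, f4] (by simp) (by simp [hr, hfc, hfR, hf4])
    simp only [List.mem_cons, List.not_mem_nil, or_false, forall_eq_or_imp, forall_eq] at hv
    obtain ⟨hvr, hvc, hvR, hv4⟩ := hv
    have hvR' : v ∉ LinearMap.range C := fun h => hvR (hfRW v h)
    have hCv : C v ≠ 0 := fun h => hvc (hfcW v (by
      rw [Submodule.mem_comap, h]; exact zero_mem _))
    refine ⟨v, fun l hl => ?_, hvr, hcv v hvc, fun _ => ⟨hvR', fun h => hv4 (hf4W v hCv h)⟩⟩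
    have e : C v = (l - 1) • v := by
      show A v - v = _
      rw [hl, sub_smul, one_smul]
    by_cases hl1 : l - 1 = 0
    · exact hCv (by rw [e, hl1, zero_smul])
    · exact hvR' ⟨(l - 1)⁻¹ • v, by rw [map_smul, e, smul_smul, inv_mul_cancel₀ hl1, one_smul]⟩
  · obtain ⟨v, h1, h3, h4⟩ := exists_avoid_eigen hK hA hr hfc
    exact ⟨v, h1, h3, hcv v h4, fun e => absurd e h2⟩

/-- The reduced map is not one plus rank at most one. -/
def GoodRank (A : Module.End K V) (v : V) (φ : Dual K V) : Prop :=
  ∀ x : V, ∃ h, φ h = 0 ∧ A h - h ∉ Submodule.span K {A v, x}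

/-- The reduced map is not scalar. -/
def GoodNonscalar (A : Module.End K V) (v : V) (φ : Dual K V) : Prop :=
  ∀ l : K, ∃ h, φ h = 0 ∧ A h - l • h ∉ K ∙ A v

theorem finrank_range_le_map_add_one (C : Module.End K V) {φ : Dual K V} (hφ : φ ≠ 0) :
    finrank K (LinearMap.range C) ≤ finrank K ((LinearMap.ker φ).map C) + 1 := by
  obtain ⟨p, hp⟩ : ∃ p, φ p ≠ 0 := by
    by_contra h
    push Not at h
    exact hφ (LinearMap.ext h)
  have h1 : LinearMap.range C ≤ (LinearMap.ker φ).map C ⊔ K ∙ C p := by
    rintro _ ⟨x, rfl⟩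
    have hx : x = (x - (φ x / φ p) • p) + (φ x / φ p) • p := (sub_add_cancel _ _).symm
    rw [hx, map_add, map_smul]
    refine Submodule.add_mem_sup ⟨_, ?_, rfl⟩ (Submodule.smul_mem _ _ (Submodule.mem_span_singleton_self _))
    simp [hp]
  refine (Submodule.finrank_mono h1).trans ((Submodule.finrank_add_le_finrank_add_finrank _ _).trans ?_)
  exact add_le_add le_rfl ((finrank_span_le_card _).trans (by simp))

omit [FiniteDimensional K V] in
theorem map_eq_range_of_ker (C : Module.End K V) {φ : Dual K V} {k : V} (hk : C k = 0) (hφk : φ k ≠ 0) :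
    (LinearMap.ker φ).map C = LinearMap.range C := by
  refine le_antisymm (LinearMap.map_le_range) ?_
  rintro _ ⟨x, rfl⟩
  exact ⟨x - (φ x / φ k) • k, by simp [hφk], by simp [hk]⟩

theorem finrank_span_pair_le (a b : V) : finrank K (Submodule.span K {a, b}) ≤ 2 := by
  classical
  refine (finrank_span_le_card _).trans ?_
  simp only [Set.toFinset_insert, Set.toFinset_singleton]
  exact Finset.card_le_two

/-- Choosing the functional. -/
theorem exists_goodFunctional (hK : ∀ s : Finset K, s.card ≤ 3 → ∃ x, x ∉ s) {A : Module.End K V}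
    (hinj : Function.Injective A) (hr2 : 2 ≤ finrank K (LinearMap.range (A - 1))) (hn : 3 ≤ finrank K V)
    (h3 : finrank K V = 3 → Function.Injective (A - 1 : Module.End K V) →
      ∀ (v : V) (k : K), (∀ l : K, A v ≠ l • v) → A v ≠ k • (A (A v) - A v - (A v - v)))
    {c : V} {r : Dual K V} {v : V} (hv : GoodVector A c r v) :
    ∃ φ : Dual K V, Slice A v φ ∧ φ c ≠ 0 ∧ (∃ h, φ h = 0 ∧ φ (A h) ≠ 0) ∧ GoodRank A v φ ∧
      (GoodNonscalar A v φ ∨ finrank K V = 3 ∧ (2 : K) = 0) := by
  classical
  obtain ⟨hne, -, hcv, hr2v⟩ := hv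
  set C := A - 1
  have hCv : C v = A v - v := rfl
  have hCv0 : C v ≠ 0 := fun h => hne 1 (by rw [one_smul]; exact sub_eq_zero.1 h)
  have hv0 : v ≠ 0 := fun h => hne 0 (by simp [h])
  obtain ⟨u2, hu2, hu2'⟩ : ∃ u, u ∈ LinearMap.range C ∧ u ∉ (K ∙ (A v - v)) := by
    by_contra h
    push Not at h
    have := Submodule.finrank_mono (show LinearMap.range C ≤ K ∙ (A v - v) from h)
    rw [finrank_span_singleton (show A v - v ≠ 0 from hCv0)] at this
    omega
  have hrowx : ∀ φ : Dual K V, Slice A v φ → (∃ x, φ (C x) ≠ 0) → ∃ h, φ h = 0 ∧ φ (A h) ≠ 0 := by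
    rintro φ ⟨h1, h2⟩ ⟨x, hx⟩
    refine ⟨x - φ x • v, by simp [h1], ?_⟩
    have : φ (C x) = φ (A x) - φ x := by simp [C]
    rw [map_sub, map_smul, map_sub, map_smul, h2, smul_eq_mul, mul_one]
    rwa [← this]
  have hker := LinearMap.finrank_range_add_finrank_ker C
  -- the hyperplanes to avoid
  obtain ⟨us, hlen, hus, hrank, hrow⟩ : ∃ us : List V, us.length ≤ 3 ∧
      (∀ u ∈ us, u ∉ (K ∙ (A v - v))) ∧
      (∀ φ, Slice A v φ → (∀ u ∈ us, φ u ≠ 0) → φ c ≠ 0 ∧ GoodRank A v φ) ∧
      (∀ φ, Slice A v φ → (∀ u ∈ us, φ u ≠ 0) → ∃ h, φ h = 0 ∧ φ (A h) ≠ 0) := by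
    have hφne : ∀ φ, Slice A v φ → φ ≠ 0 := fun φ hφ e => by
      have := hφ.1; rw [e] at this; simp at this
    by_cases hr4 : 4 ≤ finrank K (LinearMap.range C)
    · refine ⟨[c, u2], by simp, by simp [hcv, hu2'], fun φ hφ hu => ⟨hu c (by simp), fun x => ?_⟩, fun φ hφ hu => ?_⟩
      · by_contra h
        push Not at h
        have h1 : (LinearMap.ker φ).map C ≤ Submodule.span K {A v, x} := by
          rintro _ ⟨y, hy, rfl⟩; exact h y hy
        have := finrank_range_le_map_add_one C (hφne φ hφ)
        have h5 := (Submodule.finrank_mono h1).trans (finrank_span_pair_le (A v) x)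
        omega
      · obtain ⟨x, hx⟩ := hu2
        exact hrowx φ hφ ⟨x, by rw [hx]; exact hu u2 (by simp)⟩
    by_cases hr2' : finrank K (LinearMap.range C) = 2
    · obtain ⟨hvR, hk⟩ := hr2v hr2'
      obtain ⟨k, hkC, hk'⟩ := SetLike.not_le_iff_exists.1 hk
      refine ⟨[c, k, u2], by simp, by simp [hcv, hk', hu2'], fun φ hφ hu => ⟨hu c (by simp), fun x => ?_⟩, fun φ hφ hu => ?_⟩
      · by_contra h
        push Not at h
        have h1 : LinearMap.range C ≤ Submodule.span K {A v, x} := by
          rw [← map_eq_range_of_ker C (LinearMap.mem_ker.1 hkC) (hu k (by simp))]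
          rintro _ ⟨y, hy, rfl⟩; exact h y hy
        have he := Submodule.eq_of_le_of_finrank_le h1 (by rw [hr2']; exact finrank_span_pair_le _ _)
        have hw : A v ∈ LinearMap.range C := he ▸ Submodule.subset_span (by simp)
        refine hvR ?_
        rw [show v = A v - C v by rw [hCv]; abel]
        exact sub_mem hw (LinearMap.mem_range_self _ _)
      · obtain ⟨x, hx⟩ := hu2
        exact hrowx φ hφ ⟨x, by rw [hx]; exact hu u2 (by simp)⟩
    have hr3 : finrank K (LinearMap.range C) = 3 := by omega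
    obtain ⟨u3, hu3, hprop⟩ : ∃ us3 : List V, us3.length ≤ 1 ∧ (∀ u ∈ us3, u ∉ (K ∙ (A v - v))) ∧
        ∀ φ, Slice A v φ → (∀ u ∈ us3, φ u ≠ 0) → GoodRank A v φ := by
      by_cases hw : A v ∈ LinearMap.range C
      · obtain ⟨u0, hu0⟩ := hw
        by_cases hu0' : u0 ∈ (K ∙ (A v - v))
        · -- then the kernel leaves the line
          obtain ⟨a, ha⟩ := Submodule.mem_span_singleton.1 hu0'
          obtain ⟨k, hkC, hk'⟩ : ∃ k, C k = 0 ∧ k ∉ (K ∙ (A v - v)) := by
            by_contra h
            push Not at h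
            by_cases hinjC : Function.Injective C
            · have hfr : finrank K V = 3 := by
                rw [← hr3, LinearMap.finrank_range_of_inj hinjC]
              refine h3 hfr hinjC v a hne ?_
              have e : a • C (A v - v) = A v := by rw [← map_smul, ha, hu0]
              exact e.symm.trans (congrArg (a • ·) (show A (A v - v) - (A v - v) = A (A v) - A v - (A v - v) by rw [map_sub]))
            · obtain ⟨k, hk, hk0⟩ := (Submodule.ne_bot_iff _).1 (mt LinearMap.ker_eq_bot.1 hinjC)
              obtain ⟨b, hb⟩ := Submodule.mem_span_singleton.1 (h k (LinearMap.mem_ker.1 hk))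
              have hb0 : b ≠ 0 := fun e => hk0 (by rw [← hb, e, zero_smul])
              have hk' := LinearMap.mem_ker.1 hk
              rw [← hb, map_smul, smul_eq_zero] at hk'
              have hA0 : A v = 0 := by rw [← hu0, ← ha, map_smul, hk'.resolve_left hb0, smul_zero]
              exact hv0 (hinj (by rw [hA0, map_zero]))
          refine ⟨[k], by simp, by simp [hk'], fun φ hφ hu x => ?_⟩
          by_contra h
          push Not at h
          have h1 : LinearMap.range C ≤ Submodule.span K {A v, x} := by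
            rw [← map_eq_range_of_ker C hkC (hu k (by simp))]
            rintro _ ⟨y, hy, rfl⟩; exact h y hy
          have := (Submodule.finrank_mono h1).trans (finrank_span_pair_le (A v) x)
          omega
        · refine ⟨[u0], by simp, by simp [hu0'], fun φ hφ hu x => ?_⟩
          by_contra h
          push Not at h
          have hφu : φ u0 ≠ 0 := hu u0 (by simp)
          have h1 : LinearMap.range C ≤ Submodule.span K {A v, x} := by
            rintro _ ⟨y, rfl⟩
            have e : C y = C (y - (φ y / φ u0) • u0) + (φ y / φ u0) • A v := by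
              rw [map_sub, map_smul, hu0]; abel
            rw [e]
            exact add_mem (h _ (by simp [hφu])) (Submodule.smul_mem _ _ (Submodule.subset_span (by simp)))
          have := (Submodule.finrank_mono h1).trans (finrank_span_pair_le (A v) x)
          omega
      · refine ⟨[], by simp, by simp, fun φ hφ _ x => ?_⟩
        by_contra h
        push Not at h
        have h1 : (LinearMap.ker φ).map C ≤ Submodule.span K {A v, x} := by
          rintro _ ⟨y, hy, rfl⟩; exact h y hy
        have h4 := finrank_range_le_map_add_one C (hφne φ hφ)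
        have he := Submodule.eq_of_le_of_finrank_le h1 (by
          have := finrank_span_pair_le (K := K) (A v) x; omega)
        exact hw (LinearMap.map_le_range (he ▸ Submodule.subset_span (by simp) : A v ∈ (LinearMap.ker φ).map C))
    obtain ⟨hu3, hprop⟩ := And.intro hu3 hprop
    by_cases hn3 : finrank K V = 3
    · refine ⟨c :: u3, by simp; omega, fun u hu => ?_, fun φ hφ hu => ⟨hu c (by simp), hprop.2 φ hφ fun u h => hu u (List.mem_cons_of_mem _ h)⟩, fun φ hφ _ => hrowx φ hφ ?_⟩
      · rcases List.mem_cons.1 hu with rfl | hu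
        · exact hcv
        · exact hprop.1 u hu
      · have hs : Function.Surjective C := LinearMap.range_eq_top.1 (Submodule.eq_top_of_finrank_eq (hr3.trans hn3.symm))
        obtain ⟨x, hx⟩ := hs v
        exact ⟨x, by rw [hx, hφ.1]; exact one_ne_zero⟩
    · refine ⟨c :: u2 :: u3, by simp; omega, fun u hu => ?_, fun φ hφ hu => ⟨hu c (by simp), hprop.2 φ hφ fun u h => hu u (List.mem_cons_of_mem _ (List.mem_cons_of_mem _ h))⟩, fun φ hφ hu => ?_⟩
      · rcases List.mem_cons.1 hu with rfl | hu
        · exact hcv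
        rcases List.mem_cons.1 hu with rfl | hu
        · exact hu2'
        · exact hprop.1 u hu
      · obtain ⟨x, hx⟩ := hu2
        exact hrowx φ hφ ⟨x, by rw [hx]; exact hu u2 (by simp)⟩
  obtain ⟨φ, hφ, hφu⟩ := exists_avoid_on_slice hK (Slice A v) slice_line (exists_slice hne) us hlen
    fun u hu => exists_slice_ne hne (hus u hu)
  by_cases hns : GoodNonscalar A v φ
  · exact ⟨φ, hφ, (hrank φ hφ hφu).1, hrow φ hφ hφu, (hrank φ hφ hφu).2, Or.inl hns⟩
  by_cases h32 : finrank K V = 3 ∧ (2 : K) = 0
  · exact ⟨φ, hφ, (hrank φ hφ hφu).1, hrow φ hφ hφu, (hrank φ hφ hφu).2, Or.inr h32⟩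
  -- a second functional
  obtain ⟨φ', hφ', hφu', hne'⟩ : ∃ φ', Slice A v φ' ∧ (∀ u ∈ us, φ' u ≠ 0) ∧ φ' ≠ φ := by
    have line : ∀ δ : Dual K V, δ v = 0 → δ (A v) = 0 → δ ≠ 0 →
        (∃ t : K, t ≠ 0 ∧ ∀ u ∈ us, φ u + t * δ u ≠ 0) →
        ∃ φ', Slice A v φ' ∧ (∀ u ∈ us, φ' u ≠ 0) ∧ φ' ≠ φ := by
      rintro δ hδv hδA hδ ⟨t, ht, htu⟩
      refine ⟨φ + t • δ, ⟨by simp [hφ.1, hδv], by simp [hφ.2, hδA]⟩, fun u hu => by simpa using htu u hu, fun e => hδ ?_⟩
      exact (smul_eq_zero.1 (add_eq_left.1 e)).resolve_left ht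
    have hspan : Submodule.span K {v, A v} ≠ ⊤ := fun e => by
      have := finrank_span_pair_le (K := K) v (A v)
      rw [e, finrank_top] at this
      omega
    by_cases hn4 : 4 ≤ finrank K V
    · rcases us with _ | ⟨u1, us'⟩
      · obtain ⟨δ, hδ, hδW⟩ := exists_functional_vanishing hspan
        exact line δ (hδW v (Submodule.subset_span (by simp))) (hδW _ (Submodule.subset_span (by simp))) hδ
          ⟨1, one_ne_zero, by simp⟩
      · have hW : Submodule.span K {v, A v} ⊔ K ∙ u1 ≠ ⊤ := fun e => by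
          have h5 := Submodule.finrank_add_le_finrank_add_finrank (Submodule.span K {v, A v}) (K ∙ u1)
          rw [e, finrank_top] at h5
          have h6 := finrank_span_pair_le (K := K) v (A v)
          have h7 : finrank K (K ∙ u1) ≤ 1 := (finrank_span_le_card _).trans (by simp)
          omega
        obtain ⟨δ, hδ, hδW⟩ := exists_functional_vanishing hW
        obtain ⟨t, ht⟩ := hK (insert 0 (us'.map fun u => -(φ u) / δ u).toFinset)
          ((Finset.card_insert_le _ _).trans (by
            have := List.toFinset_card_le (us'.map fun u => -(φ u) / δ u)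
            rw [List.length_map] at this; simp at hlen; omega))
        rw [Finset.mem_insert, not_or] at ht
        refine line δ (hδW v (Submodule.mem_sup_left (Submodule.subset_span (by simp))))
          (hδW _ (Submodule.mem_sup_left (Submodule.subset_span (by simp)))) hδ ⟨t, ht.1, fun u hu h => ?_⟩
        rcases List.mem_cons.1 hu with rfl | hu'
        · rw [hδW u (Submodule.mem_sup_right (Submodule.mem_span_singleton_self _)), mul_zero, add_zero] at h
          exact hφu u List.mem_cons_self h
        · by_cases hd : δ u = 0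
          · rw [hd, mul_zero, add_zero] at h; exact hφu u hu h
          · exact ht.2 (List.mem_toFinset.2 (List.mem_map.2 ⟨u, hu', by rw [div_eq_iff hd]; linear_combination -h⟩))
    · have hn3 : finrank K V = 3 := by omega
      have h2 : (2 : K) ≠ 0 := fun e => h32 ⟨hn3, e⟩
      obtain ⟨δ, hδ, hδW⟩ := exists_functional_vanishing hspan
      obtain ⟨t, ht⟩ : ∃ t, t ∉ insert 0 (us.map fun u => -(φ u) / δ u).toFinset := by
        by_contra h
        push Not at h
        haveI : Fintype K := ⟨insert 0 (us.map fun u => -(φ u) / δ u).toFinset, h⟩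
        have h1 : Fintype.card K ≤ 4 := by
          refine (Finset.card_le_card (s := Finset.univ) (t := insert 0 (us.map fun u => -(φ u) / δ u).toFinset) fun x _ => h x).trans ?_
          refine (Finset.card_insert_le _ _).trans ?_
          have := List.toFinset_card_le (us.map fun u => -(φ u) / δ u)
          rw [List.length_map] at this; omega
        have h4 : 4 ≤ Fintype.card K := by
          by_contra hlt
          obtain ⟨x, hx⟩ := hK Finset.univ (by rw [Finset.card_univ]; omega)
          exact hx (Finset.mem_univ x)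
        have h5 : ((Fintype.card K : ℕ) : K) = 0 := Nat.cast_card_eq_zero K
        rw [show Fintype.card K = 4 by omega] at h5
        exact h2 (mul_self_eq_zero.1 (by linear_combination (norm := norm_num) h5))
      rw [Finset.mem_insert, not_or] at ht
      refine line δ (hδW v (Submodule.subset_span (by simp))) (hδW _ (Submodule.subset_span (by simp))) hδ
        ⟨t, ht.1, fun u hu h => ?_⟩
      by_cases hd : δ u = 0
      · rw [hd, mul_zero, add_zero] at h; exact hφu u hu h
      · exact ht.2 (List.mem_toFinset.2 (List.mem_map.2 ⟨u, hu, by rw [div_eq_iff hd]; linear_combination -h⟩))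
  refine ⟨φ', hφ', (hrank φ' hφ' hφu').1, hrow φ' hφ' hφu', (hrank φ' hφ' hφu').2, Or.inl fun l' => ?_⟩
  by_contra hl'
  push Not at hl'
  have hns' : ∃ l : K, ∀ h, φ h = 0 → A h - l • h ∈ K ∙ A v := by
    by_contra h0
    push Not at h0
    exact hns h0
  obtain ⟨l, hl⟩ := hns'
  -- the two kernels meet
  obtain ⟨h, hh, hh0⟩ : ∃ h, (φ h = 0 ∧ φ' h = 0) ∧ h ≠ 0 := by
    have h1 := LinearMap.finrank_range_add_finrank_ker (φ.prod φ')
    have h4 : finrank K (LinearMap.range (φ.prod φ')) ≤ 2 := by
      refine (Submodule.finrank_le _).trans ?_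
      simp
    obtain ⟨h, hh, hh0⟩ := (Submodule.ne_bot_iff (LinearMap.ker (φ.prod φ'))).1 (fun e => by
      rw [e, finrank_bot] at h1; omega)
    exact ⟨h, Prod.mk.inj (LinearMap.mem_ker.1 hh), hh0⟩
  have hll : l = l' := by
    by_contra hne2
    have hm : (l' - l) • h ∈ K ∙ A v := by
      rw [show (l' - l) • h = (A h - l • h) - (A h - l' • h) by module]
      exact sub_mem (hl h hh.1) (hl' h hh.2)
    obtain ⟨a, ha⟩ := Submodule.mem_span_singleton.1 hm
    have := congrArg φ ha
    rw [map_smul, map_smul, hφ.2, hh.1, smul_eq_mul, smul_eq_mul, mul_one, mul_zero] at this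
    rw [this, zero_smul] at ha
    exact hh0 ((smul_eq_zero.1 ha.symm).resolve_left (sub_ne_zero.2 (Ne.symm hne2)))
  subst hll
  obtain ⟨x, hx⟩ : ∃ x, φ' x - φ x ≠ 0 := by
    by_contra h0
    push Not at h0
    exact hne' (LinearMap.ext fun x => sub_eq_zero.1 (h0 x))
  have hall : A v - l • v ∈ K ∙ A v := by
    set d := φ' x - φ x
    have h1 : φ (x - φ x • v) = 0 := by simp [hφ.1]
    have h1' : φ' (x - φ' x • v) = 0 := by simp [hφ'.1]
    have e : v = d⁻¹ • ((x - φ x • v) - (x - φ' x • v)) := by
      rw [show (x - φ x • v) - (x - φ' x • v) = d • v by module, smul_smul, inv_mul_cancel₀ hx, one_smul]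
    have e2 : A v - l • v = d⁻¹ • ((A (x - φ x • v) - l • (x - φ x • v)) - (A (x - φ' x • v) - l • (x - φ' x • v))) := by
      conv_lhs => rw [e]
      rw [map_smul, map_sub]
      module
    rw [e2]
    exact Submodule.smul_mem _ _ (sub_mem (hl _ h1) (hl' _ h1'))
  obtain ⟨a, ha⟩ := Submodule.mem_span_singleton.1 hall
  have e : l • v = (1 - a) • A v := by rw [sub_smul, one_smul, ha]; abel
  by_cases ha1 : 1 - a = 0
  · rw [ha1, zero_smul, smul_eq_zero] at e
    have hl0 : l = 0 := e.resolve_right hv0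
    subst hl0
    obtain ⟨b, hb⟩ := Submodule.mem_span_singleton.1 (hl h hh.1)
    rw [zero_smul, sub_zero, ← map_smul] at hb
    have h9 := congrArg φ (hinj hb)
    rw [map_smul, hφ.1, hh.1, smul_eq_mul, mul_one] at h9
    rw [h9, zero_smul] at hb
    exact hh0 (hinj (by rw [← hb]))
  · exact hne ((1 - a)⁻¹ * l) (by rw [← smul_smul, e, smul_smul, inv_mul_cancel₀ ha1, one_smul])

end Cfsg.Agent.ClassConj
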