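import Cfsg.Agent.ClassConj.RegularProduct
import Cfsg.Agent.Forms.TransvectionCount

/-!
Every non-scalar matrix of determinant one is a product of two regular unipotent conjugates.
-/

set_option autoImplicit false

namespace Cfsg.Agent.ClassConj

open Matrix

variable {K : Type*} [Field K]

theorem diag_mul_of_upper {n : ℕ} {A B : Matrix (Fin n) (Fin n) K} (hA : A.BlockTriangular id)
    (hB : B.BlockTriangular id) (i : Fin n) : (A * B) i i = A i i * B i i := by
  rw [Matrix.mul_apply, Finset.sum_eq_single i (fun j _ hj => ?_) fun h => absurd (Finset.mem_univ i) h]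
  rcases lt_or_gt_of_ne hj with h | h
  · rw [hA (show id j < id i from h), zero_mul]
  · rw [hB (show id i < id j from h), mul_zero]

/-- A non-scalar matrix of determinant one is a product of two conjugates of the regular unipotent `J`. -/
theorem exists_regular_product (hK : ∀ s : Finset K, s.card ≤ 3 → ∃ x, x ∉ s) {k : ℕ}
    (J g : GL (Fin (k + 3)) K)
    (hJ : ∀ i j : Fin (k + 3), (J : Matrix (Fin (k + 3)) (Fin (k + 3)) K) i j =
      if i = j then 1 else if j.val = i.val + 1 then 1 else 0)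
    (hg : ∀ c : K, (g : Matrix (Fin (k + 3)) (Fin (k + 3)) K) ≠ c • 1)
    (hdet : (g : Matrix (Fin (k + 3)) (Fin (k + 3)) K).det = 1) :
    ∃ x y : GL (Fin (k + 3)) K, g = (x * J * x⁻¹) * (y * J * y⁻¹) := by
  classical
  set G := (g : Matrix (Fin (k + 3)) (Fin (k + 3)) K)
  set Jm := (J : Matrix (Fin (k + 3)) (Fin (k + 3)) K)
  have hJg : GoodLower Jmᵀ := by
    refine ⟨fun i => by simp [hJ], fun i j h => ?_, fun i j h => ?_⟩
    · rw [transpose_apply, hJ, if_neg (fun e => by rw [e] at h; omega), if_neg (by omega)]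
    · rw [transpose_apply, hJ, if_neg (fun e => by rw [e] at h; omega), if_pos h]
      exact one_ne_zero
  have hJr : (Jm - 1) ^ (k + 3) = 0 ∧ (Jm - 1).rank = k + 2 := by
    obtain ⟨h1, h2⟩ := goodLower_regular hJg
    have e : (Jm - 1)ᵀ = Jmᵀ - 1 := by rw [transpose_sub, transpose_one]
    rw [← e] at h1 h2
    rw [← transpose_pow] at h1
    exact ⟨by simpa using congrArg Matrix.transpose h1, by rwa [Matrix.rank_transpose] at h2⟩
  have hconj : ∀ X : GL (Fin (k + 3)) K, ((X : Matrix (Fin (k + 3)) (Fin (k + 3)) K) - 1) ^ (k + 3) = 0 →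
      ((X : Matrix (Fin (k + 3)) (Fin (k + 3)) K) - 1).rank = k + 2 → ∃ x, X = x * J * x⁻¹ := by
    intro X h1 h2
    obtain ⟨P, hP⟩ := ClassicalElem.isConj_of_regular (n := k + 3) (Fintype.card_fin _) (by omega) hJr.1 hJr.2 h1 h2
    refine ⟨P, eq_mul_inv_iff_mul_eq.2 (Units.ext ?_)⟩
    rw [mul_sub, sub_mul, mul_one, one_mul] at hP
    exact (sub_left_injective hP).symm
  have hne : 1 ≤ (G - 1).rank := by
    rw [Nat.one_le_iff_ne_zero]
    intro h0
    refine hg 1 ?_
    rw [one_smul, ← sub_eq_zero]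
    rw [Matrix.rank, Submodule.finrank_eq_zero, LinearMap.range_eq_bot] at h0
    ext a b
    simpa [Matrix.mulVecLin, Matrix.one_apply, Pi.single_apply] using congrFun (LinearMap.congr_fun h0 (Pi.single b 1)) a
  rcases Nat.lt_or_ge (G - 1).rank 2 with hr | hr
  · -- transvections
    have ht : Cfsg.IsTransvection G := by
      have h1 : (G - 1).rank = 1 := by omega
      refine ⟨h1, ?_⟩
      obtain ⟨u, w, -, -, hN⟩ := Trans25.exists_rank_one _ h1
      have hd : w ⬝ᵥ u = 0 := by
        have : (1 + vecMulVec u w).det = 1 := by rw [← hN, add_sub_cancel]; exact hdet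
        rwa [Matrix.vecMulVec_eq Unit, Matrix.det_one_add_replicateCol_mul_replicateRow, add_eq_left] at this
      rw [hN, vecMulVec_mul_vecMulVec, hd]
      simp
    let E : Matrix (Fin (k + 3)) (Fin (k + 3)) K := Matrix.single 0 (Fin.last (k + 2)) 1
    have hlast : (0 : Fin (k + 3)) ≠ Fin.last (k + 2) := fun h => by have := congrArg Fin.val h; simp at this
    have hEE : E * E = 0 := by simp [E, hlast.symm]
    let t0 : GL (Fin (k + 3)) K := ⟨1 + E, 1 - E, by rw [mul_sub, mul_one, add_mul, one_mul, hEE]; abel,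
      by rw [mul_add, mul_one, sub_mul, one_mul, hEE]; abel⟩
    have ht0 : Cfsg.IsTransvection (t0 : Matrix (Fin (k + 3)) (Fin (k + 3)) K) := by
      show (1 + E - 1).rank = 1 ∧ (1 + E - 1) * (1 + E - 1) = 0
      rw [add_sub_cancel_left]
      refine ⟨?_, hEE⟩
      rw [show E = vecMulVec (Pi.single 0 1) (Pi.single (Fin.last (k + 2)) 1) from
        Matrix.single_eq_single_vecMulVec_single _ _]
      refine le_antisymm (Matrix.rank_vecMulVec_le _ _) (Nat.one_le_iff_ne_zero.2 fun h => ?_)
      rw [Matrix.rank, Submodule.finrank_eq_zero, LinearMap.range_eq_bot] at h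
      have := congrFun (LinearMap.congr_fun h (Pi.single (Fin.last (k + 2)) 1)) 0
      simp [Matrix.mulVecLin, vecMulVec_apply] at this
    obtain ⟨a, ha⟩ := Forms.exists_GL_conj_normal_form g ht
    obtain ⟨b, hb⟩ := Forms.exists_GL_conj_normal_form t0 ht0
    have hab : g = (a * b⁻¹) * t0 * (a * b⁻¹)⁻¹ := by
      have e : a⁻¹ * g * a = b⁻¹ * t0 * b := Units.ext (ha.trans hb.symm)
      calc g = a * (a⁻¹ * g * a) * a⁻¹ := by group
        _ = _ := by rw [e]; group
    let X : GL (Fin (k + 3)) K := J⁻¹ * t0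
    have hJu : Jm.BlockTriangular id := fun i j h => by
      have h' : (j : ℕ) < i := h
      rw [hJ, if_neg (fun e => by rw [e] at h'; omega), if_neg (by omega)]
    letI : Invertible Jm := J.invertible
    have hJi : ((J⁻¹ : GL (Fin (k + 3)) K) : Matrix (Fin (k + 3)) (Fin (k + 3)) K) = Jm⁻¹ :=
      Matrix.coe_units_inv J
    have hJiu : Jm⁻¹.BlockTriangular id := Matrix.blockTriangular_inv_of_blockTriangular hJu
    have hEu : (1 + E).BlockTriangular id := fun i j h => by
      have h' : (j : ℕ) < i := h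
      have h1 : i ≠ j := fun e => by rw [e] at h'; omega
      have h2 : ¬ ((0 : Fin (k + 3)) = i ∧ Fin.last (k + 2) = j) := fun e => by
        rw [← e.1] at h'; simp at h'
      simp [E, Matrix.one_apply_ne h1, Matrix.single, h2]
    have hXv : (X : Matrix (Fin (k + 3)) (Fin (k + 3)) K) = Jm⁻¹ * (1 + E) := by
      show ((J⁻¹ : GL (Fin (k + 3)) K) : Matrix (Fin (k + 3)) (Fin (k + 3)) K) * (1 + E) = _
      rw [hJi]
    have hJJ : Jm * Jm⁻¹ = 1 := by rw [← hJi]; exact J.mul_inv
    have hdiag : ∀ i, (Jm⁻¹ * (1 + E)) i i = 1 := fun i => by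
      have h1 := diag_mul_of_upper hJu hJiu i
      rw [hJJ, Matrix.one_apply_eq, hJ, if_pos rfl, one_mul] at h1
      rw [diag_mul_of_upper hJiu hEu, ← h1, one_mul]
      have h2 : ¬ ((0 : Fin (k + 3)) = i ∧ Fin.last (k + 2) = i) := fun e => hlast (e.1.trans e.2.symm)
      simp [E, Matrix.single, h2]
    have hnil : ((X : Matrix (Fin (k + 3)) (Fin (k + 3)) K) - 1) ^ (k + 3) = 0 := by
      ext i j
      by_contra h
      have := strictUpper_pow _ (fun i j hij => by
        by_contra hle
        rcases lt_or_eq_of_le (not_lt.1 hle) with h1 | h1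
        · refine hij ?_
          rw [hXv, Matrix.sub_apply, (hJiu.mul hEu) (show id j < id i from h1),
            Matrix.one_apply_ne (fun e => by rw [e] at h1; omega), sub_zero]
        · obtain rfl : j = i := Fin.ext h1
          exact hij (by rw [hXv, Matrix.sub_apply, hdiag, Matrix.one_apply_eq, sub_self])) (k + 3) i j h
      have := j.2; omega
    have hXr : ((X : Matrix (Fin (k + 3)) (Fin (k + 3)) K) - 1).rank = k + 2 := by
      have e : Jm⁻¹ * (1 + E) - 1 = Jm⁻¹ * (-(Jm - E - 1)) := by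
        rw [mul_neg, mul_sub, mul_sub, mul_eq_one_comm.1 hJJ, mul_one]
        noncomm_ring
      rw [hXv, e, Matrix.rank_mul_eq_right_of_isUnit_det _ _ ((Matrix.isUnit_iff_isUnit_det _).1 (hJi ▸ (J⁻¹).isUnit))]
      have hgl : GoodLower (Jm - E)ᵀ := by
        refine ⟨fun i => ?_, fun i j h => ?_, fun i j h => ?_⟩
        · have h2 : ¬ ((0 : Fin (k + 3)) = i ∧ Fin.last (k + 2) = i) := fun e => hlast (e.1.trans e.2.symm)
          simp [E, Matrix.single, h2, hJ]
        · have h2 : ¬ ((0 : Fin (k + 3)) = j ∧ Fin.last (k + 2) = i) := fun e => by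
            rw [← e.1] at h; simp at h
          simp only [transpose_apply, Matrix.sub_apply, E, Matrix.single, Matrix.of_apply, if_neg h2, sub_zero]
          exact hJg.2.1 i j h
        · have h2 : ¬ ((0 : Fin (k + 3)) = j ∧ Fin.last (k + 2) = i) := fun e => by
            rw [← e.1, ← e.2] at h; simp at h
          simp only [transpose_apply, Matrix.sub_apply, E, Matrix.single, Matrix.of_apply, if_neg h2, sub_zero]
          exact hJg.2.2 i j h
      obtain ⟨-, h2⟩ := goodLower_regular hgl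
      rw [← Matrix.rank_transpose]
      have e2 : (-(Jm - E - 1))ᵀ = -((Jm - E)ᵀ - 1) := by rw [transpose_neg, transpose_sub, transpose_one]
      rw [e2, show -((Jm - E)ᵀ - 1) = (-1 : Matrix (Fin (k + 3)) (Fin (k + 3)) K) * ((Jm - E)ᵀ - 1) from
        (neg_one_mul _).symm, Matrix.rank_mul_eq_right_of_isUnit_det]
      · exact h2
      · rw [Matrix.det_neg, Matrix.det_one, mul_one]; exact isUnit_one.neg.pow _
    obtain ⟨x, hx⟩ := hconj X hnil hXr
    refine ⟨a * b⁻¹, (a * b⁻¹) * x, ?_⟩
    rw [hab]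
    have hJX : t0 = J * (x * J * x⁻¹) := by rw [← hx]; simp [X]
    rw [hJX]
    group
  · have hg' : ∀ c : K, G ≠ c • 1 := hg
    obtain ⟨P, Q, L, U, hPQ, hLU, hL, hU, -, -⟩ := exists_good_factorisation hK (k + 1) G hdet hg' hr
      (Pi.single 0 1) (Pi.single 0 1) (by simp) (by simp)
    have hQP : Q * P = 1 := mul_eq_one_comm.1 hPQ
    obtain ⟨hL1, hL2⟩ := goodLower_regular hL
    obtain ⟨hU1, hU2⟩ := goodLower_regular hU
    have e : (U - 1)ᵀ = Uᵀ - 1 := by rw [transpose_sub, transpose_one]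
    rw [← e] at hU1 hU2
    rw [← transpose_pow] at hU1
    rw [Matrix.rank_transpose] at hU2
    have hU1' : (U - 1) ^ (k + 3) = 0 := by simpa using congrArg Matrix.transpose hU1
    obtain ⟨Lu, hLu⟩ : IsUnit L := by
      have := (show IsNilpotent (L - 1) from ⟨_, hL1⟩).isUnit_one_add
      rwa [add_sub_cancel] at this
    obtain ⟨Uu, hUu⟩ : IsUnit U := by
      have := (show IsNilpotent (U - 1) from ⟨_, hU1'⟩).isUnit_one_add
      rwa [add_sub_cancel] at this
    obtain ⟨x, hx⟩ := hconj Lu (by rw [hLu]; exact hL1) (by rw [hLu]; exact hL2)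
    obtain ⟨y, hy⟩ := hconj Uu (by rw [hUu]; exact hU1') (by rw [hUu]; exact hU2)
    let Pu : GL (Fin (k + 3)) K := ⟨P, Q, hPQ, hQP⟩
    refine ⟨Pu⁻¹ * x, Pu⁻¹ * y, ?_⟩
    have hgu : Pu * g * Pu⁻¹ = Lu * Uu := Units.ext (by
      rw [Units.val_mul, Units.val_mul, Units.val_mul, hLu, hUu]; exact hLU)
    calc g = Pu⁻¹ * (Pu * g * Pu⁻¹) * Pu := by group
      _ = _ := by rw [hgu, hx, hy]; group

end Cfsg.Agent.ClassConj
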