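import Cfsg.Agent.ClassConj.Norm
import Cfsg.Agent.ClassicalElem.RegularNilpotent

/-!
Regular unipotent elements of symplectic groups in odd characteristic: the centraliser and
the two classes.
-/

set_option autoImplicit false

namespace Cfsg.Agent.ClassConj

open Matrix

variable {F : Type*} [Field F] {m : ℕ}

/-- The adjoint with respect to the symplectic form. -/
def sadj (M : (Matrix (Fin m ⊕ Fin m) (Fin m ⊕ Fin m) F)) : (Matrix (Fin m ⊕ Fin m) (Fin m ⊕ Fin m) F) := -(Matrix.J (Fin m) F * Mᵀ * Matrix.J (Fin m) F)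

theorem sadj_mul (M N : (Matrix (Fin m ⊕ Fin m) (Fin m ⊕ Fin m) F)) : sadj (M * N) = sadj N * sadj M := by
  have hJ : ∀ X : (Matrix (Fin m ⊕ Fin m) (Fin m ⊕ Fin m) F), Matrix.J (Fin m) F * (Matrix.J (Fin m) F * X) = -X := fun X => by
    rw [← mul_assoc, J_squared, neg_one_mul]
  simp only [sadj, transpose_mul, neg_mul, mul_neg, neg_neg, mul_assoc, hJ]

theorem sadj_add (M N : (Matrix (Fin m ⊕ Fin m) (Fin m ⊕ Fin m) F)) : sadj (M + N) = sadj M + sadj N := by
  simp only [sadj, transpose_add, mul_add, add_mul, neg_add]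

theorem sadj_smul (c : F) (M : (Matrix (Fin m ⊕ Fin m) (Fin m ⊕ Fin m) F)) : sadj (c • M) = c • sadj M := by
  simp [sadj, Matrix.mul_smul, Matrix.smul_mul]

theorem sadj_one : sadj (1 : (Matrix (Fin m ⊕ Fin m) (Fin m ⊕ Fin m) F)) = 1 := by
  simp [sadj, J_squared]

theorem sadj_sadj (M : (Matrix (Fin m ⊕ Fin m) (Fin m ⊕ Fin m) F)) : sadj (sadj M) = M := by
  simp only [sadj, transpose_neg, transpose_mul, J_transpose, transpose_transpose, neg_mul, mul_neg, neg_neg]
  simp only [← mul_assoc, J_squared, neg_mul, one_mul]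
  rw [mul_assoc, J_squared, mul_neg, mul_one, neg_neg]

theorem mem_symplecticGroup_iff_sadj {A : (Matrix (Fin m ⊕ Fin m) (Fin m ⊕ Fin m) F)} :
    A ∈ Matrix.symplecticGroup (Fin m) F ↔ sadj A * A = 1 := by
  rw [SymplecticGroup.mem_iff', sadj]
  constructor
  · intro h
    rw [neg_mul, mul_assoc, mul_assoc, ← mul_assoc Aᵀ, h, J_squared, neg_neg]
  · intro h
    have h' := congrArg (fun X => Matrix.J (Fin m) F * X) h
    simp only [mul_neg, neg_mul, mul_one] at h'
    rwa [← mul_assoc, ← mul_assoc, ← mul_assoc, J_squared, neg_one_mul, neg_mul, neg_mul, neg_neg] at h'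

section Reg

variable (u : (Matrix (Fin m ⊕ Fin m) (Fin m ⊕ Fin m) F))

/-- `u - u⁻¹`, skew for the adjoint. -/
def skewPart : (Matrix (Fin m ⊕ Fin m) (Fin m ⊕ Fin m) F) := u - sadj u

/-- The algebra generated by `u - u⁻¹`. -/
abbrev skewAlg : Subalgebra F (Matrix (Fin m ⊕ Fin m) (Fin m ⊕ Fin m) F) := Algebra.adjoin F {skewPart u}

noncomputable instance : CommRing (skewAlg u) :=
  Algebra.adjoinCommRingOfComm F (fun _ ha _ hb => by
    rw [Set.mem_singleton_iff] at ha hb; rw [ha, hb])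

theorem sadj_skewPart : sadj (skewPart u) = -skewPart u := by
  have h : sadj (u - sadj u) + sadj (sadj u) = sadj u := by rw [← sadj_add, sub_add_cancel]
  rw [sadj_sadj] at h
  rw [skewPart, eq_sub_of_add_eq h, neg_sub]

theorem skewPow_mem (i : ℕ) : skewPart u ^ i ∈ skewAlg u :=
  pow_mem (Algebra.subset_adjoin (Set.mem_singleton (skewPart u))) i

/-- A combination of powers of `u - u⁻¹`. -/
def skewComb (c : Fin (2 * m) → F) : (Matrix (Fin m ⊕ Fin m) (Fin m ⊕ Fin m) F) := ∑ i, c i • skewPart u ^ (i : ℕ)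

theorem skewComb_mem (c : Fin (2 * m) → F) : skewComb u c ∈ skewAlg u :=
  sum_mem fun i _ => Subalgebra.smul_mem _ (skewPow_mem u i) _

theorem sadj_skewPart_pow (i : ℕ) : sadj (skewPart u ^ i) = (-1 : F) ^ i • skewPart u ^ i := by
  induction i with
  | zero => simp [sadj_one]
  | succ i ih =>
    rw [pow_succ, sadj_mul, ih, sadj_skewPart, neg_mul, mul_smul_comm, ← pow_succ, ← pow_succ',
      pow_succ (-1 : F), mul_neg_one, neg_smul]

theorem sadj_skewComb (c : Fin (2 * m) → F) :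
    sadj (skewComb u c) = skewComb u fun i => (-1 : F) ^ (i : ℕ) * c i := by
  unfold skewComb
  rw [show sadj (∑ i, c i • skewPart u ^ (i : ℕ)) = ∑ i, sadj (c i • skewPart u ^ (i : ℕ)) by
    simp only [sadj, transpose_sum, Finset.mul_sum, Finset.sum_mul, ← Finset.sum_neg_distrib]]
  exact Finset.sum_congr rfl fun i _ => by rw [sadj_smul, sadj_skewPart_pow, smul_smul, mul_comm]

/-- The hypotheses: a regular unipotent symplectic matrix, odd characteristic. -/
structure IsSympRegular : Prop where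
  two : (2 : F) ≠ 0
  pos : 1 ≤ m
  symp : sadj u * u = 1
  nil : (u - 1) ^ (2 * m) = 0
  rank : (u - 1).rank = 2 * m - 1

variable {u}

namespace IsSympRegular

theorem skew_facts (h : IsSympRegular u) : ∃ w : (Matrix (Fin m ⊕ Fin m) (Fin m ⊕ Fin m) F)ˣ, Commute (w : (Matrix (Fin m ⊕ Fin m) (Fin m ⊕ Fin m) F)) (u - 1) ∧
    skewPart u = (w : (Matrix (Fin m ⊕ Fin m) (Fin m ⊕ Fin m) F)) * (u - 1) := by
  have hnil : IsNilpotent (u - 1) := ⟨_, h.nil⟩
  have h2 : IsUnit ((2 : F) • (1 : (Matrix (Fin m ⊕ Fin m) (Fin m ⊕ Fin m) F)) + (u - 1)) := by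
    have : (2 : F) • (1 : (Matrix (Fin m ⊕ Fin m) (Fin m ⊕ Fin m) F)) + (u - 1) = (2 : F) • (1 + (2 : F)⁻¹ • (u - 1)) := by
      rw [smul_add, smul_smul, mul_inv_cancel₀ h.two, one_smul]
    rw [this]
    exact ((hnil.smul ((2 : F)⁻¹)).isUnit_one_add).smul (Units.mk0 (2 : F) h.two)
  let su : (Matrix (Fin m ⊕ Fin m) (Fin m ⊕ Fin m) F)ˣ := ⟨sadj u, u, h.symp, mul_eq_one_comm.1 h.symp⟩
  obtain ⟨w2, hw2⟩ := h2
  have hc : Commute (sadj u) (u - 1) := by
    apply Commute.sub_right
    · show sadj u * u = u * sadj u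
      rw [h.symp, mul_eq_one_comm.1 h.symp]
    · exact Commute.one_right _
  refine ⟨su * w2, ?_, ?_⟩
  · rw [Units.val_mul, hw2]
    exact hc.mul_left ((((Commute.one_left (u - 1)).smul_left _)).add_left (Commute.refl _))
  · show skewPart u = sadj u * (w2 : (Matrix (Fin m ⊕ Fin m) (Fin m ⊕ Fin m) F)) * (u - 1)
    rw [hw2, mul_assoc, skewPart]
    have : ((2 : F) • (1 : (Matrix (Fin m ⊕ Fin m) (Fin m ⊕ Fin m) F)) + (u - 1)) * (u - 1) = u * u - 1 := by
      rw [two_smul]; noncomm_ring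
    rw [this, mul_sub, ← mul_assoc, h.symp, one_mul, mul_one]

theorem regular_skew (h : IsSympRegular u) :
    ClassicalElem.IsRegularNilpotent (Matrix.toLin' (skewPart u)) (2 * m) := by
  obtain ⟨w, hw, he⟩ := h.skew_facts
  refine ClassicalElem.isRegularNilpotent_of_matrix _ _ (by simp; omega) (by have := h.pos; omega) ?_ ?_
  · rw [he, hw.mul_pow, h.nil, mul_zero]
  · rw [he, Matrix.rank_mul_eq_right_of_isUnit_det _ _ ((Matrix.isUnit_iff_isUnit_det _).1 w.isUnit)]
    exact h.rank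

theorem skewPart_pow (h : IsSympRegular u) : skewPart u ^ (2 * m) = 0 :=
  Matrix.toLin'.injective (by rw [Matrix.toLin'_pow, h.regular_skew.pow_eq_zero, map_zero])

theorem skewPart_commute (_h : IsSympRegular u) : Commute (skewPart u) u := by
  apply Commute.sub_left (Commute.refl u)
  show sadj u * u = u * sadj u
  rw [_h.symp, mul_eq_one_comm.1 _h.symp]

/-- What commutes with the skew part is a combination of its powers. -/
theorem exists_skewComb (h : IsSympRegular u) {X : (Matrix (Fin m ⊕ Fin m) (Fin m ⊕ Fin m) F)} (hX : Commute X (skewPart u)) :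
    ∃ c, skewComb u c = X := by
  have hr := h.regular_skew
  obtain ⟨v, hv⟩ := hr.exists_cyclic_vector
  obtain ⟨b, hb⟩ := hr.exists_basis hv
  refine ⟨b.equivFun (Matrix.toLin' X v), Matrix.toLinAlgEquiv'.injective ?_⟩
  have hT : Matrix.toLinAlgEquiv' (skewPart u) = Matrix.toLin' (skewPart u) := rfl
  refine hr.centralizer_ext hv ?_ ?_ ?_
  · rw [← hT]
    refine Commute.map ?_ Matrix.toLinAlgEquiv'
    exact Commute.sum_left _ _ _ fun i _ => ((Commute.refl _).pow_left _).smul_left _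
  · rw [← hT]; exact hX.map Matrix.toLinAlgEquiv'
  · rw [skewComb, map_sum, LinearMap.sum_apply]
    refine Eq.trans (Finset.sum_congr rfl fun i _ => ?_) (b.sum_equivFun (Matrix.toLin' X v))
    rw [map_smul, map_pow, LinearMap.smul_apply, hb]
    rfl

theorem skewComb_injective (h : IsSympRegular u) : Function.Injective (skewComb u) := by
  have hr := h.regular_skew
  obtain ⟨v, hv⟩ := hr.exists_cyclic_vector
  obtain ⟨b, hb⟩ := hr.exists_basis hv
  have key : ∀ c, Matrix.toLinAlgEquiv' (skewComb u c) v = ∑ i, c i • b i := fun c => by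
    rw [skewComb, map_sum, LinearMap.sum_apply]
    refine Finset.sum_congr rfl fun i _ => ?_
    rw [map_smul, map_pow, LinearMap.smul_apply, hb]
    rfl
  intro c c' e
  apply b.equivFun.symm.injective
  rw [b.equivFun_symm_apply, b.equivFun_symm_apply, ← key, ← key, e]

theorem mem_skewAlg (h : IsSympRegular u) {X : (Matrix (Fin m ⊕ Fin m) (Fin m ⊕ Fin m) F)} (hX : Commute X u) : X ∈ skewAlg u := by
  have hs : Commute X (sadj u) := by
    show X * sadj u = sadj u * X
    calc X * sadj u = sadj u * u * X * sadj u := by rw [h.symp, one_mul]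
      _ = sadj u * X * (u * sadj u) := by rw [mul_assoc (sadj u), ← hX.eq]; simp only [mul_assoc]
      _ = sadj u * X := by rw [mul_eq_one_comm.1 h.symp, mul_one]
  obtain ⟨c, rfl⟩ := h.exists_skewComb (hX.sub_right hs)
  exact skewComb_mem u c

theorem commute_of_mem (h : IsSympRegular u) {X : (Matrix (Fin m ⊕ Fin m) (Fin m ⊕ Fin m) F)} (hX : X ∈ skewAlg u) : Commute X u := by
  induction hX using Algebra.adjoin_induction with
  | mem x hx => rw [Set.mem_singleton_iff] at hx; subst hx; exact h.skewPart_commute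
  | algebraMap r => exact Algebra.commutes r u
  | add x y _ _ hx hy => exact hx.add_left hy
  | mul x y _ _ hx hy => exact hx.mul_left hy

theorem sadj_mem (_h : IsSympRegular u) {X : (Matrix (Fin m ⊕ Fin m) (Fin m ⊕ Fin m) F)} (hX : X ∈ skewAlg u) : sadj X ∈ skewAlg u := by
  induction hX using Algebra.adjoin_induction with
  | mem x hx =>
    rw [Set.mem_singleton_iff] at hx
    rw [hx, sadj_skewPart]
    exact neg_mem (Algebra.subset_adjoin (Set.mem_singleton _))
  | algebraMap r => rw [Algebra.algebraMap_eq_smul_one, sadj_smul, sadj_one]; exact Subalgebra.smul_mem _ (one_mem _) _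
  | add x y _ _ hx hy => rw [sadj_add]; exact add_mem hx hy
  | mul x y _ _ hx hy => rw [sadj_mul]; exact mul_mem hy hx

/-- The adjoint on the algebra. -/
def star' (h : IsSympRegular u) : skewAlg u →+* skewAlg u where
  toFun a := ⟨sadj a, h.sadj_mem a.2⟩
  map_one' := Subtype.ext sadj_one
  map_zero' := Subtype.ext (by
    show sadj (0 : (Matrix (Fin m ⊕ Fin m) (Fin m ⊕ Fin m) F)) = 0
    simp [sadj])
  map_add' a b := Subtype.ext (sadj_add _ _)
  map_mul' a b := by
    rw [mul_comm a b]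
    exact Subtype.ext (sadj_mul _ _)

theorem star'_coe (h : IsSympRegular u) (a : skewAlg u) : (h.star' a : (Matrix (Fin m ⊕ Fin m) (Fin m ⊕ Fin m) F)) = sadj (a : (Matrix (Fin m ⊕ Fin m) (Fin m ⊕ Fin m) F)) := rfl

theorem star'_star' (h : IsSympRegular u) (a : skewAlg u) : h.star' (h.star' a) = a :=
  Subtype.ext (sadj_sadj _)

/-- Scalar plus nilpotent. -/
theorem exists_scalar_add (h : IsSympRegular u) (a : skewAlg u) :
    ∃ (r : F) (n : skewAlg u), IsNilpotent n ∧ a = algebraMap F _ r + n := by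
  haveI : NeZero (2 * m) := ⟨by have := h.pos; omega⟩
  obtain ⟨c, hc⟩ := h.exists_skewComb (X := (a : (Matrix (Fin m ⊕ Fin m) (Fin m ⊕ Fin m) F))) (by
    have h1 : Commute (a : (Matrix (Fin m ⊕ Fin m) (Fin m ⊕ Fin m) F)) u := h.commute_of_mem a.2
    refine h1.sub_right ?_
    have h2 := h.commute_of_mem (h.sadj_mem a.2)
    show (a : (Matrix (Fin m ⊕ Fin m) (Fin m ⊕ Fin m) F)) * sadj u = sadj u * (a : (Matrix (Fin m ⊕ Fin m) (Fin m ⊕ Fin m) F))
    have e := congrArg sadj h2.eq
    rw [sadj_mul, sadj_mul, sadj_sadj] at e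
    exact e.symm)
  let n0 : skewAlg u := ⟨skewPart u, Algebra.subset_adjoin (Set.mem_singleton _)⟩
  refine ⟨c 0, ∑ i ∈ Finset.univ.erase 0, c i • n0 ^ (i : ℕ), ?_, Subtype.ext ?_⟩
  · refine isNilpotent_sum fun i hi => ?_
    have hn : IsNilpotent n0 := ⟨2 * m, Subtype.ext (by rw [SubmonoidClass.coe_pow]; exact h.skewPart_pow)⟩
    exact (hn.pow_of_pos (fun e => (Finset.mem_erase.1 hi).1 (Fin.ext (e.trans (Fin.val_zero _).symm)))).smul (c i)
  · rw [← hc, skewComb, ← Finset.add_sum_erase _ _ (Finset.mem_univ 0), Fin.val_zero, pow_zero,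
      Subalgebra.coe_add, Subalgebra.coe_algebraMap, Algebra.algebraMap_eq_smul_one,
      AddSubmonoidClass.coe_finsetSum]
    rfl

theorem scalar_unique (_h : IsSympRegular u) {r : F} (hn : IsNilpotent (algebraMap F (skewAlg u) r)) :
    r = 0 := by
  haveI : Nonempty (Fin m ⊕ Fin m) := ⟨Sum.inl ⟨0, _h.pos⟩⟩
  obtain ⟨k, hk⟩ := hn
  have : algebraMap F (Matrix (Fin m ⊕ Fin m) (Fin m ⊕ Fin m) F) (r ^ k) = 0 := by
    rw [map_pow]; exact congrArg Subtype.val hk
  exact IsReduced.eq_zero r ⟨k, (algebraMap F (Matrix (Fin m ⊕ Fin m) (Fin m ⊕ Fin m) F)).injective (this.trans (map_zero _).symm)⟩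

theorem isUnit_two (h : IsSympRegular u) : IsUnit (algebraMap F (skewAlg u) 2) :=
  (Ne.isUnit h.two).map _

theorem inv_two (h : IsSympRegular u) :
    algebraMap F (skewAlg u) 2⁻¹ + h.star' (algebraMap F (skewAlg u) 2⁻¹) = 1 := by
  have hfix : h.star' (algebraMap F (skewAlg u) 2⁻¹) = algebraMap F (skewAlg u) 2⁻¹ := Subtype.ext (by
    rw [star'_coe, show ((algebraMap F (skewAlg u) 2⁻¹ : skewAlg u) : (Matrix (Fin m ⊕ Fin m) (Fin m ⊕ Fin m) F)) = (2⁻¹ : F) • 1 from
      Algebra.algebraMap_eq_smul_one _, sadj_smul, sadj_one])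
  rw [hfix, ← map_add, ← two_mul, mul_inv_cancel₀ h.two, map_one]

theorem star'_algebraMap (h : IsSympRegular u) (r : F) :
    h.star' (algebraMap F (skewAlg u) r) = algebraMap F (skewAlg u) r := Subtype.ext (by
  rw [star'_coe, show ((algebraMap F (skewAlg u) r : skewAlg u) : (Matrix (Fin m ⊕ Fin m) (Fin m ⊕ Fin m) F)) = r • 1 from
    Algebra.algebraMap_eq_smul_one _, sadj_smul, sadj_one])

/-- A fixed element is a scalar times a norm. -/
theorem exists_smul_norm (h : IsSympRegular u) {a : skewAlg u} (ha : h.star' a = a) (hu : IsUnit a) :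
    ∃ (r : F) (z : skewAlg u), r ≠ 0 ∧ IsUnit z ∧ a = algebraMap F _ r * (z * h.star' z) := by
  obtain ⟨r, n, hn, rfl⟩ := h.exists_scalar_add a
  have hr : r ≠ 0 := fun hr => by
    subst hr
    haveI : Nonempty (Fin m ⊕ Fin m) := ⟨Sum.inl ⟨0, h.pos⟩⟩
    rw [map_zero, zero_add] at hu
    haveI : Nontrivial (skewAlg u) := inferInstance
    obtain ⟨k, hk⟩ := hn
    exact not_isUnit_zero (hk ▸ hu.pow k)
  rw [map_add, star'_algebraMap, add_right_inj] at ha
  obtain ⟨k, hk⟩ := hn
  obtain ⟨z, hzu, hz⟩ := exists_norm_one_add h.star' h.star'_star' h.inv_two k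
    (algebraMap F _ r⁻¹ * n) (by rw [mul_pow, hk, mul_zero]) (by rw [map_mul, star'_algebraMap, ha])
  refine ⟨r, z, hr, hzu, ?_⟩
  rw [hz, mul_add, mul_one, ← mul_assoc, ← map_mul, mul_inv_cancel₀ hr, map_one, one_mul]

/-- A norm of scalar residue has a square residue. -/
theorem square_of_norm (h : IsSympRegular u) {a : skewAlg u} {ν : F}
    (ha : a * h.star' a = algebraMap F _ ν) : ∃ r, r * r = ν := by
  obtain ⟨r, n, hn, rfl⟩ := h.exists_scalar_add a
  refine ⟨r, sub_eq_zero.1 (h.scalar_unique ?_)⟩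
  rw [map_add, star'_algebraMap] at ha
  have hn' : IsNilpotent (h.star' n) := hn.map h.star'
  have : algebraMap F (skewAlg u) (r * r - ν)
      = -(n * (algebraMap F _ r + h.star' n)) + -(algebraMap F _ r * h.star' n) := by
    rw [map_sub, map_mul, ← ha]; ring
  rw [this]
  exact (Commute.all _ _).isNilpotent_add ((Commute.all n _).isNilpotent_mul_right hn).neg
    ((Commute.all _ (h.star' n)).isNilpotent_mul_left hn').neg

end IsSympRegular

end Reg

end Cfsg.Agent.ClassConj
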